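import Cfsg.Agent.Helper29.Wreath

set_option autoImplicit false

namespace Cfsg.Agent.Helper29

open Equiv MulAction
open scoped Pointwise

variable {Ω ι : Type*} [Fintype Ω] [DecidableEq Ω] [DecidableEq ι]

/-- The even part of the partition stabilizer. -/
def evenPart (f : Ω → ι) : Subgroup (Perm Ω) := partStab f ⊓ alternatingGroup Ω

omit [Fintype Ω] [DecidableEq ι] in
theorem f_swap_eq (f : Ω → ι) {x y : Ω} (h : f x = f y) (u : Ω) : f (swap x y u) = f u := by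
  by_cases hx : u = x
  · subst hx; rw [swap_apply_left]; exact h.symm
  · by_cases hy : u = y
    · subst hy; rw [swap_apply_right]; exact h
    · rw [swap_apply_of_ne_of_ne hx hy]

omit [DecidableEq ι] in
theorem dswap_mem (f : Ω → ι) {p q r s : Ω} (h1 : f p = f q) (h2 : f r = f s) (hpq : p ≠ q)
    (hrs : r ≠ s) : swap p q * swap r s ∈ evenPart f := by
  refine Subgroup.mem_inf.mpr ⟨(partStab f).mul_mem (swap_mem_partStab f h1)
    (swap_mem_partStab f h2), Perm.mem_alternatingGroup.mpr ?_⟩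
  rw [Perm.sign_mul, Perm.sign_swap hpq, Perm.sign_swap hrs]
  rfl

omit [DecidableEq Ω] [DecidableEq ι] in
theorem exists_pair_other [Nontrivial ι] (f : Ω → ι) (a : ℕ) (ha : 2 ≤ a)
    (hf : ∀ i, Nat.card {x // f x = i} = a) (k : ι) :
    ∃ c c' : Ω, c ≠ c' ∧ f c = f c' ∧ f c ≠ k := by
  obtain ⟨j, hj⟩ := exists_ne k
  obtain ⟨c, c', hcc', hc, hc'⟩ := exists_pair_fibre f a ha hf j
  exact ⟨c, c', hcc', hc.trans hc'.symm, by rw [hc]; exact hj⟩

omit [DecidableEq ι] in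
theorem exists_even_same [Nontrivial ι] (f : Ω → ι) (a : ℕ) (ha : 2 ≤ a)
    (hf : ∀ i, Nat.card {x // f x = i} = a) {x y : Ω} (h : f x = f y) :
    ∃ g ∈ evenPart f, g x = y := by
  by_cases hxy : x = y
  · exact ⟨1, (evenPart f).one_mem, hxy⟩
  obtain ⟨c, c', hcc', hc, hck⟩ := exists_pair_other f a ha hf (f x)
  refine ⟨swap x y * swap c c', dswap_mem f h hc hxy hcc', ?_⟩
  have h1 : x ≠ c := fun h' => hck (by rw [← h'])
  have h2 : x ≠ c' := fun h' => hck (by rw [hc, ← h'])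
  rw [Perm.mul_apply, swap_apply_of_ne_of_ne h1 h2, swap_apply_left]

theorem exists_evenFibreSwap (f : Ω → ι) (a : ℕ) (ha : 2 ≤ a)
    (hf : ∀ i, Nat.card {x // f x = i} = a) {i j : ι} (hij : i ≠ j) :
    ∃ σ ∈ evenPart f, (∀ x, f x = i → f (σ x) = j) ∧ (∀ x, f x ≠ i → f x ≠ j → σ x = x) ∧
      (∀ v, f v = j → ∃ w, f w = i ∧ σ w = v) := by
  obtain ⟨e⟩ := exists_fibre_equiv f a hf i j
  obtain ⟨σ, hσ, hσ1, -, hσ3⟩ := exists_fibreSwap f hij e
  rcases Int.units_eq_one_or (Perm.sign σ) with hs | hs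
  · refine ⟨σ, Subgroup.mem_inf.mpr ⟨hσ, Perm.mem_alternatingGroup.mpr hs⟩, ?_, hσ3, ?_⟩
    · intro x hx
      rw [hσ1 x hx]
      exact (e ⟨x, hx⟩).2
    · intro v hv
      refine ⟨(e.symm ⟨v, hv⟩ : Ω), (e.symm ⟨v, hv⟩).2, ?_⟩
      rw [hσ1 _ (e.symm ⟨v, hv⟩).2]
      simp
  · obtain ⟨c, c', hcc', hc, hc'⟩ := exists_pair_fibre f a ha hf i
    have hcf : f c = f c' := hc.trans hc'.symm
    refine ⟨σ * swap c c', Subgroup.mem_inf.mpr ⟨(partStab f).mul_mem hσ
      (swap_mem_partStab f hcf), Perm.mem_alternatingGroup.mpr ?_⟩, ?_, ?_, ?_⟩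
    · rw [Perm.sign_mul, hs, Perm.sign_swap hcc']
      rfl
    · intro x hx
      rw [Perm.mul_apply]
      have h1 : f (swap c c' x) = i := by rw [f_swap_eq f hcf]; exact hx
      rw [hσ1 _ h1]
      exact (e ⟨_, h1⟩).2
    · intro x hxi hxj
      rw [Perm.mul_apply]
      have h1 : x ≠ c := fun h => hxi (by rw [h]; exact hc)
      have h2 : x ≠ c' := fun h => hxi (by rw [h]; exact hc')
      rw [swap_apply_of_ne_of_ne h1 h2]
      exact hσ3 x hxi hxj
    · intro v hv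
      refine ⟨swap c c' (e.symm ⟨v, hv⟩ : Ω), ?_, ?_⟩
      · rw [f_swap_eq f hcf]
        exact (e.symm ⟨v, hv⟩).2
      · rw [Perm.mul_apply, swap_apply_self, hσ1 _ (e.symm ⟨v, hv⟩).2]
        simp

theorem evenPart_exists_move [Nontrivial ι] (f : Ω → ι) (a : ℕ) (ha : 2 ≤ a)
    (hf : ∀ i, Nat.card {x // f x = i} = a) (x y : Ω) : ∃ g ∈ evenPart f, g x = y := by
  by_cases h : f x = f y
  · exact exists_even_same f a ha hf h
  · obtain ⟨σ, hσ, hσ1, -, -⟩ := exists_evenFibreSwap f a ha hf h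
    obtain ⟨τ, hτ, hτ1⟩ := exists_even_same f a ha hf (hσ1 x rfl)
    exact ⟨τ * σ, (evenPart f).mul_mem hτ hσ, by rw [Perm.mul_apply, hτ1]⟩

theorem evenPart_isPretransitive [Nontrivial ι] (f : Ω → ι) (a : ℕ) (ha : 2 ≤ a)
    (hf : ∀ i, Nat.card {x // f x = i} = a) {G : Subgroup (Perm Ω)} (hEG : evenPart f ≤ G) :
    IsPretransitive G Ω := by
  refine ⟨fun x y => ?_⟩
  obtain ⟨g, hg, hgx⟩ := evenPart_exists_move f a ha hf x y
  exact ⟨⟨g, hEG hg⟩, hgx⟩

omit [DecidableEq Ω] [DecidableEq ι] in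
theorem exists_two_others (f : Ω → ι) (a : ℕ) (ha : 3 ≤ a)
    (hf : ∀ i, Nat.card {x // f x = i} = a) (u : Ω) :
    ∃ z z₂ : Ω, z ≠ u ∧ z₂ ≠ u ∧ z ≠ z₂ ∧ f z = f u ∧ f z₂ = f u := by
  classical
  have h1 : 2 < Fintype.card {x // f x = f u} := by
    rw [← Nat.card_eq_fintype_card, hf]; omega
  obtain ⟨p₁, p₂, p₃, h12, h13, h23⟩ := Fintype.two_lt_card_iff.mp h1
  have n12 : (p₁ : Ω) ≠ p₂ := fun h => h12 (Subtype.ext h)
  have n13 : (p₁ : Ω) ≠ p₃ := fun h => h13 (Subtype.ext h)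
  have n23 : (p₂ : Ω) ≠ p₃ := fun h => h23 (Subtype.ext h)
  by_cases e1 : (p₁ : Ω) = u
  · exact ⟨p₂, p₃, fun h => n12 (e1.trans h.symm), fun h => n13 (e1.trans h.symm), n23, p₂.2, p₃.2⟩
  by_cases e2 : (p₂ : Ω) = u
  · exact ⟨p₁, p₃, e1, fun h => n23 (e2.trans h.symm), n13, p₁.2, p₃.2⟩
  exact ⟨p₁, p₂, e1, e2, n12, p₁.2, p₂.2⟩

omit [DecidableEq ι] in
theorem exists_moveA [Nontrivial ι] (f : Ω → ι) (a : ℕ) (ha : 2 ≤ a)
    (hf : ∀ i, Nat.card {x // f x = i} = a)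
    (h3 : 3 ≤ a ∨ ∀ i j : ι, ∃ k, k ≠ i ∧ k ≠ j) {t u : Ω} (htu : f t ≠ f u) :
    ∃ g ∈ evenPart f, g t = t ∧ g u ≠ u ∧ f (g u) = f u := by
  have htu' : t ≠ u := fun h => htu (by rw [h])
  rcases h3 with h3 | h3
  · obtain ⟨z, z₂, hzu, hz₂u, hzz₂, hfz, hfz₂⟩ := exists_two_others f a h3 hf u
    have htz : t ≠ z := fun h => htu (by rw [h, hfz])
    have htz₂ : t ≠ z₂ := fun h => htu (by rw [h, hfz₂])
    refine ⟨swap u z * swap z z₂, dswap_mem f hfz.symm (hfz.trans hfz₂.symm) (Ne.symm hzu) hzz₂,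
      ?_, ?_, ?_⟩
    · rw [Perm.mul_apply, swap_apply_of_ne_of_ne htz htz₂, swap_apply_of_ne_of_ne htu' htz]
    · rw [Perm.mul_apply, swap_apply_of_ne_of_ne (Ne.symm hzu) (Ne.symm hz₂u), swap_apply_left]
      exact hzu
    · rw [Perm.mul_apply, swap_apply_of_ne_of_ne (Ne.symm hzu) (Ne.symm hz₂u), swap_apply_left]
      exact hfz
  · obtain ⟨z, hzu, hfz⟩ := exists_other_in_fibre f a ha hf u
    obtain ⟨k, hk1, hk2⟩ := h3 (f t) (f u)
    obtain ⟨c, c', hcc', hc, hc'⟩ := exists_pair_fibre f a ha hf k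
    have htz : t ≠ z := fun h => htu (by rw [h, hfz])
    have htc : t ≠ c := fun h => hk1 (by rw [h, hc])
    have htc' : t ≠ c' := fun h => hk1 (by rw [h, hc'])
    have huc : u ≠ c := fun h => hk2 (by rw [h, hc])
    have huc' : u ≠ c' := fun h => hk2 (by rw [h, hc'])
    refine ⟨swap u z * swap c c', dswap_mem f hfz.symm (hc.trans hc'.symm) (Ne.symm hzu) hcc',
      ?_, ?_, ?_⟩
    · rw [Perm.mul_apply, swap_apply_of_ne_of_ne htc htc', swap_apply_of_ne_of_ne htu' htz]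
    · rw [Perm.mul_apply, swap_apply_of_ne_of_ne huc huc', swap_apply_left]
      exact hzu
    · rw [Perm.mul_apply, swap_apply_of_ne_of_ne huc huc', swap_apply_left]
      exact hfz

theorem even_block_trichotomy [Nontrivial ι] (f : Ω → ι) (a : ℕ) (ha : 2 ≤ a)
    (hf : ∀ i, Nat.card {x // f x = i} = a)
    (h3 : 3 ≤ a ∨ ∀ i j : ι, ∃ k, k ≠ i ∧ k ≠ j)
    {G : Subgroup (Perm Ω)} (hEG : evenPart f ≤ G) {B : Set Ω} (hB : IsBlock G B) :
    B.Subsingleton ∨ B = Set.univ ∨ ∃ i, B = {x | f x = i} := by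
  by_cases hsub : B.Subsingleton
  · exact Or.inl hsub
  right
  rw [Set.not_subsingleton_iff] at hsub
  obtain ⟨x, hx, y, hy, hxy⟩ := hsub
  have step1 : ∀ u ∈ B, ∀ v, f v = f u → v ∈ B := by
    intro u hu v hv
    have hu' : ∃ u' ∈ B, u' ≠ u ∧ f u' = f u := by
      obtain ⟨t, ht, htu⟩ : ∃ t ∈ B, t ≠ u := by
        by_cases h : x = u
        · exact ⟨y, hy, fun h' => hxy (h.trans h'.symm)⟩
        · exact ⟨x, hx, h⟩
      by_cases hft : f t = f u
      · exact ⟨t, ht, htu, hft⟩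
      · obtain ⟨g, hg, hgt, hgu, hfgu⟩ := exists_moveA f a ha hf h3 hft
        have := block_closed hB (hEG hg) ht (by rw [hgt]; exact ht) u hu
        exact ⟨g u, this, hgu, hfgu⟩
    obtain ⟨u', hu'B, hu'u, hfu'⟩ := hu'
    by_cases h1 : v = u
    · rw [h1]; exact hu
    by_cases h2 : v = u'
    · rw [h2]; exact hu'B
    obtain ⟨c, c', hcc', hc, hck⟩ := exists_pair_other f a ha hf (f u)
    have hmem : swap u' v * swap c c' ∈ evenPart f :=
      dswap_mem f (hfu'.trans hv.symm) hc (Ne.symm h2) hcc'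
    have huc : u ≠ c := fun h' => hck (by rw [← h'])
    have huc' : u ≠ c' := fun h' => hck (by rw [hc, ← h'])
    have hu'c : u' ≠ c := fun h' => hck (by rw [← h']; exact hfu')
    have hu'c' : u' ≠ c' := fun h' => hck (by rw [hc, ← h']; exact hfu')
    have hfix : (swap u' v * swap c c') u = u := by
      rw [Perm.mul_apply, swap_apply_of_ne_of_ne huc huc',
        swap_apply_of_ne_of_ne (Ne.symm hu'u) (Ne.symm h1)]
    have := block_closed hB (hEG hmem) hu (by rw [hfix]; exact hu) u' hu'B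
    rw [Perm.mul_apply, swap_apply_of_ne_of_ne hu'c hu'c', swap_apply_left] at this
    exact this
  by_cases hone : ∀ u ∈ B, f u = f x
  · right
    refine ⟨f x, ?_⟩
    ext u
    exact ⟨fun hu => hone u hu, fun hu => step1 x hx u hu⟩
  · left
    push Not at hone
    obtain ⟨u, hu, hfu⟩ := hone
    rw [Set.eq_univ_iff_forall]
    intro v
    by_cases h1 : f v = f x
    · exact step1 x hx v h1
    by_cases h2 : f v = f u
    · exact step1 u hu v h2
    obtain ⟨σ, hσ, -, hσ3, hσ4⟩ := exists_evenFibreSwap f a ha hf (Ne.symm h2 : f u ≠ f v)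
    have hfix : σ x = x := hσ3 x (Ne.symm hfu) (Ne.symm h1)
    obtain ⟨w, hw, hwv⟩ := hσ4 v rfl
    have := block_closed hB (hEG hσ) hx (by rw [hfix]; exact hx) w (step1 u hu w hw)
    rw [hwv] at this
    exact this

theorem even_isPreprimitive [Nontrivial ι] (f : Ω → ι) (a : ℕ) (ha : 2 ≤ a)
    (hf : ∀ i, Nat.card {x // f x = i} = a)
    (h3 : 3 ≤ a ∨ ∀ i j : ι, ∃ k, k ≠ i ∧ k ≠ j)
    {G : Subgroup (Perm Ω)} (hEG : evenPart f ≤ G)
    (hex : ∃ h ∈ G, ∃ x y : Ω, f x = f y ∧ f (h x) ≠ f (h y)) : IsPreprimitive G Ω := by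
  obtain ⟨h, hhG, x, y, hfxy, hne⟩ := hex
  have htrans : IsPretransitive G Ω := evenPart_isPretransitive f a ha hf hEG
  have claim : ∀ k, ¬ IsBlock G {z | f z = k} := by
    intro k hBk
    obtain ⟨p, p', hpp', hp, hp'⟩ := exists_pair_fibre f a ha hf k
    obtain ⟨g, hg⟩ := exists_smul_eq G p x
    have hB₁ : IsBlock G (g • {z | f z = k}) := hBk.translate g
    have hx₁ : x ∈ g • {z : Ω | f z = k} := by
      rw [← hg]; exact Set.smul_mem_smul_set hp
    have huniv₁ : g • {z : Ω | f z = k} ≠ Set.univ := by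
      intro h'
      apply fibre_ne_univ f a ha hf k
      have := congrArg (fun s : Set Ω => g⁻¹ • s) h'
      simpa using this
    rcases even_block_trichotomy f a ha hf h3 hEG hB₁ with h1 | h1 | ⟨k', h1⟩
    · have hp₁ : g • p ∈ g • {z : Ω | f z = k} := Set.smul_mem_smul_set hp
      have hp₂ : g • p' ∈ g • {z : Ω | f z = k} := Set.smul_mem_smul_set hp'
      exact hpp' (MulAction.injective g (h1 hp₁ hp₂))
    · exact huniv₁ h1
    · have hk' : f x = k' := by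
        have : x ∈ {z | f z = k'} := by rw [← h1]; exact hx₁
        exact this
      have hy₁ : y ∈ g • {z : Ω | f z = k} := by
        rw [h1]; exact hfxy.symm.trans hk'
      have hB₂ : IsBlock G ((⟨h, hhG⟩ : G) • (g • {z : Ω | f z = k})) := hB₁.translate _
      have hx₂ : h x ∈ (⟨h, hhG⟩ : G) • (g • {z : Ω | f z = k}) :=
        Set.smul_mem_smul_set (a := (⟨h, hhG⟩ : G)) hx₁
      have hy₂ : h y ∈ (⟨h, hhG⟩ : G) • (g • {z : Ω | f z = k}) :=
        Set.smul_mem_smul_set (a := (⟨h, hhG⟩ : G)) hy₁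
      rcases even_block_trichotomy f a ha hf h3 hEG hB₂ with h2 | h2 | ⟨k'', h2⟩
      · exact hne (congrArg f (h2 hx₂ hy₂))
      · apply huniv₁
        have := congrArg (fun s : Set Ω => (⟨h, hhG⟩ : G)⁻¹ • s) h2
        simpa using this
      · rw [h2] at hx₂ hy₂
        exact hne (hx₂.trans hy₂.symm)
  refine { toIsPretransitive := htrans, isTrivialBlock_of_isBlock := ?_ }
  intro B hB
  rcases even_block_trichotomy f a ha hf h3 hEG hB with h1 | h1 | ⟨k, h1⟩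
  · exact Or.inl h1
  · exact Or.inr h1
  · exact absurd (h1 ▸ hB) (claim k)

end Cfsg.Agent.Helper29
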