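import Cfsg.Agent.Helper29.AltWreath

set_option autoImplicit false

namespace Cfsg.Agent.Helper29

open Equiv MulAction
open scoped Pointwise

theorem exists_third {b : ℕ} (hb : 3 ≤ b) (i j : Fin b) : ∃ k : Fin b, k ≠ i ∧ k ≠ j := by
  have key : ∃ m, m < 3 ∧ m ≠ i.val ∧ m ≠ j.val := by
    by_cases h0 : 0 ≠ i.val ∧ 0 ≠ j.val
    · exact ⟨0, by omega, h0.1, h0.2⟩
    by_cases h1 : 1 ≠ i.val ∧ 1 ≠ j.val
    · exact ⟨1, by omega, h1.1, h1.2⟩
    exact ⟨2, by omega, by omega, by omega⟩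
  obtain ⟨m, hm, h1, h2⟩ := key
  exact ⟨⟨m, by omega⟩, fun h => h1 (congrArg Fin.val h), fun h => h2 (congrArg Fin.val h)⟩

theorem exists_fifth {b : ℕ} (hb : 5 ≤ b) (i₁ i₂ i₃ i₄ : Fin b) :
    ∃ k : Fin b, k ≠ i₁ ∧ k ≠ i₂ ∧ k ≠ i₃ ∧ k ≠ i₄ := by
  have key : ∃ m, m < 5 ∧ m ≠ i₁.val ∧ m ≠ i₂.val ∧ m ≠ i₃.val ∧ m ≠ i₄.val := by
    by_cases h0 : 0 ≠ i₁.val ∧ 0 ≠ i₂.val ∧ 0 ≠ i₃.val ∧ 0 ≠ i₄.val
    · exact ⟨0, by omega, h0⟩
    by_cases h1 : 1 ≠ i₁.val ∧ 1 ≠ i₂.val ∧ 1 ≠ i₃.val ∧ 1 ≠ i₄.val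
    · exact ⟨1, by omega, h1⟩
    by_cases h2 : 2 ≠ i₁.val ∧ 2 ≠ i₂.val ∧ 2 ≠ i₃.val ∧ 2 ≠ i₄.val
    · exact ⟨2, by omega, h2⟩
    by_cases h3 : 3 ≠ i₁.val ∧ 3 ≠ i₂.val ∧ 3 ≠ i₃.val ∧ 3 ≠ i₄.val
    · exact ⟨3, by omega, h3⟩
    exact ⟨4, by omega, by omega, by omega, by omega, by omega⟩
  obtain ⟨m, hm, h1, h2, h3, h4⟩ := key
  exact ⟨⟨m, by omega⟩, fun h => h1 (congrArg Fin.val h), fun h => h2 (congrArg Fin.val h),
    fun h => h3 (congrArg Fin.val h), fun h => h4 (congrArg Fin.val h)⟩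

variable {Ω ι : Type*} [Fintype Ω] [DecidableEq Ω] [DecidableEq ι]

omit [Fintype Ω] [DecidableEq Ω] [DecidableEq ι] in
theorem exists_mate (f : Ω → ι) (hf : ∀ i, Nat.card {x // f x = i} = 2) (p : Ω) :
    ∃ p', p' ≠ p ∧ f p' = f p ∧ ∀ q, f q = f p → q = p ∨ q = p' := by
  have h2 := hf (f p)
  rw [Nat.card_eq_two_iff] at h2
  obtain ⟨x, y, hxy, huniv⟩ := h2
  have hmem : ∀ w : {x // f x = f p}, w = x ∨ w = y := by
    intro w
    have : w ∈ ({x, y} : Set _) := by rw [huniv]; trivial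
    simpa using this
  rcases hmem ⟨p, rfl⟩ with hp | hp
  · refine ⟨y, fun h => hxy (hp.symm.trans (Subtype.ext h.symm)), y.2, ?_⟩
    intro q hq
    rcases hmem ⟨q, hq⟩ with h | h
    · left; exact congrArg Subtype.val (h.trans hp.symm)
    · right; exact congrArg Subtype.val h
  · refine ⟨x, fun h => hxy ((Subtype.ext h).trans hp), x.2, ?_⟩
    intro q hq
    rcases hmem ⟨q, hq⟩ with h | h
    · right; exact congrArg Subtype.val h
    · left; exact congrArg Subtype.val (h.trans hp.symm)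

omit [DecidableEq ι] in
theorem blockSwap_mem (f : Ω → ι) {p p' q q' : Ω} (hpp' : f p' = f p) (hqq' : f q' = f q)
    (hpq : f p ≠ f q) (hp : ∀ w, f w = f p → w = p ∨ w = p')
    (hq : ∀ w, f w = f q → w = q ∨ w = q') (hne : p ≠ p') (hne' : q ≠ q') :
    swap p q * swap p' q' ∈ evenPart f := by
  classical
  have h1 : p ≠ q := fun h => hpq (by rw [h])
  have h2 : p ≠ q' := fun h => hpq (by rw [h, hqq'])
  have h3 : p' ≠ q := fun h => hpq (by rw [← hpp', h])
  have h4 : p' ≠ q' := fun h => hpq (by rw [← hpp', h, hqq'])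
  have key : ∀ w, f ((swap p q * swap p' q') w) = swap (f p) (f q) (f w) := by
    intro w
    rw [Perm.mul_apply]
    by_cases hw1 : w = p
    · rw [hw1, swap_apply_of_ne_of_ne hne h2, swap_apply_left, swap_apply_left]
    by_cases hw2 : w = p'
    · rw [hw2, swap_apply_left, swap_apply_of_ne_of_ne (Ne.symm h2) (Ne.symm hne'), hpp',
        swap_apply_left, hqq']
    by_cases hw3 : w = q
    · rw [hw3, swap_apply_of_ne_of_ne (Ne.symm h3) hne', swap_apply_right, swap_apply_right]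
    by_cases hw4 : w = q'
    · rw [hw4, swap_apply_right, swap_apply_of_ne_of_ne (Ne.symm hne) h3, hqq', swap_apply_right,
        hpp']
    have h5 : f w ≠ f p := fun h => by
      rcases hp w h with h' | h'
      · exact hw1 h'
      · exact hw2 h'
    have h6 : f w ≠ f q := fun h => by
      rcases hq w h with h' | h'
      · exact hw3 h'
      · exact hw4 h'
    rw [swap_apply_of_ne_of_ne hw2 hw4, swap_apply_of_ne_of_ne hw1 hw3,
      swap_apply_of_ne_of_ne h5 h6]
  refine Subgroup.mem_inf.mpr ⟨?_, Perm.mem_alternatingGroup.mpr ?_⟩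
  · rw [mem_partStab]
    intro x y
    rw [key x, key y, (Equiv.injective _).eq_iff]
  · rw [Perm.sign_mul, Perm.sign_swap h1, Perm.sign_swap h4]
    rfl

omit [DecidableEq Ω] [DecidableEq ι] in
theorem card_eq_mul [Fintype ι] (f : Ω → ι) (a : ℕ) (hf : ∀ i, Nat.card {x // f x = i} = a) :
    Fintype.card Ω = Fintype.card ι * a := by
  classical
  rw [← Fintype.card_congr (Equiv.sigmaFiberEquiv f), Fintype.card_sigma]
  have : ∀ i : ι, Fintype.card {x // f x = i} = a := fun i => by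
    rw [← Nat.card_eq_fintype_card]; exact hf i
  simp only [this, Finset.sum_const, Finset.card_univ, smul_eq_mul]

theorem exists_threeCycle_two {b : ℕ} (f : Ω → Fin b) (hf : ∀ i, Nat.card {x // f x = i} = 2)
    (hb3 : 3 ≤ b) (hb4 : b ≠ 4) {G : Subgroup (Perm Ω)} (hEG : evenPart f ≤ G)
    (hex : ∃ h ∈ G, ∃ x y : Ω, f x = f y ∧ f (h x) ≠ f (h y)) :
    ∃ g ∈ G, Perm.IsThreeCycle g := by
  obtain ⟨h, hhG, x, y, hfxy, hne⟩ := hex
  have hxy : x ≠ y := fun e => hne (by rw [e])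
  obtain ⟨u', hu'u, hfu', hUall⟩ := exists_mate f hf (h x)
  obtain ⟨v', hv'v, hfv', hVall⟩ := exists_mate f hf (h y)
  have huv : h x ≠ h y := fun e => hne (by rw [e])
  have huv' : h x ≠ v' := fun e => hne (by rw [e, hfv'])
  have hu'v : u' ≠ h y := fun e => hne (by rw [← hfu', e])
  have hu'v' : u' ≠ v' := fun e => hne (by rw [← hfu', e, hfv'])
  obtain ⟨k₁, hk₁, -⟩ := exists_third hb3 (f x) (f x)
  obtain ⟨k₂, hk₂x, hk₂k₁⟩ := exists_third hb3 (f x) k₁
  have hgood : ∃ q q' : Ω, q ≠ q' ∧ f q = f q' ∧ f q ≠ f x ∧ h q ≠ u' ∧ h q ≠ v' := by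
    by_contra hbad
    push Not at hbad
    obtain ⟨q₁, q₂, hq12, hq₁, hq₂⟩ := exists_pair_fibre f 2 le_rfl hf k₁
    obtain ⟨q₃, q₄, hq34, hq₃, hq₄⟩ := exists_pair_fibre f 2 le_rfl hf k₂
    have B1 : h q₁ = u' ∨ h q₁ = v' := by
      by_cases e : h q₁ = u'
      · exact Or.inl e
      · exact Or.inr (hbad q₁ q₂ hq12 (hq₁.trans hq₂.symm) (by rw [hq₁]; exact hk₁) e)
    have B2 : h q₂ = u' ∨ h q₂ = v' := by
      by_cases e : h q₂ = u'
      · exact Or.inl e
      · exact Or.inr (hbad q₂ q₁ (Ne.symm hq12) (hq₂.trans hq₁.symm) (by rw [hq₂]; exact hk₁) e)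
    have B3 : h q₃ = u' ∨ h q₃ = v' := by
      by_cases e : h q₃ = u'
      · exact Or.inl e
      · exact Or.inr (hbad q₃ q₄ hq34 (hq₃.trans hq₄.symm) (by rw [hq₃]; exact hk₂x) e)
    have h13 : q₁ ≠ q₃ := fun e => hk₂k₁ (by rw [← hq₃, ← e, hq₁])
    have h23 : q₂ ≠ q₃ := fun e => hk₂k₁ (by rw [← hq₃, ← e, hq₂])
    rcases B1 with e1 | e1 <;> rcases B2 with e2 | e2 <;> rcases B3 with e3 | e3 <;>
      first
        | exact hq12 (h.injective (e1.trans e2.symm))
        | exact h13 (h.injective (e1.trans e3.symm))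
        | exact h23 (h.injective (e2.trans e3.symm))
  obtain ⟨q, q', hqq', hfq, hfqx, hwu', hwv'⟩ := hgood
  have hs : swap (h x) (h y) * swap (h q) (h q') ∈ G := by
    have h1 : swap x y * swap q q' ∈ G := hEG (dswap_mem f hfxy hfq hxy hqq')
    have h2 : h * (swap x y * swap q q') * h⁻¹ ∈ G :=
      G.mul_mem (G.mul_mem hhG h1) (G.inv_mem hhG)
    have h3 : h * (swap x y * swap q q') * h⁻¹ = swap (h x) (h y) * swap (h q) (h q') := by
      rw [Equiv.swap_apply_apply, Equiv.swap_apply_apply]; group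
    rw [h3] at h2
    exact h2
  have hqx : q ≠ x := fun e => hfqx (by rw [e])
  have hqy : q ≠ y := fun e => hfqx (by rw [e, hfxy])
  have hq'x : q' ≠ x := fun e => hfqx (by rw [hfq, e])
  have hq'y : q' ≠ y := fun e => hfqx (by rw [hfq, e, hfxy])
  have hwu : h q ≠ h x := fun e => hqx (h.injective e)
  have hwv : h q ≠ h y := fun e => hqy (h.injective e)
  have hzu : h q' ≠ h x := fun e => hq'x (h.injective e)
  have hzv : h q' ≠ h y := fun e => hq'y (h.injective e)
  have hwz : h q ≠ h q' := fun e => hqq' (h.injective e)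
  have hm : swap u' v' * swap (h x) (h y) ∈ G := by
    apply hEG
    exact blockSwap_mem f (p := u') (p' := h x) (q := v') (q' := h y) hfu'.symm hfv'.symm
      (by rw [hfu', hfv']; exact hne) (fun w hw => (hUall w (hw.trans hfu')).symm)
      (fun w hw => (hVall w (hw.trans hfv')).symm) hu'u hv'v
  have e1 : (swap u' v' * swap (h x) (h y)) * (swap (h x) (h y) * swap (h q) (h q'))
      = swap u' v' * swap (h q) (h q') := by
    rw [mul_assoc, Equiv.swap_mul_self_mul]
  have hg1 : swap u' v' * swap (h q) (h q') ∈ G := by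
    rw [← e1]; exact G.mul_mem hm hs
  by_cases hz1 : h q' = u'
  · refine ⟨_, hg1, ?_⟩
    rw [hz1, Equiv.swap_comm (h q) u']
    exact Perm.isThreeCycle_swap_mul_swap_same hu'v' (Ne.symm hwu') (Ne.symm hwv')
  by_cases hz2 : h q' = v'
  · refine ⟨_, hg1, ?_⟩
    rw [hz2, Equiv.swap_comm u' v', Equiv.swap_comm (h q) v']
    exact Perm.isThreeCycle_swap_mul_swap_same (Ne.symm hu'v') (Ne.symm hwv') (Ne.symm hwu')
  by_cases hfwz : f (h q) = f (h q')
  · have hd : swap (h q) (h q') * swap (h x) u' ∈ G :=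
      hEG (dswap_mem f hfwz hfu'.symm hwz (Ne.symm hu'u))
    have e2 : (swap u' v' * swap (h q) (h q')) * (swap (h q) (h q') * swap (h x) u')
        = swap u' v' * swap (h x) u' := by
      rw [mul_assoc, Equiv.swap_mul_self_mul]
    refine ⟨swap u' v' * swap (h x) u', ?_, ?_⟩
    · rw [← e2]; exact G.mul_mem hg1 hd
    · rw [Equiv.swap_comm (h x) u']
      exact Perm.isThreeCycle_swap_mul_swap_same hu'v' hu'u (Ne.symm huv')
  · have hfwu : f (h q) ≠ f (h x) := fun e => by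
      rcases hUall _ e with e' | e'
      · exact hwu e'
      · exact hwu' e'
    have hfwv : f (h q) ≠ f (h y) := fun e => by
      rcases hVall _ e with e' | e'
      · exact hwv e'
      · exact hwv' e'
    have hfzu : f (h q') ≠ f (h x) := fun e => by
      rcases hUall _ e with e' | e'
      · exact hzu e'
      · exact hz1 e'
    have hfzv : f (h q') ≠ f (h y) := fun e => by
      rcases hVall _ e with e' | e'
      · exact hzv e'
      · exact hz2 e'
    have hb5 : 5 ≤ b := by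
      by_contra hlt
      have hb : b = 3 := by omega
      have l1 := (f (h x)).isLt
      have l2 := (f (h y)).isLt
      have l3 := (f (h q)).isLt
      have l4 := (f (h q')).isLt
      have d1 : (f (h x)).val ≠ (f (h y)).val := fun e => hne (Fin.ext e)
      have d2 : (f (h q)).val ≠ (f (h q')).val := fun e => hfwz (Fin.ext e)
      have d3 : (f (h q)).val ≠ (f (h x)).val := fun e => hfwu (Fin.ext e)
      have d4 : (f (h q)).val ≠ (f (h y)).val := fun e => hfwv (Fin.ext e)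
      have d5 : (f (h q')).val ≠ (f (h x)).val := fun e => hfzu (Fin.ext e)
      have d6 : (f (h q')).val ≠ (f (h y)).val := fun e => hfzv (Fin.ext e)
      omega
    obtain ⟨k, hk1, hk2, hk3, hk4⟩ := exists_fifth hb5 (f (h x)) (f (h y)) (f (h q)) (f (h q'))
    obtain ⟨c, c', hcc', hc, hc'⟩ := exists_pair_fibre f 2 le_rfl hf k
    have hcu : c ≠ h x := fun e => hk1 (by rw [← hc, e])
    have hcv : c ≠ h y := fun e => hk2 (by rw [← hc, e])
    have hcw : c ≠ h q := fun e => hk3 (by rw [← hc, e])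
    have hcz : c ≠ h q' := fun e => hk4 (by rw [← hc, e])
    have hc'u : c' ≠ h x := fun e => hk1 (by rw [← hc', e])
    have hc'v : c' ≠ h y := fun e => hk2 (by rw [← hc', e])
    have hc'w : c' ≠ h q := fun e => hk3 (by rw [← hc', e])
    have hc'z : c' ≠ h q' := fun e => hk4 (by rw [← hc', e])
    have hsu : (swap (h x) (h y) * swap (h q) (h q')) (h x) = h y := by
      rw [Perm.mul_apply, swap_apply_of_ne_of_ne (Ne.symm hwu) (Ne.symm hzu), swap_apply_left]
    have hsu' : (swap (h x) (h y) * swap (h q) (h q')) u' = u' := by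
      rw [Perm.mul_apply, swap_apply_of_ne_of_ne (Ne.symm hwu') (Ne.symm hz1),
        swap_apply_of_ne_of_ne hu'u hu'v]
    have hsc : (swap (h x) (h y) * swap (h q) (h q')) c = c := by
      rw [Perm.mul_apply, swap_apply_of_ne_of_ne hcw hcz, swap_apply_of_ne_of_ne hcu hcv]
    have hsc' : (swap (h x) (h y) * swap (h q) (h q')) c' = c' := by
      rw [Perm.mul_apply, swap_apply_of_ne_of_ne hc'w hc'z, swap_apply_of_ne_of_ne hc'u hc'v]
    have hd : swap (h x) u' * swap c c' ∈ G :=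
      hEG (dswap_mem f hfu'.symm (hc.trans hc'.symm) (Ne.symm hu'u) hcc')
    have hd' : swap c c' * swap (h x) u' ∈ G :=
      hEG (dswap_mem f (hc.trans hc'.symm) hfu'.symm hcc' (Ne.symm hu'u))
    obtain ⟨s, hsdef⟩ : ∃ s : Perm Ω, s = swap (h x) (h y) * swap (h q) (h q') := ⟨_, rfl⟩
    rw [← hsdef] at hs hsu hsu' hsc hsc'
    have e3 : s * (swap (h x) u' * swap c c') * s⁻¹ = swap (h y) u' * swap c c' := by
      have : s * (swap (h x) u' * swap c c') * s⁻¹
          = (s * swap (h x) u' * s⁻¹) * (s * swap c c' * s⁻¹) := by group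
      rw [this, ← Equiv.swap_apply_apply, ← Equiv.swap_apply_apply, hsu, hsu', hsc, hsc']
    have e4 : (swap (h y) u' * swap c c') * (swap c c' * swap (h x) u')
        = swap (h y) u' * swap (h x) u' := by
      rw [mul_assoc, Equiv.swap_mul_self_mul]
    refine ⟨swap (h y) u' * swap (h x) u', ?_, ?_⟩
    · rw [← e4, ← e3]
      exact G.mul_mem (G.mul_mem (G.mul_mem hs hd) (G.inv_mem hs)) hd'
    · rw [Equiv.swap_comm (h y) u', Equiv.swap_comm (h x) u']
      exact Perm.isThreeCycle_swap_mul_swap_same hu'v hu'u (Ne.symm huv)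

end Cfsg.Agent.Helper29
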