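import Mathlib
import Cfsg.Agent.Helper29.KulA

/-!
Class sizes and Sylow subgroups inside centralizers (towards Cossey--Hawkes--Mann).
-/

set_option autoImplicit false

namespace Cfsg.Agent.Helper29.Chm

open MulAction
open scoped Pointwise
open Cfsg.Agent.Helper29.Kul

section basic

variable {G : Type*} [Group G]

/-- The size of the conjugacy class of `x`. -/
noncomputable def sz (x : G) : ℕ := Nat.card (ConjClasses.mk x).carrier

theorem card_centralizer_mul_sz [Finite G] (x : G) :
    Nat.card (Subgroup.centralizer ({x} : Set G)) * sz x = Nat.card G := by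
  unfold sz
  rw [Subgroup.nat_card_centralizer_nat_card_stabilizer, ← ConjAct.orbit_eq_carrier_conjClasses]
  have h1 := Subgroup.card_mul_index (MulAction.stabilizer (ConjAct G) x)
  rw [MulAction.index_stabilizer] at h1
  rw [Nat.card_coe_set_eq]
  exact h1

theorem sz_eq_index [Finite G] (x : G) :
    sz x = (Subgroup.centralizer ({x} : Set G)).index := by
  have h1 := card_centralizer_mul_sz x
  have h2 := Subgroup.card_mul_index (Subgroup.centralizer ({x} : Set G))
  exact Nat.eq_of_mul_eq_mul_left Nat.card_pos (h1.trans h2.symm)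

theorem sz_eq_one_iff [Finite G] (x : G) : sz x = 1 ↔ x ∈ Subgroup.center G := by
  rw [sz_eq_index, Subgroup.index_eq_one, Subgroup.centralizer_eq_top_iff_subset,
    Set.singleton_subset_iff]
  rfl

theorem centralizer_central_mul {z : G} (hz : z ∈ Subgroup.center G) (x : G) :
    Subgroup.centralizer ({z * x} : Set G) = Subgroup.centralizer ({x} : Set G) := by
  rw [Subgroup.mem_center_iff] at hz
  ext g
  simp only [Subgroup.mem_centralizer_iff, Set.mem_singleton_iff, forall_eq]
  constructor
  · intro h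
    have h1 : z * (x * g) = z * (g * x) := by
      rw [← mul_assoc, h, ← mul_assoc, hz g, mul_assoc]
    exact mul_left_cancel h1
  · intro h
    rw [mul_assoc, h, ← mul_assoc, ← hz g, mul_assoc]

theorem sz_central_mul [Finite G] {z : G} (hz : z ∈ Subgroup.center G) (x : G) :
    sz (z * x) = sz x := by
  rw [sz_eq_index, sz_eq_index, centralizer_central_mul hz]

end basic

section transfer

variable {G : Type*} [Group G] [Finite G]

theorem card_pred_sz [Fintype (ConjClasses G)] (φ : ℕ → Prop) [DecidablePred φ] :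
    Nat.card {x : G // φ (sz x)} =
      ∑ C : ConjClasses G, (if φ (Nat.card C.carrier) then Nat.card C.carrier else 0) := by
  haveI : Fintype G := Fintype.ofFinite G
  haveI : DecidableEq (ConjClasses G) := Classical.decEq _
  have h1 : Nat.card {x : G // φ (sz x)} = ∑ x : G, (if φ (sz x) then 1 else 0) := by
    rw [natCard_subtype_eq_filter, Finset.card_filter]
  rw [h1, ← Finset.sum_fiberwise Finset.univ (fun x : G => ConjClasses.mk x)
    (fun x => if φ (sz x) then 1 else 0)]
  apply Finset.sum_congr rfl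
  intro C _
  have h3 : ∀ x ∈ Finset.univ.filter (fun x : G => ConjClasses.mk x = C),
      (if φ (sz x) then 1 else 0) = (if φ (Nat.card C.carrier) then 1 else 0) := by
    intro x hx
    rw [Finset.mem_filter] at hx
    have h4 : sz x = Nat.card C.carrier := by
      unfold sz
      rw [hx.2]
    rw [h4]
  rw [Finset.sum_congr rfl h3, Finset.sum_const, smul_eq_mul]
  have h4 : (Finset.univ.filter (fun x : G => ConjClasses.mk x = C)).card =
      Nat.card C.carrier := by
    haveI : DecidablePred (fun x : G => x ∈ C.carrier) := Classical.decPred _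
    rw [← natCard_subtype_eq_filter]
    apply Nat.card_congr
    exact Equiv.subtypeEquivRight (fun x => (ConjClasses.mem_carrier_iff_mk_eq).symm)
  rw [h4]
  split_ifs <;> simp

theorem sum_classes_eq [Fintype (ConjClasses G)] (F : ℕ → ℕ) (B : ℕ) (hB : Nat.card G < B) :
    ∑ C : ConjClasses G, F (Nat.card C.carrier) =
      ∑ k ∈ Finset.range B, Nat.card {C : ConjClasses G // Nat.card C.carrier = k} * F k := by
  rw [← Finset.sum_fiberwise_of_maps_to (s := Finset.univ) (t := Finset.range B)
    (g := fun C : ConjClasses G => Nat.card C.carrier)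
    (fun C _ => Finset.mem_range.2 (lt_of_le_of_lt (Finite.card_subtype_le _) hB))
    (fun C => F (Nat.card C.carrier))]
  apply Finset.sum_congr rfl
  intro k _
  have h6 : ∀ C ∈ Finset.univ.filter (fun C : ConjClasses G => Nat.card C.carrier = k),
      F (Nat.card C.carrier) = F k := by
    intro C hC
    rw [Finset.mem_filter] at hC
    rw [hC.2]
  rw [Finset.sum_congr rfl h6, Finset.sum_const, smul_eq_mul, natCard_subtype_eq_filter]

theorem card_pred_sz_congr {H : Type*} [Group H] [Finite H]
    (h : ∀ k : ℕ, Nat.card {C : ConjClasses G // Nat.card C.carrier = k} =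
      Nat.card {C : ConjClasses H // Nat.card C.carrier = k}) (φ : ℕ → Prop) :
    Nat.card {x : G // φ (sz x)} = Nat.card {y : H // φ (sz y)} := by
  classical
  haveI : Fintype (ConjClasses G) := Fintype.ofFinite _
  haveI : Fintype (ConjClasses H) := Fintype.ofFinite _
  rw [card_pred_sz φ, card_pred_sz φ,
    sum_classes_eq (G := G) (fun k => if φ k then k else 0) (Nat.card G + Nat.card H + 1)
      (by omega),
    sum_classes_eq (G := H) (fun k => if φ k then k else 0) (Nat.card G + Nat.card H + 1)
      (by omega)]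
  apply Finset.sum_congr rfl
  intro k _
  rw [h k]

end transfer

section sylow

variable {G : Type*} [Group G] [Finite G] {p : ℕ} [hp : Fact p.Prime]

theorem not_dvd_sz_of_le_centralizer (Q : Sylow p G) {x : G}
    (h : (Q : Subgroup G) ≤ Subgroup.centralizer ({x} : Set G)) : ¬ p ∣ sz x := by
  rw [sz_eq_index]
  intro hd
  exact Q.not_dvd_index (hd.trans (Subgroup.index_dvd_of_le h))

theorem exists_sylow_le_centralizer {x : G} (h : ¬ p ∣ sz x) :
    ∃ Q : Sylow p G, (Q : Subgroup G) ≤ Subgroup.centralizer ({x} : Set G) := by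
  rw [sz_eq_index] at h
  obtain ⟨T⟩ : Nonempty (Sylow p (Subgroup.centralizer ({x} : Set G))) := inferInstance
  obtain ⟨Q, hQ⟩ := (T.2.map (Subgroup.centralizer ({x} : Set G)).subtype).exists_le_sylow
  refine ⟨Q, ?_⟩
  have h1 : ((T : Subgroup (Subgroup.centralizer ({x} : Set G))).map
      (Subgroup.centralizer ({x} : Set G)).subtype).index =
      (T : Subgroup (Subgroup.centralizer ({x} : Set G))).index *
        (Subgroup.centralizer ({x} : Set G)).index := Subgroup.index_map_subtype _
  have h2 : ¬ p ∣ ((T : Subgroup (Subgroup.centralizer ({x} : Set G))).map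
      (Subgroup.centralizer ({x} : Set G)).subtype).index := by
    rw [h1]
    exact Nat.Prime.not_dvd_mul hp.out T.not_dvd_index h
  have h3 := Subgroup.relIndex_dvd_index_of_le hQ
  have h4 : ((T : Subgroup (Subgroup.centralizer ({x} : Set G))).map
      (Subgroup.centralizer ({x} : Set G)).subtype).relIndex (Q : Subgroup G) ∣
      Nat.card (Q : Subgroup G) := Subgroup.relIndex_dvd_card _ _
  obtain ⟨k, hk⟩ := IsPGroup.iff_card.1 Q.2
  rw [hk] at h4
  obtain ⟨j, hj, hrel⟩ := (Nat.dvd_prime_pow hp.out).1 h4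
  have hj0 : j = 0 := by
    by_contra hne
    apply h2
    refine dvd_trans ?_ h3
    rw [hrel]
    exact dvd_pow_self p hne
  rw [hj0, pow_zero, Subgroup.relIndex_eq_one] at hrel
  exact hrel.trans (Subgroup.map_subtype_le _)

theorem card_stable_modEq_one {Γ X : Type*} [Group Γ] [MulAction Γ X] [Finite X] {p : ℕ}
    [Fact p.Prime] (hΓ : IsPGroup p Γ) (Y : Set X) (hY : ∀ (g : Γ) (y : X), y ∈ Y → g • y ∈ Y)
    (y₀ : X) (hy₀ : y₀ ∈ Y) (hfix₀ : ∀ g : Γ, g • y₀ = y₀)
    (hfix : ∀ y ∈ Y, (∀ g : Γ, g • y = y) → y = y₀) : Nat.card Y ≡ 1 [MOD p] := by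
  let S : SubMulAction Γ X := { carrier := Y, smul_mem' := fun g y hy => hY g y hy }
  have h1 := hΓ.card_modEq_card_fixedPoints S
  have h2 : Nat.card (fixedPoints Γ S) = 1 := by
    rw [Nat.card_eq_one_iff_unique]
    refine ⟨⟨?_⟩, ⟨⟨⟨y₀, hy₀⟩, ?_⟩⟩⟩
    · rintro ⟨⟨a, ha⟩, hfa⟩ ⟨⟨b, hb⟩, hfb⟩
      apply Subtype.ext
      apply Subtype.ext
      have ha' : a = y₀ := hfix a ha (fun g => congrArg Subtype.val (hfa g))
      have hb' : b = y₀ := hfix b hb (fun g => congrArg Subtype.val (hfb g))
      show a = b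
      rw [ha', hb']
    · intro g
      apply Subtype.ext
      exact hfix₀ g
  rw [h2] at h1
  exact h1

theorem card_sylow_le_centralizer_modEq {x : G} (h : ¬ p ∣ sz x) :
    Nat.card {Q : Sylow p G // (Q : Subgroup G) ≤ Subgroup.centralizer ({x} : Set G)} ≡
      1 [MOD p] := by
  obtain ⟨P₀, hP₀⟩ := exists_sylow_le_centralizer h
  refine card_stable_modEq_one (Γ := (P₀ : Subgroup G)) (X := Sylow p G) P₀.2
    {Q : Sylow p G | (Q : Subgroup G) ≤ Subgroup.centralizer ({x} : Set G)} ?_ P₀ hP₀ ?_ ?_
  · intro g Q hQ y hy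
    have h1 : y ∈ MulAut.conj (g : G) • (Q : Subgroup G) := hy
    rw [Helper1.mem_conj_smul] at h1
    have h2 := hQ h1
    have hg : (g : G) ∈ Subgroup.centralizer ({x} : Set G) := hP₀ g.2
    have h3 : y = (g : G) * ((g : G)⁻¹ * y * g) * (g : G)⁻¹ := by group
    rw [h3]
    exact Subgroup.mul_mem _ (Subgroup.mul_mem _ hg h2) (Subgroup.inv_mem _ hg)
  · intro g
    have h1 : P₀ ∈ fixedPoints (P₀ : Subgroup G) (Sylow p G) :=
      P₀.2.sylow_mem_fixedPoints_iff.2 le_rfl
    exact h1 g
  · intro Q _ hfixQ
    have h1 : Q ∈ fixedPoints (P₀ : Subgroup G) (Sylow p G) := hfixQ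
    have h2 := P₀.2.sylow_mem_fixedPoints_iff.1 h1
    exact Sylow.ext (P₀.3 Q.2 h2)

theorem sum_card_sylow_le_centralizer [Fintype G] [Fintype (Sylow p G)] :
    ∑ x : G, Nat.card {Q : Sylow p G // (Q : Subgroup G) ≤ Subgroup.centralizer ({x} : Set G)} =
      ∑ Q : Sylow p G, Nat.card (Subgroup.centralizer ((Q : Subgroup G) : Set G)) := by
  classical
  calc ∑ x : G, Nat.card {Q : Sylow p G // (Q : Subgroup G) ≤
        Subgroup.centralizer ({x} : Set G)}
      = ∑ x : G, ((Finset.univ : Finset (Sylow p G)).filter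
          (fun Q : Sylow p G => (Q : Subgroup G) ≤ Subgroup.centralizer ({x} : Set G))).card :=
        Finset.sum_congr rfl (fun x _ => natCard_subtype_eq_filter _)
    _ = ∑ Q : Sylow p G, ((Finset.univ : Finset G).filter
          (fun x : G => (Q : Subgroup G) ≤ Subgroup.centralizer ({x} : Set G))).card :=
        Finset.sum_card_bipartiteAbove_eq_sum_card_bipartiteBelow
          (fun (x : G) (Q : Sylow p G) => (Q : Subgroup G) ≤ Subgroup.centralizer ({x} : Set G))
    _ = ∑ Q : Sylow p G, Nat.card (Subgroup.centralizer ((Q : Subgroup G) : Set G)) := by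
        apply Finset.sum_congr rfl
        intro Q _
        rw [← natCard_subtype_eq_filter]
        apply Nat.card_congr
        apply Equiv.subtypeEquivRight
        intro x
        constructor
        · intro h1
          rw [Subgroup.mem_centralizer_iff]
          intro y hy
          have h2 := h1 hy
          rw [Subgroup.mem_centralizer_iff] at h2
          exact (h2 x rfl).symm
        · intro h1 y hy
          rw [Subgroup.mem_centralizer_iff] at h1 ⊢
          intro z hz
          rw [Set.mem_singleton_iff] at hz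
          rw [hz]
          exact (h1 y hy).symm

theorem card_centralizer_sylow_eq (P Q : Sylow p G) :
    Nat.card (Subgroup.centralizer ((Q : Subgroup G) : Set G)) =
      Nat.card (Subgroup.centralizer ((P : Subgroup G) : Set G)) := by
  obtain ⟨g, rfl⟩ := MulAction.exists_smul_eq G P Q
  symm
  apply Nat.card_congr
  refine (MulAut.conj g).toEquiv.subtypeEquiv ?_
  intro x
  rw [Subgroup.mem_centralizer_iff, Subgroup.mem_centralizer_iff]
  constructor
  · intro h y hy
    have hy' : g⁻¹ * y * g ∈ (P : Subgroup G) := Helper1.mem_conj_smul.1 hy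
    have h1 := h _ hy'
    show y * (g * x * g⁻¹) = g * x * g⁻¹ * y
    calc y * (g * x * g⁻¹) = g * ((g⁻¹ * y * g) * x) * g⁻¹ := by group
      _ = g * (x * (g⁻¹ * y * g)) * g⁻¹ := by rw [h1]
      _ = g * x * g⁻¹ * y := by group
  · intro h y hy
    have hy' : g * y * g⁻¹ ∈ ((g • P : Sylow p G) : Subgroup G) := by
      apply Helper1.mem_conj_smul.2
      have h0 : g⁻¹ * (g * y * g⁻¹) * g = y := by group
      rw [h0]
      exact hy
    have h2 : (g * y * g⁻¹) * (g * x * g⁻¹) = (g * x * g⁻¹) * (g * y * g⁻¹) := h _ hy'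
    calc y * x = g⁻¹ * ((g * y * g⁻¹) * (g * x * g⁻¹)) * g := by group
      _ = g⁻¹ * ((g * x * g⁻¹) * (g * y * g⁻¹)) * g := by rw [h2]
      _ = x * y := by group

end sylow

end Cfsg.Agent.Helper29.Chm
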