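import Mathlib
import Cfsg.Agent.Helper29.ChmA

/-!
Cossey--Hawkes--Mann: a finite group with the same class sizes (with multiplicities) as a
nilpotent group is nilpotent.
-/

set_option autoImplicit false

namespace Cfsg.Agent.Helper29.Chm

open MulAction
open scoped Pointwise
open Cfsg.Agent.Helper29.Kul

section nilp

variable {H : Type*} [Group H] [Finite H] [hH : Group.IsNilpotent H]

theorem sylow_le_centralizer_of_ne {p q : ℕ} [hp : Fact p.Prime] [hq : Fact q.Prime]
    (hne : q ≠ p) (P : Sylow p H) (Q : Sylow q H) :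
    (Q : Subgroup H) ≤ Subgroup.centralizer ((P : Subgroup H) : Set H) := by
  intro y hy
  rw [Subgroup.mem_centralizer_iff]
  intro x hx
  have hdis : Disjoint (P : Subgroup H) (Q : Subgroup H) :=
    IsPGroup.disjoint_of_ne p q (Ne.symm hne) _ _ P.2 Q.2
  exact (Subgroup.commute_of_normal_of_disjoint _ _ inferInstance inferInstance hdis x y
    hx hy).eq

theorem central_of_mem_sylow_centralizer {p : ℕ} [hp : Fact p.Prime] (P : Sylow p H) {x : H}
    (hxP : x ∈ (P : Subgroup H))
    (hxC : x ∈ Subgroup.centralizer ((P : Subgroup H) : Set H)) : x ∈ Subgroup.center H := by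
  have htop : (Subgroup.centralizer ({x} : Set H)).index = 1 := by
    rw [Nat.eq_one_iff_not_exists_prime_dvd]
    intro q hq hdvd
    haveI : Fact q.Prime := ⟨hq⟩
    obtain ⟨Q⟩ : Nonempty (Sylow q H) := inferInstance
    have hle : (Q : Subgroup H) ≤ Subgroup.centralizer ({x} : Set H) := by
      by_cases hqp : q = p
      · subst hqp
        obtain ⟨g, hg⟩ := MulAction.exists_smul_eq H P Q
        rw [Sylow.smul_eq_of_normal] at hg
        subst hg
        intro y hy
        rw [Subgroup.mem_centralizer_iff]
        intro z hz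
        rw [Set.mem_singleton_iff] at hz
        rw [hz]
        rw [Subgroup.mem_centralizer_iff] at hxC
        exact (hxC y hy).symm
      · intro y hy
        rw [Subgroup.mem_centralizer_iff]
        intro z hz
        rw [Set.mem_singleton_iff] at hz
        rw [hz]
        have h1 := sylow_le_centralizer_of_ne hqp P Q hy
        rw [Subgroup.mem_centralizer_iff] at h1
        exact h1 x hxP
    exact Q.not_dvd_index (hdvd.trans (Subgroup.index_dvd_of_le hle))
  rw [Subgroup.index_eq_one, Subgroup.centralizer_eq_top_iff_subset,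
    Set.singleton_subset_iff] at htop
  exact htop

theorem nilpotent_counts (p : ℕ) [hp : Fact p.Prime] :
    ∃ m t : ℕ, Nat.card {x : H // ¬ p ∣ sz x} = Nat.card (Subgroup.center H) * m ∧ ¬ p ∣ m ∧
      Nat.card H = Nat.card (Subgroup.center H) * m * p ^ t := by
  obtain ⟨P⟩ : Nonempty (Sylow p H) := inferInstance
  obtain ⟨C, hC⟩ : ∃ C : Subgroup H, C = Subgroup.centralizer ((P : Subgroup H) : Set H) :=
    ⟨_, rfl⟩
  have hZC : Subgroup.center H ≤ C := hC ▸ Subgroup.center_le_centralizer _
  have hI : Nat.card {x : H // ¬ p ∣ sz x} = Nat.card C := by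
    apply Nat.card_congr
    apply Equiv.subtypeEquivRight
    intro x
    rw [hC]
    constructor
    · intro h
      obtain ⟨Q, hQ⟩ := exists_sylow_le_centralizer h
      obtain ⟨g, hg⟩ := MulAction.exists_smul_eq H P Q
      rw [Sylow.smul_eq_of_normal] at hg
      subst hg
      rw [Subgroup.mem_centralizer_iff]
      intro y hy
      have h2 := hQ hy
      rw [Subgroup.mem_centralizer_iff] at h2
      exact (h2 x rfl).symm
    · intro h
      apply not_dvd_sz_of_le_centralizer P
      intro y hy
      rw [Subgroup.mem_centralizer_iff] at h ⊢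
      intro z hz
      rw [Set.mem_singleton_iff] at hz
      rw [hz]
      exact (h y hy).symm
  refine ⟨((Subgroup.center H).subgroupOf C).index, (C.index).primeFactorsList.length,
    ?_, ?_, ?_⟩
  · rw [hI, ← card_subgroupOf_of_le hZC]
    exact (Subgroup.card_mul_index _).symm
  · obtain ⟨T⟩ : Nonempty (Sylow p C) := inferInstance
    have hT : (T : Subgroup C) ≤ (Subgroup.center H).subgroupOf C := by
      intro t ht
      rw [Subgroup.mem_subgroupOf]
      obtain ⟨Q, hQ⟩ := (T.2.map C.subtype).exists_le_sylow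
      obtain ⟨g, hg⟩ := MulAction.exists_smul_eq H P Q
      rw [Sylow.smul_eq_of_normal] at hg
      subst hg
      exact central_of_mem_sylow_centralizer P (hQ ⟨t, ht, rfl⟩) (hC ▸ t.2)
    intro hd
    exact T.not_dvd_index (hd.trans (Subgroup.index_dvd_of_le hT))
  · have hidx : C.index = p ^ (C.index).primeFactorsList.length := by
      apply Nat.eq_prime_pow_of_unique_prime_dvd
      · exact Subgroup.index_ne_zero_of_finite
      · intro q hq hdvd
        by_contra hne
        haveI : Fact q.Prime := ⟨hq⟩
        obtain ⟨Q⟩ : Nonempty (Sylow q H) := inferInstance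
        exact Q.not_dvd_index (hdvd.trans (Subgroup.index_dvd_of_le
          (hC ▸ sylow_le_centralizer_of_ne hne P Q)))
    rw [← hidx, ← card_subgroupOf_of_le hZC, Subgroup.card_mul_index, Subgroup.card_mul_index]

end nilp

section main

variable {G : Type*} [Group G] [Finite G] {p : ℕ} [hp : Fact p.Prime]

theorem sylow_normal_of_counts (P : Sylow p G) (m t : ℕ)
    (hI : Nat.card {x : G // ¬ p ∣ sz x} = Nat.card (Subgroup.center G) * m) (hm : ¬ p ∣ m)
    (hN : Nat.card G = Nat.card (Subgroup.center G) * m * p ^ t) :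
    (P : Subgroup G).Normal := by
  classical
  haveI : Fintype G := Fintype.ofFinite G
  haveI : Fintype (Sylow p G) := Fintype.ofFinite _
  have hpp := hp.out
  obtain ⟨a, ha⟩ : ∃ a : ℕ, a = Nat.card (Subgroup.center G) := ⟨_, rfl⟩
  rw [← ha] at hI hN
  have ha0 : 0 < a := ha ▸ Nat.card_pos
  obtain ⟨A, hA⟩ : ∃ A : G → ℕ, ∀ x, A x = Nat.card {Q : Sylow p G //
      (Q : Subgroup G) ≤ Subgroup.centralizer ({x} : Set G)} := ⟨_, fun _ => rfl⟩
  obtain ⟨ind, hind⟩ : ∃ ind : G → ℕ, ∀ x, ind x = if p ∣ sz x then 0 else 1 :=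
    ⟨_, fun _ => rfl⟩
  have hle : ∀ x : G, ind x ≤ A x := by
    intro x
    rw [hind, hA]
    by_cases hx : p ∣ sz x
    · rw [if_pos hx]
      exact Nat.zero_le _
    · rw [if_neg hx]
      obtain ⟨Q, hQ⟩ := exists_sylow_le_centralizer hx
      haveI : Nonempty {Q : Sylow p G //
          (Q : Subgroup G) ≤ Subgroup.centralizer ({x} : Set G)} := ⟨⟨Q, hQ⟩⟩
      exact Nat.card_pos
  have hdvd : ∀ x : G, p ∣ A x - ind x := by
    intro x
    have h0 := hle x
    rw [hind, hA] at h0 ⊢
    by_cases hx : p ∣ sz x
    · have h1 : Nat.card {Q : Sylow p G //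
          (Q : Subgroup G) ≤ Subgroup.centralizer ({x} : Set G)} = 0 := by
        rw [Nat.card_eq_zero]
        left
        constructor
        rintro ⟨Q, hQ⟩
        exact not_dvd_sz_of_le_centralizer Q hQ hx
      rw [h1, if_pos hx]
      exact dvd_zero p
    · rw [if_neg hx] at h0 ⊢
      exact (Nat.modEq_iff_dvd' h0).1 (card_sylow_le_centralizer_modEq hx).symm
  have hsum : a * p ∣ ∑ x : G, (A x - ind x) := by
    apply dvd_sum_of_invariant (G := Subgroup.center G) (X := G) a p (fun x => A x - ind x)
    · intro z x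
      have e1 : z • x = (z : G) * x := rfl
      show A (z • x) - ind (z • x) = A x - ind x
      rw [e1, hA, hA, hind, hind, centralizer_central_mul z.2 x, sz_central_mul z.2 x]
    · intro x
      have hstab : stabilizer (Subgroup.center G) x = ⊥ := by
        rw [eq_bot_iff]
        intro z hz
        rw [mem_stabilizer_iff] at hz
        have e1 : z • x = (z : G) * x := rfl
        rw [e1] at hz
        rw [Subgroup.mem_bot]
        apply Subtype.ext
        rw [Subgroup.coe_one]
        exact mul_eq_right.1 hz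
      have h5 : (stabilizer (Subgroup.center G) x).index = a := by
        rw [hstab, Subgroup.index_bot, ha]
      exact dvd_of_eq h5.symm
    · exact hdvd
  have hS1 : ∑ x : G, (A x - ind x) = ∑ x : G, A x - ∑ x : G, ind x :=
    Finset.sum_tsub_distrib _ (fun x _ => hle x)
  have hSind : ∑ x : G, ind x = a * m := by
    rw [← hI, natCard_subtype_eq_filter, Finset.card_filter]
    apply Finset.sum_congr rfl
    intro x _
    rw [hind]
    by_cases hx : p ∣ sz x
    · rw [if_pos hx, if_neg (not_not.2 hx)]
    · rw [if_neg hx, if_pos hx]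
  have hSA : ∑ x : G, A x = Nat.card (Sylow p G) *
      Nat.card (Subgroup.centralizer ((P : Subgroup G) : Set G)) := by
    rw [Finset.sum_congr rfl (fun x _ => hA x), sum_card_sylow_le_centralizer,
      Finset.sum_congr rfl (fun Q _ => card_centralizer_sylow_eq P Q), Finset.sum_const,
      smul_eq_mul, Finset.card_univ, ← Nat.card_eq_fintype_card]
  obtain ⟨c', hc'⟩ : a ∣ Nat.card (Subgroup.centralizer ((P : Subgroup G) : Set G)) :=
    ha ▸ Subgroup.card_dvd_of_le (Subgroup.center_le_centralizer _)
  have hSN : Nat.card (Sylow p G) *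
      Nat.card (Subgroup.centralizer ((P : Subgroup G) : Set G)) ∣ Nat.card G := by
    have h1 := Sylow.card_eq_index_normalizer P
    rw [h1, ← Subgroup.card_mul_index (Subgroup.normalizer ((P : Subgroup G) : Set G)), mul_comm]
    exact Nat.mul_dvd_mul_right
      (Subgroup.card_dvd_of_le (Subgroup.centralizer_le_normalizer _)) _
  obtain ⟨n, hn⟩ : ∃ n : ℕ, n = Nat.card (Sylow p G) := ⟨_, rfl⟩
  rw [← hn, hc'] at hSA hSN
  obtain ⟨u, hu⟩ : ∃ u : ℕ, u = n * c' := ⟨_, rfl⟩
  have hSA' : ∑ x : G, A x = a * u := by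
    rw [hSA, hu]
    ring
  have hSN' : a * u ∣ a * (m * p ^ t) := by
    have h1 : n * (a * c') = a * u := by
      rw [hu]
      ring
    rw [h1, hN, mul_assoc] at hSN
    exact hSN
  have hmu : m ≤ u := by
    have h1 : ∑ x : G, ind x ≤ ∑ x : G, A x := Finset.sum_le_sum (fun x _ => hle x)
    rw [hSind, hSA'] at h1
    exact Nat.le_of_mul_le_mul_left h1 ha0
  have hpu : p ∣ u - m := by
    rw [hS1, hSind, hSA', ← Nat.mul_sub] at hsum
    exact Nat.dvd_of_mul_dvd_mul_left ha0 hsum
  have hnu : ¬ p ∣ u := by
    intro h1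
    apply hm
    have h2 := Nat.dvd_sub h1 hpu
    rwa [Nat.sub_sub_self hmu] at h2
  have hum : u ∣ m := by
    have h1 : u ∣ m * p ^ t := Nat.dvd_of_mul_dvd_mul_left ha0 hSN'
    have h2 : Nat.Coprime u (p ^ t) :=
      Nat.Coprime.pow_right t ((Nat.Prime.coprime_iff_not_dvd hpp).2 hnu).symm
    exact h2.dvd_of_dvd_mul_right h1
  have hm0 : 0 < m := by
    rcases Nat.eq_zero_or_pos m with h | h
    · exact absurd (h ▸ dvd_zero p) hm
    · exact h
  have hueq : u = m := le_antisymm (Nat.le_of_dvd hm0 hum) hmu
  have hzero : ∑ x : G, (A x - ind x) = 0 := by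
    rw [hS1, hSind, hSA', hueq, Nat.sub_self]
  have h1 := (Finset.sum_eq_zero_iff.1 hzero) 1 (Finset.mem_univ _)
  have hA1 : A 1 = Nat.card (Sylow p G) := by
    rw [hA]
    apply Nat.card_congr
    apply Equiv.subtypeUnivEquiv
    intro Q
    have h2 : Subgroup.centralizer ({1} : Set G) = ⊤ :=
      Subgroup.centralizer_eq_top_iff_subset.2 (Set.singleton_subset_iff.2 (Subgroup.one_mem _))
    rw [h2]
    exact le_top
  have hind1 : ind 1 ≤ 1 := by
    rw [hind]
    split_ifs <;> omega
  have hcard : Nat.card (Sylow p G) ≤ 1 := by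
    rw [← hA1]
    omega
  have h3 := Sylow.card_eq_index_normalizer P
  have h4 : (Subgroup.normalizer ((P : Subgroup G) : Set G)).index ≠ 0 :=
    Subgroup.index_ne_zero_of_finite
  have h5 : (Subgroup.normalizer ((P : Subgroup G) : Set G)).index = 1 := by
    have h6 : (Subgroup.normalizer ((P : Subgroup G) : Set G)).index = Nat.card (Sylow p G) :=
      h3.symm
    omega
  rw [Subgroup.index_eq_one] at h5
  exact Subgroup.normalizer_eq_top_iff.1 h5

end main

/-- **Cossey--Hawkes--Mann.** -/
theorem nilpotent_of_same_class_sizes {G H : Type*} [Group G] [Finite G] [Group H] [Finite H]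
    (hH : Group.IsNilpotent H)
    (h : ∀ k : ℕ, Nat.card {C : ConjClasses G // Nat.card C.carrier = k} =
      Nat.card {C : ConjClasses H // Nat.card C.carrier = k}) : Group.IsNilpotent G := by
  have key : ∀ (p : ℕ) (_hp : Fact p.Prime) (P : Sylow p G), (P : Subgroup G).Normal := by
    intro p hp P
    obtain ⟨m, t, h1, h2, h3⟩ := nilpotent_counts (H := H) p
    have hcard : Nat.card G = Nat.card H := by
      have h4 := card_pred_sz_congr h (fun _ => True)
      have e1 : Nat.card {x : G // True} = Nat.card G :=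
        Nat.card_congr (Equiv.subtypeUnivEquiv (fun _ => trivial))
      have e2 : Nat.card {x : H // True} = Nat.card H :=
        Nat.card_congr (Equiv.subtypeUnivEquiv (fun _ => trivial))
      exact e1.symm.trans (h4.trans e2)
    have hcen : Nat.card (Subgroup.center G) = Nat.card (Subgroup.center H) := by
      have h4 := card_pred_sz_congr h (fun k => k = 1)
      have e1 : Nat.card (Subgroup.center G) = Nat.card {x : G // sz x = 1} :=
        Nat.card_congr (Equiv.subtypeEquivRight (fun x => (sz_eq_one_iff x).symm))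
      have e2 : Nat.card (Subgroup.center H) = Nat.card {x : H // sz x = 1} :=
        Nat.card_congr (Equiv.subtypeEquivRight (fun x => (sz_eq_one_iff x).symm))
      exact e1.trans (h4.trans e2.symm)
    have hI := card_pred_sz_congr h (fun k => ¬ p ∣ k)
    apply sylow_normal_of_counts P m t
    · rw [hI, hcen]
      exact h1
    · exact h2
    · rw [hcard, hcen]
      exact h3
  exact ((Group.isNilpotent_of_finite_tfae (G := G)).out 0 3).2 key

end Cfsg.Agent.Helper29.Chm
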