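import Mathlib

set_option autoImplicit false

namespace Cfsg.Agent.Helper29

theorem exists_compl_of_interval {G : Type*} [Group G] [Finite G] (T X M : Subgroup G)
    (hTX : T ≤ X)
    (hint : ∀ Y : Subgroup G, T ≤ Y → Y ≤ X → ∃ C : Subgroup G, T ≤ C ∧ C ≤ X ∧ Y ⊔ C = X ∧ Y ⊓ C = T)
    (huniq : ∀ M' : Subgroup G, IsCoatom M' → X ≤ M' → M' = M)
    (H : Subgroup G) (hH : ¬ H ≤ M) (hHT : H ⊓ T = ⊥) :
    ∃ C : Subgroup G, H ⊔ C = ⊤ ∧ H ⊓ C = ⊥ := by
  obtain ⟨C, hTC, hCX, hsup, hinf⟩ := hint ((H ⊓ X) ⊔ T) le_sup_right (sup_le inf_le_right hTX)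
  refine ⟨C, ?_, ?_⟩
  · by_contra hne
    obtain ⟨M', hM', hle⟩ := (eq_top_or_exists_le_coatom (H ⊔ C)).resolve_left hne
    have hXle : X ≤ H ⊔ C := by
      rw [← hsup]
      exact sup_le (sup_le (inf_le_left.trans le_sup_left) (hTC.trans le_sup_right)) le_sup_right
    have hMM : M' = M := huniq M' hM' (hXle.trans hle)
    exact hH (hMM ▸ (le_sup_left.trans hle))
  · have h1 : H ⊓ C ≤ T := by
      rw [← hinf]
      exact le_inf (le_sup_of_le_left (le_inf inf_le_left (inf_le_right.trans hCX))) inf_le_right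
    have h2 : H ⊓ C ≤ H ⊓ T := le_inf inf_le_left h1
    rw [hHT] at h2
    exact le_bot_iff.mp h2

theorem exists_compl_of_map {G : Type*} [Group G] (φ : G ≃* G) (H : Subgroup G)
    (h : ∃ C : Subgroup G, H.map φ.toMonoidHom ⊔ C = ⊤ ∧ H.map φ.toMonoidHom ⊓ C = ⊥) :
    ∃ C : Subgroup G, H ⊔ C = ⊤ ∧ H ⊓ C = ⊥ := by
  obtain ⟨C, h1, h2⟩ := h
  have hH : (H.map φ.toMonoidHom).map φ.symm.toMonoidHom = H := by
    rw [Subgroup.map_map]
    have : φ.symm.toMonoidHom.comp φ.toMonoidHom = MonoidHom.id G := by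
      ext x; simp
    rw [this, Subgroup.map_id]
  refine ⟨C.map φ.symm.toMonoidHom, ?_, ?_⟩
  · rw [← hH, ← Subgroup.map_sup, h1]
    exact Subgroup.map_top_of_surjective _ φ.symm.surjective
  · rw [← hH, ← Subgroup.map_inf_eq _ _ _ φ.symm.injective, h2, Subgroup.map_bot]

theorem interval_of_complemented {G : Type*} [Group G] (X : Subgroup G)
    (hK : ComplementedLattice (Subgroup X)) (Y : Subgroup G) (hY : Y ≤ X) :
    ∃ C : Subgroup G, ⊥ ≤ C ∧ C ≤ X ∧ Y ⊔ C = X ∧ Y ⊓ C = ⊥ := by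
  obtain ⟨C', hC'⟩ := hK.exists_isCompl (Y.subgroupOf X)
  refine ⟨C'.map X.subtype, bot_le, Subgroup.map_subtype_le C', ?_, ?_⟩
  · have h1 : (Y.subgroupOf X ⊔ C').map X.subtype = X := by
      rw [hC'.sup_eq_top, ← MonoidHom.range_eq_map, Subgroup.range_subtype]
    rw [Subgroup.map_sup, Subgroup.map_subgroupOf_eq_of_le hY] at h1
    exact h1
  · have h1 : (Y.subgroupOf X ⊓ C').map X.subtype = ⊥ := by
      rw [hC'.inf_eq_bot, Subgroup.map_bot]
    rw [Subgroup.map_inf_eq _ _ _ X.subtype_injective, Subgroup.map_subgroupOf_eq_of_le hY] at h1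
    exact h1

end Cfsg.Agent.Helper29
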