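import Mathlib
import Cfsg.Agent.Helper29.KulB

/-!
Counting subgroups of order `p ^ a` modulo `p ^ 2`: reduction to a Sylow subgroup (main step).
-/

set_option autoImplicit false

namespace Cfsg.Agent.Helper29.Kul

open MulAction
open scoped Pointwise

section main

variable {G : Type*} [Group G]

abbrev PA (P : Subgroup G) (p a : ℕ) (H : Subgroup G) : Prop :=
  Nat.card H = p ^ a ∧ ¬ H ≤ P

abbrev PC (P : Subgroup G) (p n : ℕ) (Q : Subgroup G) : Prop :=
  Nat.card Q = p ^ n ∧ Nat.card (P ⊓ Q : Subgroup G) = p ^ (n - 1)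

abbrev PB (P : Subgroup G) (p n : ℕ) (H : Subgroup G) : Prop :=
  ∃ Q : Subgroup G, PC P p n Q ∧ H ≤ Q ∧ Q ≤ Subgroup.normalizer (H : Set G)

abbrev PY (P : Subgroup G) (p a : ℕ) (Q : Subgroup G) (H : Subgroup G) : Prop :=
  H ≤ Q ∧ (Nat.card H = p ^ a ∧ ¬ H ≤ P ∧ Q ≤ Subgroup.normalizer (H : Set G))

variable [Finite G] {p : ℕ} [hp : Fact p.Prime]

theorem sq_dvd_card_not_le_sylow (P : Sylow p G) (a n : ℕ)
    (hP : Nat.card (P : Subgroup G) = p ^ n) (han : a < n) :
    p ^ 2 ∣ Nat.card {H : Subgroup G // Nat.card H = p ^ a ∧ ¬ H ≤ (P : Subgroup G)} := by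
  classical
  change p ^ 2 ∣ Nat.card {H : Subgroup G // PA (P : Subgroup G) p a H}
  have hpp : p.Prime := hp.out
  have hPp : IsPGroup p (P : Subgroup G) := P.isPGroup'
  have hselfP : ∀ g : G, g ∈ (P : Subgroup G) → MulAut.conj g • (P : Subgroup G) = P :=
    fun g hg => conj_smul_self_of_mem _ hg
  have hIA : ∀ g : G, g ∈ (P : Subgroup G) → ∀ H : Subgroup G, PA (P : Subgroup G) p a H →
      PA (P : Subgroup G) p a (MulAut.conj g • H) := by
    intro g hg H hH
    refine ⟨(card_conj_smul g H).trans hH.1, fun h => hH.2 ?_⟩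
    rw [← hselfP g hg] at h
    exact Subgroup.pointwise_smul_le_pointwise_smul_iff.1 h
  have hIC : ∀ g : G, g ∈ (P : Subgroup G) → ∀ Q : Subgroup G, PC (P : Subgroup G) p n Q →
      PC (P : Subgroup G) p n (MulAut.conj g • Q) := by
    intro g hg Q hQ
    refine ⟨(card_conj_smul g Q).trans hQ.1, ?_⟩
    have h1 : (P : Subgroup G) ⊓ MulAut.conj g • Q = MulAut.conj g • ((P : Subgroup G) ⊓ Q) := by
      rw [Subgroup.smul_inf, hselfP g hg]
    rw [h1, card_conj_smul]
    exact hQ.2
  have hIB : ∀ g : G, g ∈ (P : Subgroup G) → ∀ H : Subgroup G, PB (P : Subgroup G) p n H →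
      PB (P : Subgroup G) p n (MulAut.conj g • H) := by
    rintro g hg H ⟨Q, hQ, hHQ, hQN⟩
    refine ⟨MulAut.conj g • Q, hIC g hg Q hQ,
      Subgroup.pointwise_smul_le_pointwise_smul_iff.2 hHQ, ?_⟩
    rw [normalizer_conj_smul]
    exact Subgroup.pointwise_smul_le_pointwise_smul_iff.2 hQN
  rw [card_subtype_split (PA (P : Subgroup G) p a) (PB (P : Subgroup G) p n)]
  apply dvd_add
  · -- the subgroups attached to a Sylow subgroup `Q` with `|P ∩ Q| = p ^ (n - 1)`
    haveI : Fintype {Q : Subgroup G // PC (P : Subgroup G) p n Q} := Fintype.ofFinite _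
    have hY : ∀ Q : {Q : Subgroup G // PC (P : Subgroup G) p n Q},
        p ∣ Nat.card {H : Subgroup G // PY (P : Subgroup G) p a Q.1 H} := by
      intro Q
      rw [card_subgroups_le_eq Q.1 (fun H => Nat.card H = p ^ a ∧ ¬ H ≤ (P : Subgroup G) ∧
        Q.1 ≤ Subgroup.normalizer (H : Set G))
        (fun H' : Subgroup Q.1 => (H'.Normal ∧ Nat.card H' = p ^ a) ∧
          ¬ H' ≤ (P : Subgroup G).subgroupOf Q.1) ?_]
      · apply dvd_card_normal_not_le p a n Q.2.1 han
        rw [← Subgroup.inf_subgroupOf_right, card_subgroupOf_of_le inf_le_right]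
        exact Q.2.2
      · intro H hH
        rw [card_subgroupOf_of_le hH, Subgroup.normal_subgroupOf_iff_le_normalizer hH]
        have h1 : H.subgroupOf Q.1 ≤ (P : Subgroup G).subgroupOf Q.1 ↔ H ≤ (P : Subgroup G) := by
          constructor
          · intro h x hx
            exact h (show (⟨x, hH hx⟩ : Q.1) ∈ H.subgroupOf Q.1 from hx)
          · intro h y hy
            exact h hy
        rw [h1]
        tauto
    have hsig : Nat.card {H : Subgroup G // PA (P : Subgroup G) p a H ∧ PB (P : Subgroup G) p n H} =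
        ∑ Q : {Q : Subgroup G // PC (P : Subgroup G) p n Q},
          Nat.card {H : Subgroup G // PY (P : Subgroup G) p a Q.1 H} := by
      rw [← Nat.card_sigma]
      apply Nat.card_congr
      exact
        { toFun := fun H => ⟨⟨H.2.2.choose, H.2.2.choose_spec.1⟩,
            ⟨H.1, H.2.2.choose_spec.2.1, H.2.1.1, H.2.1.2, H.2.2.choose_spec.2.2⟩⟩
          invFun := fun z => ⟨z.2.1, ⟨z.2.2.2.1, z.2.2.2.2.1⟩,
            ⟨z.1.1, z.1.2, z.2.2.1, z.2.2.2.2.2⟩⟩
          left_inv := fun H => rfl
          right_inv := fun z => by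
            have key : ∀ (hB : PB (P : Subgroup G) p n z.2.1), hB.choose = z.1.1 := fun hB =>
              (sylow_unique_aux P hP z.2.2.2.1 z.2.2.2.2.1 hB.choose_spec.1.1 hB.choose_spec.1.2
                hB.choose_spec.2.1 hB.choose_spec.2.2).trans
              (sylow_unique_aux P hP z.2.2.2.1 z.2.2.2.2.1 z.1.2.1 z.1.2.2 z.2.2.1
                z.2.2.2.2.2).symm
            apply Sigma.subtype_ext
            · apply Subtype.ext
              exact key _
            · rfl }
    rw [hsig, pow_two]
    letI : MulAction (P : Subgroup G) {Q : Subgroup G // PC (P : Subgroup G) p n Q} :=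
      conjActOn _ _ hIC
    apply dvd_sum_of_invariant (G := (P : Subgroup G)) p p _ _ _ hY
    · intro g Q
      have hiff : ∀ H : Subgroup G, PY (P : Subgroup G) p a Q.1 H ↔
          PY (P : Subgroup G) p a (g • Q).1 (MulAut.conj (g : G) • H) := by
        intro H
        have e1 : (g • Q).1 = MulAut.conj (g : G) • Q.1 := rfl
        have e2 : ∀ g' : G, g' ∈ (P : Subgroup G) →
            (MulAut.conj g' • H ≤ (P : Subgroup G) ↔ H ≤ (P : Subgroup G)) := by
          intro g' hg'
          have h0 : MulAut.conj g' • H ≤ MulAut.conj g' • (P : Subgroup G) ↔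
              H ≤ (P : Subgroup G) := Subgroup.pointwise_smul_le_pointwise_smul_iff
          rwa [hselfP g' hg'] at h0
        unfold PY
        rw [e1, Subgroup.pointwise_smul_le_pointwise_smul_iff, card_conj_smul,
          normalizer_conj_smul, Subgroup.pointwise_smul_le_pointwise_smul_iff, e2 (g : G) g.2]
      exact (Nat.card_congr (Equiv.subtypeEquiv (MulAction.toPerm (MulAut.conj (g : G))) hiff)).symm
    · intro Q
      obtain ⟨k, hk⟩ := hPp.index (stabilizer (P : Subgroup G) Q)
      rcases Nat.eq_zero_or_pos k with hk0 | hk0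
      · exfalso
        subst hk0
        rw [pow_zero, Subgroup.index_eq_one] at hk
        have h1 : Q.1 ≤ (P : Subgroup G) := by
          apply le_sylow_of_le_normalizer P (IsPGroup.of_card Q.2.1)
          intro g hg
          apply mem_normalizer_of_conj_smul_eq
          have h2 : (⟨g, hg⟩ : (P : Subgroup G)) ∈ stabilizer (P : Subgroup G) Q :=
            hk ▸ Subgroup.mem_top _
          exact congrArg Subtype.val (MulAction.mem_stabilizer_iff.1 h2)
        have h3 := Q.2.2
        rw [inf_eq_right.2 h1, Q.2.1] at h3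
        have := Nat.pow_right_injective hpp.two_le h3
        omega
      · rw [hk]
        exact dvd_pow_self p (by omega)
  · -- the other subgroups lie in orbits of length divisible by `p ^ 2`
    have hI2 : ∀ g : G, g ∈ (P : Subgroup G) → ∀ H : Subgroup G,
        (PA (P : Subgroup G) p a H ∧ ¬ PB (P : Subgroup G) p n H) →
        (PA (P : Subgroup G) p a (MulAut.conj g • H) ∧
          ¬ PB (P : Subgroup G) p n (MulAut.conj g • H)) := by
      intro g hg H hH
      refine ⟨hIA g hg H hH.1, fun hB => hH.2 ?_⟩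
      have h1 := hIB g⁻¹ (inv_mem hg) _ hB
      rwa [← mul_smul, ← map_mul, inv_mul_cancel, map_one, one_smul] at h1
    letI : MulAction (P : Subgroup G)
        {H : Subgroup G // PA (P : Subgroup G) p a H ∧ ¬ PB (P : Subgroup G) p n H} :=
      conjActOn _ _ hI2
    apply Helper21.dvd_card_of_forall_dvd_index_stabilizer (G := (P : Subgroup G))
    intro x
    obtain ⟨k, hk⟩ := hPp.index (stabilizer (P : Subgroup G) x)
    have hstab : ∀ g : (P : Subgroup G), g ∈ stabilizer (P : Subgroup G) x →
        MulAut.conj (g : G) • x.1 = x.1 :=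
      fun g hg => congrArg Subtype.val (MulAction.mem_stabilizer_iff.1 hg)
    rcases Nat.lt_or_ge k 2 with hk2 | hk2
    · exfalso
      interval_cases k
      · rw [pow_zero, Subgroup.index_eq_one] at hk
        apply x.2.1.2
        apply le_sylow_of_le_normalizer P (IsPGroup.of_card x.2.1.1)
        intro g hg
        apply mem_normalizer_of_conj_smul_eq
        exact hstab ⟨g, hg⟩ (hk ▸ Subgroup.mem_top _)
      · rw [pow_one] at hk
        apply x.2.2
        have hcard : Nat.card (stabilizer (P : Subgroup G) x) = p ^ (n - 1) := by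
          have h1 := Subgroup.card_mul_index (stabilizer (P : Subgroup G) x)
          rw [hk, hP] at h1
          have h2 : p ^ n = p ^ (n - 1) * p := by
            rw [← pow_succ]
            congr 1
            omega
          rw [h2] at h1
          exact Nat.eq_of_mul_eq_mul_right hpp.pos h1
        apply sylow_exists_aux P hP han x.2.1.1 x.2.1.2
          (N := (stabilizer (P : Subgroup G) x).map (P : Subgroup G).subtype)
          (Subgroup.map_subtype_le _) (by rw [Subgroup.card_subtype]; exact hcard)
        rintro y ⟨g, hg, rfl⟩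
        exact mem_normalizer_of_conj_smul_eq (hstab g hg)
    · rw [hk]
      exact pow_dvd_pow p hk2

/-- The number of subgroups of order `p ^ a` of `G` is congruent modulo `p ^ 2` to that of a
Sylow `p`-subgroup, when `p ^ a` is less than the order of the latter. -/
theorem card_subgroups_modEq_sylow (P : Sylow p G) (a n : ℕ)
    (hP : Nat.card (P : Subgroup G) = p ^ n) (han : a < n) :
    Nat.card {H : Subgroup G // Nat.card H = p ^ a} ≡
      Nat.card {H : Subgroup (P : Subgroup G) // Nat.card H = p ^ a} [MOD p ^ 2] := by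
  rw [card_subtype_split (fun H : Subgroup G => Nat.card H = p ^ a)
    (fun H => H ≤ (P : Subgroup G))]
  have h1 := sq_dvd_card_not_le_sylow P a n hP han
  have h2 : Nat.card {H : Subgroup G // Nat.card H = p ^ a ∧ H ≤ (P : Subgroup G)} =
      Nat.card {H : Subgroup (P : Subgroup G) // Nat.card H = p ^ a} := by
    rw [← card_subgroups_le_eq (P : Subgroup G) (fun H : Subgroup G => Nat.card H = p ^ a)
      (fun H' => Nat.card H' = p ^ a) (fun H hH => by rw [card_subgroupOf_of_le hH])]
    exact Nat.card_congr (Equiv.subtypeEquivRight (fun H => and_comm))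
  rw [h2]
  obtain ⟨c, hc⟩ := h1
  rw [hc]
  unfold Nat.ModEq
  rw [Nat.add_mul_mod_self_left]

end main

end Cfsg.Agent.Helper29.Kul
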