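import Mathlib
import Cfsg.Agent.Helper29.KulF

/-!
Counting subgroups of `p`-groups modulo `p ^ 2`: the recursion over maximal subgroups.
-/

set_option autoImplicit false

namespace Cfsg.Agent.Helper29.Kul

universe u

section kulG

variable {P : Type u} [Group P] [Finite P] {p : ℕ} [hp : Fact p.Prime]

theorem two_le_mu1_bot_of_not_cyclic {n : ℕ} (hn : 1 ≤ n) (hP : Nat.card P = p ^ n)
    (hnc : ¬ IsCyclic P) : 2 ≤ mu1 P p n ⊥ := by
  classical
  have hpp := hp.out
  by_contra hlt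
  apply hnc
  have hsub : Subsingleton {M : Subgroup P // Nat.card M = p ^ (n - 1) ∧ ⊥ ≤ M} := by
    rw [← Finite.card_le_one_iff_subsingleton]
    unfold mu1 at hlt
    omega
  have hdvd : p ^ (n - 1) ∣ Nat.card P := by
    rw [hP]
    exact pow_dvd_pow p (by omega)
  obtain ⟨M₀, hM₀⟩ := Sylow.exists_subgroup_card_pow_prime p hdvd
  have hne : M₀ ≠ ⊤ := by
    intro h
    rw [h, Subgroup.card_top, hP] at hM₀
    have := Nat.pow_right_injective hpp.two_le hM₀
    omega
  obtain ⟨x, hx⟩ : ∃ x, x ∉ M₀ := by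
    by_contra h
    simp only [not_exists, not_not] at h
    exact hne (eq_top_iff.2 (fun x _ => h x))
  rw [isCyclic_iff_exists_zpowers_eq_top]
  refine ⟨x, ?_⟩
  by_contra hz
  obtain ⟨i, hi, hci⟩ := exists_pow_lt_of_ne (p := p) (le_top : Subgroup.zpowers x ≤ ⊤) hz
    (by rw [Subgroup.card_top]; exact hP)
  obtain ⟨M, hM, hxM⟩ := Sylow.exists_subgroup_card_pow_prime_le p hdvd (Subgroup.zpowers x) hci
    (by omega)
  have h3 := hsub.elim ⟨M, hM, bot_le⟩ ⟨M₀, hM₀, bot_le⟩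
  have h4 : M = M₀ := congrArg Subtype.val h3
  exact hx (h4 ▸ hxM (Subgroup.mem_zpowers x))

theorem exists_two_maximals {n : ℕ} (hn : 1 ≤ n) (hP : Nat.card P = p ^ n)
    (hnc : ¬ IsCyclic P) : ∃ M₁ M₂ : Subgroup P, Nat.card M₁ = p ^ (n - 1) ∧
      Nat.card M₂ = p ^ (n - 1) ∧ M₁ ≠ M₂ := by
  have h2 := two_le_mu1_bot_of_not_cyclic hn hP hnc
  unfold mu1 at h2
  have hnt : Nontrivial {M : Subgroup P // Nat.card M = p ^ (n - 1) ∧ ⊥ ≤ M} := by
    rw [← Finite.one_lt_card_iff_nontrivial]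
    omega
  obtain ⟨A, B, hAB⟩ := exists_pair_ne {M : Subgroup P // Nat.card M = p ^ (n - 1) ∧ ⊥ ≤ M}
  exact ⟨A.1, B.1, A.2.1, B.2.1, fun h => hAB (Subtype.ext h)⟩

theorem exists_maximals (P : Type u) [Group P] [Finite P] (p : ℕ) (n : ℕ) :
    ∃ MM : Finset (Subgroup P),
      (∀ M, M ∈ MM ↔ Nat.card M = p ^ (n - 1)) ∧ MM.card = mu1 P p n ⊥ := by
  classical
  haveI : Fintype (Subgroup P) := Fintype.ofFinite _
  refine ⟨Finset.univ.filter (fun M => Nat.card M = p ^ (n - 1)), fun M => by simp, ?_⟩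
  unfold mu1
  rw [natCard_subtype_eq_filter]
  congr 1
  apply Finset.filter_congr
  intro M _
  simp

theorem card_top_level (P : Type u) [Group P] [Finite P] (p : ℕ) (n : ℕ) :
    Nat.card {H : Subgroup P // Nat.card H = p ^ (n - 1)} = mu1 P p n ⊥ := by
  unfold mu1
  apply Nat.card_congr
  exact Equiv.subtypeEquivRight (fun M => by simp)

theorem recursion_mod_sq {n : ℕ} (hP : Nat.card P = p ^ n) (hbot2 : 2 ≤ mu1 P p n ⊥) (a : ℕ)
    (han2 : a + 2 ≤ n) (MM : Finset (Subgroup P))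
    (hMM_mem : ∀ M, M ∈ MM ↔ Nat.card M = p ^ (n - 1)) :
    Nat.card {H : Subgroup P // Nat.card H = p ^ a} + p ≡
      ∑ M ∈ MM, Nat.card {H' : Subgroup M // Nat.card H' = p ^ a} [MOD p ^ 2] := by
  classical
  have hpp := hp.out
  haveI : Fintype (Subgroup P) := Fintype.ofFinite _
  have hn2 : 2 ≤ n := by omega
  have han2' : a ≤ n - 2 := by omega
  obtain ⟨S, hS_mem, hS_card⟩ : ∃ S : Finset (Subgroup P),
      (∀ H, H ∈ S ↔ Nat.card H = p ^ a) ∧
      S.card = Nat.card {H : Subgroup P // Nat.card H = p ^ a} :=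
    ⟨Finset.univ.filter (fun H => Nat.card H = p ^ a), fun H => by simp,
      (natCard_subtype_eq_filter _).symm⟩
  obtain ⟨K2, hK2_mem, hK2_card⟩ : ∃ K2 : Finset (Subgroup P),
      (∀ K, K ∈ K2 ↔ (Nat.card K = p ^ (n - 2) ∧ 2 ≤ mu1 P p n K)) ∧
      K2.card = mu2 P p n ⊥ := by
    refine ⟨Finset.univ.filter (fun K => Nat.card K = p ^ (n - 2) ∧ 2 ≤ mu1 P p n K),
      fun K => by simp, ?_⟩
    unfold mu2
    rw [natCard_subtype_eq_filter]
    congr 1
    apply Finset.filter_congr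
    intro K _
    simp
  have hmu1 : ∀ H : Subgroup P, mu1 P p n H = (MM.filter (fun M => H ≤ M)).card := by
    intro H
    unfold mu1
    rw [natCard_subtype_eq_filter]
    congr 1
    ext M
    simp only [Finset.mem_filter, Finset.mem_univ, true_and, hMM_mem]
  have hmu2 : ∀ H : Subgroup P, mu2 P p n H = (K2.filter (fun K => H ≤ K)).card := by
    intro H
    unfold mu2
    rw [natCard_subtype_eq_filter]
    congr 1
    ext K
    simp only [Finset.mem_filter, Finset.mem_univ, true_and, hK2_mem]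
    tauto
  have hT : ∀ (T : Subgroup P), (S.filter (fun H => H ≤ T)).card =
      Nat.card {H' : Subgroup T // Nat.card H' = p ^ a} := by
    intro T
    rw [← card_subgroups_le_eq T (fun H : Subgroup P => Nat.card H = p ^ a)
      (fun H' => Nat.card H' = p ^ a) (fun H hH => by rw [card_subgroupOf_of_le hH]),
      natCard_subtype_eq_filter]
    congr 1
    ext H
    simp only [Finset.mem_filter, Finset.mem_univ, true_and, hS_mem]
    tauto
  have hdc1 : ∑ H ∈ S, mu1 P p n H =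
      ∑ M ∈ MM, Nat.card {H' : Subgroup M // Nat.card H' = p ^ a} :=
    calc ∑ H ∈ S, mu1 P p n H = ∑ H ∈ S, (MM.filter (fun M => H ≤ M)).card :=
          Finset.sum_congr rfl (fun H _ => hmu1 H)
      _ = ∑ M ∈ MM, (S.filter (fun H => H ≤ M)).card :=
          Finset.sum_card_bipartiteAbove_eq_sum_card_bipartiteBelow
            (fun H M : Subgroup P => H ≤ M)
      _ = ∑ M ∈ MM, Nat.card {H' : Subgroup M // Nat.card H' = p ^ a} :=
          Finset.sum_congr rfl (fun M _ => hT M)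
  have hdc2 : ∑ H ∈ S, mu2 P p n H =
      ∑ K ∈ K2, Nat.card {H' : Subgroup K // Nat.card H' = p ^ a} :=
    calc ∑ H ∈ S, mu2 P p n H = ∑ H ∈ S, (K2.filter (fun K => H ≤ K)).card :=
          Finset.sum_congr rfl (fun H _ => hmu2 H)
      _ = ∑ K ∈ K2, (S.filter (fun H => H ≤ K)).card :=
          Finset.sum_card_bipartiteAbove_eq_sum_card_bipartiteBelow
            (fun H M : Subgroup P => H ≤ M)
      _ = ∑ K ∈ K2, Nat.card {H' : Subgroup K // Nat.card H' = p ^ a} :=
          Finset.sum_congr rfl (fun K _ => hT K)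
  have hS1 : ∀ H ∈ S, 1 ≤ mu1 P p n H := by
    intro H hH
    rw [hS_mem] at hH
    obtain ⟨M, hM, hHM⟩ := Sylow.exists_subgroup_card_pow_prime_le p
      (show p ^ (n - 1) ∣ Nat.card P by rw [hP]; exact pow_dvd_pow p (by omega)) H hH
      (by omega : a ≤ n - 1)
    unfold mu1
    rw [Nat.succ_le_iff, Nat.card_pos_iff]
    exact ⟨⟨⟨M, hM, hHM⟩⟩, inferInstance⟩
  have hkey : ∑ H ∈ S, mu1 P p n H ≡ S.card + p * ∑ H ∈ S, mu2 P p n H [MOD p ^ 2] := by
    have h1 : ∑ H ∈ S, mu1 P p n H ≡ ∑ H ∈ S, (1 + p * mu2 P p n H) [MOD p ^ 2] :=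
      sum_modEq S _ _ _ (fun H hH => mu1_modEq_mu2 hn2 hP H (hS1 H hH))
    rw [Finset.sum_add_distrib, Finset.sum_const, smul_eq_mul, mul_one, ← Finset.mul_sum] at h1
    exact h1
  rw [hdc1, hdc2, hS_card] at hkey
  have hK2sum : p * ∑ K ∈ K2, Nat.card {H' : Subgroup K // Nat.card H' = p ^ a} ≡
      p [MOD p ^ 2] := by
    have h1 : ∑ K ∈ K2, Nat.card {H' : Subgroup K // Nat.card H' = p ^ a} ≡
        ∑ K ∈ K2, 1 [MOD p] := by
      apply sum_modEq
      intro K hK
      rw [hK2_mem] at hK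
      apply Helper21.card_subgroups_modEq_one p a hpp
      rw [hK.1]
      exact pow_dvd_pow p han2'
    rw [Finset.sum_const, smul_eq_mul, mul_one, hK2_card] at h1
    have h2 := h1.trans (mu2_modEq_one hn2 hP ⊥ hbot2)
    have h3 := Nat.ModEq.mul_left' p h2
    rw [mul_one, ← pow_two] at h3
    exact h3
  have h7 : Nat.card {H : Subgroup P // Nat.card H = p ^ a} +
      p * ∑ K ∈ K2, Nat.card {H' : Subgroup K // Nat.card H' = p ^ a} ≡
      Nat.card {H : Subgroup P // Nat.card H = p ^ a} + p [MOD p ^ 2] :=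
    Nat.ModEq.add_left _ hK2sum
  exact h7.symm.trans hkey.symm

end kulG

end Cfsg.Agent.Helper29.Kul
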