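import Mathlib
import Cfsg.Agent.Helper29.KulG
import Cfsg.Agent.Helper24.InvCount4
import Cfsg.Agent.Helper24.MaxClassTaussky

/-!
Counting subgroups of `2`-groups modulo `4`: involutions and the derived subgroup.
-/

set_option autoImplicit false

namespace Cfsg.Agent.Helper29.Kul

universe u

section kulH

variable {X : Type u} [Group X] [Finite X]

theorem card_order_two_subgroups :
    Nat.card {H : Subgroup X // Nat.card H = 2 ^ 1} = Nat.card {x : X // orderOf x = 2} := by
  apply Nat.card_congr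
  symm
  refine Equiv.ofBijective (fun x => ⟨Subgroup.zpowers x.1, by
    rw [Nat.card_zpowers, x.2, pow_one]⟩) ⟨?_, ?_⟩
  · intro x y h
    have h1 : Subgroup.zpowers x.1 = Subgroup.zpowers y.1 := congrArg Subtype.val h
    have hx : x.1 ∈ Subgroup.zpowers y.1 := h1 ▸ Subgroup.mem_zpowers x.1
    obtain ⟨k, hk⟩ := Subgroup.mem_zpowers_iff.1 hx
    have hy2 : y.1 ^ 2 = 1 := by
      have h5 := pow_orderOf_eq_one y.1
      rw [y.2] at h5
      exact h5
    rcases Int.emod_two_eq_zero_or_one k with h0 | h0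
    · exfalso
      obtain ⟨j, rfl⟩ : ∃ j, k = 2 * j := ⟨k / 2, by omega⟩
      rw [zpow_mul, zpow_ofNat, hy2, one_zpow] at hk
      have := x.2
      rw [← hk, orderOf_one] at this
      omega
    · obtain ⟨j, rfl⟩ : ∃ j, k = 2 * j + 1 := ⟨k / 2, by omega⟩
      rw [zpow_add, zpow_mul, zpow_ofNat, hy2, one_zpow, one_mul, zpow_one] at hk
      exact Subtype.ext hk.symm
  · rintro ⟨H, hH⟩
    rw [pow_one] at hH
    have hne : H ≠ ⊥ := by
      intro h
      rw [h, Subgroup.card_bot] at hH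
      omega
    obtain ⟨x, hxH, hx1⟩ := (Subgroup.ne_bot_iff_exists_ne_one).1 hne |>.imp
      (fun x hx => hx) |> fun ⟨x, hx⟩ => (⟨x.1, x.2, fun h => hx (Subtype.ext h)⟩ :
        ∃ x : X, x ∈ H ∧ x ≠ 1)
    have ho : orderOf x = 2 := by
      have h1 := Subgroup.orderOf_dvd_natCard H hxH
      rw [hH] at h1
      rcases (Nat.dvd_prime Nat.prime_two).1 h1 with h2 | h2
      · exact absurd (orderOf_eq_one_iff.1 h2) hx1
      · exact h2
    refine ⟨⟨x, ho⟩, Subtype.ext ?_⟩
    apply Subgroup.eq_of_le_of_card_ge ((Subgroup.zpowers_le).2 hxH)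
    rw [Nat.card_zpowers, ho, hH]

theorem commutator_le_of_card_pred {n : ℕ} (hn : 1 ≤ n) (hX : Nat.card X = 2 ^ n)
    (M : Subgroup X) (hM : Nat.card M = 2 ^ (n - 1)) : commutator X ≤ M := by
  haveI : Fact (Nat.Prime 2) := ⟨Nat.prime_two⟩
  have hi : M.index = 2 := index_eq_of_card_pred (p := 2) hn hX hM
  rw [commutator_def, Subgroup.commutator_le]
  intro a _ b _
  rw [commutatorElement_def, Subgroup.mul_mem_iff_of_index_two hi,
    Subgroup.mul_mem_iff_of_index_two hi, Subgroup.mul_mem_iff_of_index_two hi,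
    Subgroup.inv_mem_iff, Subgroup.inv_mem_iff]
  tauto

theorem mc_of_card_commutator {n : ℕ} (hn : 3 ≤ n) (hX : Nat.card X = 2 ^ n)
    (hnc : ¬ IsCyclic X) (hc : Nat.card (commutator X) = 2 ^ (n - 2)) :
    Group.nilpotencyClass X = n - 1 := by
  haveI : Fact (Nat.Prime 2) := ⟨Nat.prime_two⟩
  obtain ⟨M₁, M₂, h1, h2, hne⟩ := exists_two_maximals (p := 2) (by omega) hX hnc
  have hle : commutator X ≤ M₁ ⊓ M₂ :=
    le_inf (commutator_le_of_card_pred (by omega) hX M₁ h1)
      (commutator_le_of_card_pred (by omega) hX M₂ h2)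
  have hinf : Nat.card (M₁ ⊓ M₂ : Subgroup X) = 2 ^ (n - 2) :=
    card_inf_of_ne (p := 2) (by omega) hX h1 h2 hne
  have heq : commutator X = M₁ ⊓ M₂ := by
    apply Subgroup.eq_of_le_of_card_ge hle
    rw [hinf, hc]
  have hidx : (commutator X).index = 4 := by
    have h3 := Subgroup.card_mul_index (commutator X)
    rw [hc, hX] at h3
    have h4 : (2 : ℕ) ^ n = 2 ^ (n - 2) * 4 := by
      have : n = (n - 2) + 2 := by omega
      conv_lhs => rw [this, pow_add]
      norm_num
    rw [h4] at h3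
    exact Nat.eq_of_mul_eq_mul_left (by positivity) h3
  apply Helper24.maximal_class_of_klein n hn X hX hidx
  intro g
  rw [heq, Subgroup.mem_inf]
  exact ⟨Subgroup.sq_mem_of_index_two (index_eq_of_card_pred (p := 2) (by omega) hX h1) g,
    Subgroup.sq_mem_of_index_two (index_eq_of_card_pred (p := 2) (by omega) hX h2) g⟩

theorem card_commutator_dvd {n : ℕ} (hn : 3 ≤ n) (hX : Nat.card X = 2 ^ n)
    (hnc : ¬ IsCyclic X) (hmc : Group.nilpotencyClass X ≠ n - 1) :
    Nat.card (commutator X) ∣ 2 ^ (n - 3) := by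
  haveI : Fact (Nat.Prime 2) := ⟨Nat.prime_two⟩
  obtain ⟨M₁, M₂, h1, h2, hne⟩ := exists_two_maximals (p := 2) (by omega) hX hnc
  have hle : commutator X ≤ M₁ ⊓ M₂ :=
    le_inf (commutator_le_of_card_pred (by omega) hX M₁ h1)
      (commutator_le_of_card_pred (by omega) hX M₂ h2)
  have hinf : Nat.card (M₁ ⊓ M₂ : Subgroup X) = 2 ^ (n - 2) :=
    card_inf_of_ne (p := 2) (by omega) hX h1 h2 hne
  by_cases heq : commutator X = M₁ ⊓ M₂
  · exfalso
    apply hmc
    apply mc_of_card_commutator hn hX hnc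
    rw [heq, hinf]
  · obtain ⟨i, hi, hci⟩ := exists_pow_lt_of_ne (p := 2) hle heq hinf
    rw [hci]
    exact pow_dvd_pow 2 (by omega)

theorem involutions_mod_four {n : ℕ} (hn : 3 ≤ n) (hX : Nat.card X = 2 ^ n)
    (hnc : ¬ IsCyclic X) (hmc : Group.nilpotencyClass X ≠ n - 1) :
    Nat.card {H : Subgroup X // Nat.card H = 2 ^ 1} % 4 = 3 := by
  have h1 : Nat.card {H : Subgroup X // Nat.card H = 2 ^ 1} ≡ 1 [MOD 2] := by
    apply Helper21.card_subgroups_modEq_one 2 1 Nat.prime_two
    rw [hX]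
    exact pow_dvd_pow 2 (by omega)
  unfold Nat.ModEq at h1
  by_contra hne
  have h2 : Nat.card {x : X // orderOf x = 2} % 4 = 1 := by
    rw [← card_order_two_subgroups]
    omega
  rcases Helper24.cyclic_or_index_four_of_involutions (IsPGroup.of_card hX) h2 with h3 | h3
  · exact hnc h3
  · apply hmc
    apply mc_of_card_commutator hn hX hnc
    have h4 := Subgroup.card_mul_index (commutator X)
    rw [h3, hX] at h4
    have h5 : (2 : ℕ) ^ n = 2 ^ (n - 2) * 4 := by
      have : n = (n - 2) + 2 := by omega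
      conv_lhs => rw [this, pow_add]
      norm_num
    rw [h5] at h4
    exact Nat.eq_of_mul_eq_mul_right (by norm_num) h4

end kulH

end Cfsg.Agent.Helper29.Kul
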