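import Mathlib
import Cfsg.Agent.Helper29.KulH

/-!
Counting subgroups of `2`-groups modulo `4`: cyclic maximal subgroups.
-/

set_option autoImplicit false

namespace Cfsg.Agent.Helper29.Kul

universe u

theorem eq_of_zpowers_eq_of_orderOf_two {G : Type*} [Group G] {x y : G} (hx : orderOf x = 2)
    (hy : orderOf y = 2) (h1 : Subgroup.zpowers x = Subgroup.zpowers y) : x = y := by
  have hxm : x ∈ Subgroup.zpowers y := h1 ▸ Subgroup.mem_zpowers x
  obtain ⟨k, hk⟩ := Subgroup.mem_zpowers_iff.1 hxm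
  have hy2 : y ^ 2 = 1 := by
    have h5 := pow_orderOf_eq_one y
    rw [hy] at h5
    exact h5
  rcases Int.emod_two_eq_zero_or_one k with h0 | h0
  · exfalso
    obtain ⟨j, rfl⟩ : ∃ j, k = 2 * j := ⟨k / 2, by omega⟩
    rw [zpow_mul, zpow_ofNat, hy2, one_zpow] at hk
    rw [← hk, orderOf_one] at hx
    omega
  · obtain ⟨j, rfl⟩ : ∃ j, k = 2 * j + 1 := ⟨k / 2, by omega⟩
    rw [zpow_add, zpow_mul, zpow_ofNat, hy2, one_zpow, one_mul, zpow_one] at hk
    exact hk.symm

theorem eq_of_le_cyclic {G : Type*} [Group G] [Finite G] (C : Subgroup G) [IsCyclic C]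
    (p b : ℕ) (hp : p.Prime) {H K : Subgroup G} (hH : H ≤ C) (hK : K ≤ C)
    (hHc : Nat.card H = p ^ b) (hKc : Nat.card K = p ^ b) : H = K := by
  have hdvd : p ^ b ∣ Nat.card C := by
    rw [← hHc]
    exact Subgroup.card_dvd_of_le hH
  have h1 := Helper21.cyclic_card_subgroups_eq_one (C := C) p b hp hdvd
  have h2 := card_subgroups_le_eq C (fun H : Subgroup G => Nat.card H = p ^ b)
    (fun H' => Nat.card H' = p ^ b) (fun H hH => by rw [card_subgroupOf_of_le hH])
  rw [h1] at h2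
  have hsub : Subsingleton {H : Subgroup G // H ≤ C ∧ Nat.card H = p ^ b} := by
    rw [← Finite.card_le_one_iff_subsingleton, h2]
  exact congrArg Subtype.val (hsub.elim ⟨H, hH, hHc⟩ ⟨K, hK, hKc⟩)

theorem even_card_cyclic_maximals {X : Type u} [Group X] [Finite X] {r : ℕ} (hr : 3 ≤ r)
    (hX : Nat.card X = 2 ^ r) (hnc : ¬ IsCyclic X)
    (hcomm : Nat.card (commutator X) ∣ 2 ^ (r - 3)) (MM : Finset (Subgroup X))
    (hMM_mem : ∀ M, M ∈ MM ↔ Nat.card M = 2 ^ (r - 1))
    [DecidablePred (fun M : Subgroup X => IsCyclic M)] :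
    2 ∣ (MM.filter (fun M : Subgroup X => IsCyclic M)).card := by
  haveI : DecidableEq (Subgroup X) := Classical.decEq _
  haveI : Fact (Nat.Prime 2) := ⟨Nat.prime_two⟩
  by_cases hex : ∃ M₀ ∈ MM, IsCyclic M₀
  swap
  · have h1 : MM.filter (fun M : Subgroup X => IsCyclic M) = ∅ := by
      apply Finset.filter_eq_empty_iff.2
      intro M hM hc
      exact hex ⟨M, hM, hc⟩
    rw [h1, Finset.card_empty]
    exact dvd_zero 2
  obtain ⟨C, hC, hCc⟩ := hex
  rw [hMM_mem] at hC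
  obtain ⟨x, hx⟩ := (Subgroup.isCyclic_iff_exists_zpowers_eq_top C).1 hCc
  have hox : orderOf x = 2 ^ (r - 1) := by rw [← Nat.card_zpowers, hx, hC]
  have hCi : C.index = 2 := index_eq_of_card_pred (p := 2) (by omega) hX hC
  have hCn : C.Normal := normal_of_card_pred (p := 2) (by omega) hX hC
  have hlt : (2 : ℕ) ^ (r - 2) < 2 ^ (r - 1) := Nat.pow_lt_pow_right (by norm_num) (by omega)
  have e2 : (2 : ℕ) ^ (r - 2) = 2 * 2 ^ (r - 3) := by
    rw [← pow_succ']
    congr 1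
    omega
  have e1 : (2 : ℕ) ^ (r - 1) = 2 ^ (r - 2) * 2 := by
    rw [← pow_succ]
    congr 1
    omega
  obtain ⟨z, hz⟩ : ∃ z, z = x ^ (2 ^ (r - 2)) := ⟨_, rfl⟩
  have hz1 : z ≠ 1 := by
    intro h
    rw [hz] at h
    have h3 := orderOf_dvd_of_pow_eq_one h
    rw [hox] at h3
    have := Nat.le_of_dvd (by positivity) h3
    omega
  have hz2 : z ^ 2 = 1 := by
    rw [hz, ← pow_mul, ← e1, ← hox]
    exact pow_orderOf_eq_one x
  have hxC : x ∈ C := hx ▸ Subgroup.mem_zpowers x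
  have hzC : z ∈ C := by
    rw [hz]
    exact C.pow_mem hxC _
  have hoz : orderOf z = 2 := orderOf_eq_prime hz2 hz1
  have hexp : ∀ g : X, g ^ (2 ^ (r - 1)) = 1 := by
    intro g
    have h1 : orderOf g ∣ 2 ^ r := hX ▸ orderOf_dvd_natCard g
    obtain ⟨j, hj, hoj⟩ := (Nat.dvd_prime_pow Nat.prime_two).1 h1
    have hj' : j ≠ r := by
      intro h
      apply hnc
      apply isCyclic_of_orderOf_eq_card g
      rw [hoj, h, hX]
    rw [← orderOf_dvd_iff_pow_eq_one, hoj]
    exact pow_dvd_pow 2 (by omega)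
  have hd : ∀ d ∈ commutator X, d ^ (2 ^ (r - 3)) = 1 := by
    intro d hd
    have h1 := Subgroup.orderOf_dvd_natCard (commutator X) hd
    exact orderOf_dvd_iff_pow_eq_one.1 (h1.trans hcomm)
  have hinv : ∀ c ∈ C, c ^ 2 = 1 → c = 1 ∨ c = z := by
    intro c hc hc2
    by_cases hc1 : c = 1
    · exact Or.inl hc1
    · right
      have hoc : orderOf c = 2 := orderOf_eq_prime hc2 hc1
      apply eq_of_zpowers_eq_of_orderOf_two hoc hoz
      apply eq_of_le_cyclic C 2 1 Nat.prime_two (Subgroup.zpowers_le.2 hc)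
        (Subgroup.zpowers_le.2 hzC)
      · rw [Nat.card_zpowers, hoc, pow_one]
      · rw [Nat.card_zpowers, hoz, pow_one]
  have hF : ∀ u : X, u ∉ C → ∀ c ∈ C,
      (u * c) ^ (2 ^ (r - 2)) = u ^ (2 ^ (r - 2)) * c ^ (2 ^ (r - 2)) := by
    intro u hu c hc
    have hu2 : u ^ 2 ∈ C := Subgroup.sq_mem_of_index_two hCi u
    obtain ⟨d, hd_def⟩ : ∃ d, d = u⁻¹ * c * u * c⁻¹ := ⟨_, rfl⟩
    have hdC : d ∈ C := by
      rw [hd_def]
      apply C.mul_mem _ (C.inv_mem hc)
      have h1 := hCn.conj_mem c hc u⁻¹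
      rwa [inv_inv] at h1
    have hdcomm : d ∈ commutator X := by
      have h1 : d = u⁻¹ * c * u⁻¹⁻¹ * c⁻¹ := by rw [inv_inv, hd_def]
      rw [h1, ← commutatorElement_def, commutator_def]
      exact Subgroup.commutator_mem_commutator (Subgroup.mem_top _) (Subgroup.mem_top _)
    have hsq : (u * c) ^ 2 = u ^ 2 * d * c ^ 2 := by
      rw [hd_def, pow_two, pow_two, pow_two]
      simp only [mul_assoc, mul_inv_cancel_left, inv_mul_cancel_left]
    have hcomm1 : Commute (u ^ 2) d := Helper21.commute_of_isCyclic_subgroup C hu2 hdC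
    have hcomm2 : Commute (u ^ 2 * d) (c ^ 2) :=
      Helper21.commute_of_isCyclic_subgroup C (C.mul_mem hu2 hdC) (C.pow_mem hc 2)
    rw [e2, pow_mul, hsq, hcomm2.mul_pow, hcomm1.mul_pow, hd d hdcomm, mul_one, ← pow_mul,
      ← pow_mul]
  have hpw : ∀ u : X, u ^ (2 ^ (r - 2)) = 1 ∨ u ^ (2 ^ (r - 2)) = z := by
    intro u
    apply hinv
    · rw [e2, pow_mul]
      exact C.pow_mem (Subgroup.sq_mem_of_index_two hCi u) _
    · rw [← pow_mul, ← e1]
      exact hexp u
  have hord : ∀ u : X, u ^ (2 ^ (r - 2)) ≠ 1 → orderOf u = 2 ^ (r - 1) := by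
    intro u hu
    have h1 : orderOf u ∣ 2 ^ (r - 1) := orderOf_dvd_of_pow_eq_one (hexp u)
    obtain ⟨j, hj, hoj⟩ := (Nat.dvd_prime_pow Nat.prime_two).1 h1
    by_contra hne
    have hj2 : j ≤ r - 2 := by
      by_contra h
      have h3 : j = r - 1 := by omega
      rw [h3] at hoj
      exact hne hoj
    apply hu
    rw [← orderOf_dvd_iff_pow_eq_one, hoj]
    exact pow_dvd_pow 2 hj2
  obtain ⟨g, hg⟩ : ∃ g, g ∉ C := by
    by_contra h
    simp only [not_exists, not_not] at h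
    have h3 : C = ⊤ := eq_top_iff.2 (fun x _ => h x)
    rw [h3, Subgroup.card_top, hX] at hC
    have := Nat.pow_right_injective (le_refl 2) hC
    omega
  obtain ⟨y₀, hy₀C, hy₀z⟩ : ∃ y₀, y₀ ∉ C ∧ y₀ ^ (2 ^ (r - 2)) = z := by
    rcases hpw g with h | h
    · refine ⟨g * x, ?_, ?_⟩
      · intro hmem
        exact hg ((Subgroup.mul_mem_cancel_right C hxC).1 hmem)
      · rw [hF g hg x hxC, h, one_mul, hz]
    · exact ⟨g, hg, h⟩
  have hoy₀ : orderOf y₀ = 2 ^ (r - 1) := hord y₀ (by rw [hy₀z]; exact hz1)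
  have hcy₀ : Nat.card (Subgroup.zpowers y₀) = 2 ^ (r - 1) := by rw [Nat.card_zpowers, hoy₀]
  have hne₀ : Subgroup.zpowers y₀ ≠ C := by
    intro h
    exact hy₀C (h ▸ Subgroup.mem_zpowers y₀)
  have hx2 : x ^ 2 ∈ Subgroup.zpowers y₀ := by
    have h1 : Nat.card (Subgroup.zpowers y₀ ⊓ C : Subgroup X) = 2 ^ (r - 2) :=
      card_inf_of_ne (p := 2) (by omega) hX hcy₀ hC hne₀
    have h2 : Nat.card (Subgroup.zpowers (x ^ 2)) = 2 ^ (r - 2) := by
      rw [Nat.card_zpowers, orderOf_pow_of_dvd (by norm_num)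
        (by rw [hox]; exact dvd_pow_self 2 (by omega)), hox, e1]
      exact Nat.mul_div_cancel _ (by norm_num)
    have h3 : Subgroup.zpowers (x ^ 2) = Subgroup.zpowers y₀ ⊓ C :=
      eq_of_le_cyclic C 2 (r - 2) Nat.prime_two (Subgroup.zpowers_le.2 (C.pow_mem hxC 2))
        inf_le_right h2 h1
    have h4 : x ^ 2 ∈ Subgroup.zpowers y₀ ⊓ C := h3 ▸ Subgroup.mem_zpowers _
    exact (Subgroup.mem_inf.1 h4).1
  have hall : ∀ M ∈ MM, IsCyclic M → M = C ∨ M = Subgroup.zpowers y₀ := by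
    intro M hM hMc
    rw [hMM_mem] at hM
    by_cases hMC : M = C
    · exact Or.inl hMC
    · right
      obtain ⟨y, hy⟩ := (Subgroup.isCyclic_iff_exists_zpowers_eq_top M).1 hMc
      have hoy : orderOf y = 2 ^ (r - 1) := by rw [← Nat.card_zpowers, hy, hM]
      have hyC : y ∉ C := by
        intro h
        apply hMC
        apply Subgroup.eq_of_le_of_card_ge
        · rw [← hy]
          exact Subgroup.zpowers_le.2 h
        · rw [hC, hM]
      have hcC : y₀⁻¹ * y ∈ C := by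
        rw [Subgroup.mul_mem_iff_of_index_two hCi, Subgroup.inv_mem_iff]
        tauto
      have hcC' : y₀⁻¹ * y ∈ Subgroup.zpowers x := hx ▸ hcC
      obtain ⟨k, hk⟩ := Subgroup.mem_zpowers_iff.1 hcC'
      have hyy : y = y₀ * x ^ k := by
        rw [hk]
        group
      have h1 := hF y₀ hy₀C (x ^ k) (hk ▸ hcC)
      rw [← hyy, hy₀z] at h1
      have hyne : y ^ (2 ^ (r - 2)) ≠ 1 := by
        intro h
        have h3 := orderOf_dvd_of_pow_eq_one h
        rw [hoy] at h3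
        have := Nat.le_of_dvd (by positivity) h3
        omega
      have h2 : (x ^ k) ^ (2 ^ (r - 2)) = z ^ k := by
        rw [hz, ← zpow_natCast, ← zpow_natCast, ← zpow_mul, ← zpow_mul, mul_comm]
      rw [h2] at h1
      rcases Int.emod_two_eq_zero_or_one k with h0 | h0
      · obtain ⟨j, rfl⟩ : ∃ j, k = 2 * j := ⟨k / 2, by omega⟩
        have h3 : x ^ (2 * j) ∈ Subgroup.zpowers y₀ := by
          rw [zpow_mul, zpow_ofNat]
          exact Subgroup.zpow_mem _ hx2 j
        have h4 : y ∈ Subgroup.zpowers y₀ := by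
          rw [hyy]
          exact Subgroup.mul_mem _ (Subgroup.mem_zpowers y₀) h3
        rw [← hy]
        apply Subgroup.eq_of_le_of_card_ge (Subgroup.zpowers_le.2 h4)
        rw [hcy₀, Nat.card_zpowers, hoy]
      · exfalso
        obtain ⟨j, rfl⟩ : ∃ j, k = 2 * j + 1 := ⟨k / 2, by omega⟩
        apply hyne
        rw [h1, zpow_add, zpow_mul, zpow_ofNat, hz2, one_zpow, one_mul, zpow_one, ← pow_two, hz2]
  have hfil : MM.filter (fun M : Subgroup X => IsCyclic M) = {C, Subgroup.zpowers y₀} := by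
    ext M
    simp only [Finset.mem_filter, Finset.mem_insert, Finset.mem_singleton]
    constructor
    · rintro ⟨hM, hMc⟩
      exact hall M hM hMc
    · rintro (rfl | rfl)
      · exact ⟨(hMM_mem _).2 hC, hCc⟩
      · exact ⟨(hMM_mem _).2 hcy₀, Subgroup.isCyclic_zpowers y₀⟩
  rw [hfil, Finset.card_pair (Ne.symm hne₀)]

end Cfsg.Agent.Helper29.Kul
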