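import Mathlib
import Cfsg.Agent.Helper29.KulJ
import Cfsg.Agent.Helper24.MaxClassCyclic

/-!
Counting subgroups of `2`-groups of maximal class modulo `4`.
-/

set_option autoImplicit false

namespace Cfsg.Agent.Helper29.Kul

open MulAction
open scoped Pointwise

universe u

theorem mc_setup {s : ℕ} (hs : 4 ≤ s) {X : Type u} [Group X] [Finite X]
    (hX : Nat.card X = 2 ^ s) (hc : Group.nilpotencyClass X = s - 1) :
    ¬ IsCyclic X ∧ Nat.card (Subgroup.center X) = 2 ∧
      ∃ C : Subgroup X, IsCyclic C ∧ Nat.card C = 2 ^ (s - 1) := by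
  haveI : Fact (Nat.Prime 2) := ⟨Nat.prime_two⟩
  obtain ⟨C, hCc, hCi⟩ := Helper24.exists_cyclic_index_two_of_maximal_class s (by omega) X hX hc
  have hZ : Nat.card (Subgroup.center X) = 2 :=
    (Helper24.card_center_of_maximal_class (p := 2) s (by omega) hX hc).1
  have hC : Nat.card C = 2 ^ (s - 1) := by
    have h1 := Subgroup.card_mul_index C
    rw [hCi, hX] at h1
    have h2 : (2 : ℕ) ^ s = 2 ^ (s - 1) * 2 := by
      rw [← pow_succ]
      congr 1
      omega
    rw [h2] at h1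
    exact Nat.eq_of_mul_eq_mul_right (by norm_num) h1
  refine ⟨?_, hZ, C, hCc, hC⟩
  intro hcyc
  have hcomm : ∀ a b : X, a * b = b * a :=
    fun a b => (IsCyclic.isMulCommutative (α := X)).is_comm.comm a b
  have htop : Subgroup.center X = ⊤ :=
    eq_top_iff.2 (fun z _ => Subgroup.mem_center_iff.2 (fun g => hcomm g z))
  rw [htop, Subgroup.card_top, hX] at hZ
  have h3 : (2 : ℕ) ^ 1 < 2 ^ s := Nat.pow_lt_pow_right (by norm_num) (by omega)
  omega

theorem mc_count_low {s : ℕ} (hs : 4 ≤ s) {X : Type u} [Group X] [Finite X]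
    (hX : Nat.card X = 2 ^ s) (hc : Group.nilpotencyClass X = s - 1) (a : ℕ) (ha1 : 1 ≤ a)
    (ha2 : a + 3 ≤ s) : Nat.card {H : Subgroup X // Nat.card H = 2 ^ a} % 4 = 1 := by
  classical
  haveI : Fact (Nat.Prime 2) := ⟨Nat.prime_two⟩
  obtain ⟨hnc, hZ, C, hCc, hC⟩ := mc_setup hs hX hc
  have hCi : C.index = 2 := index_eq_of_card_pred (p := 2) (by omega) hX hC
  have hCn : C.Normal := normal_of_card_pred (p := 2) (by omega) hX hC
  obtain ⟨x, hx⟩ := (Subgroup.isCyclic_iff_exists_zpowers_eq_top C).1 hCc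
  have hox : orderOf x = 2 ^ (s - 1) := by rw [← Nat.card_zpowers, hx, hC]
  have hxC : x ∈ C := hx ▸ Subgroup.mem_zpowers x
  obtain ⟨w, hw⟩ : ∃ w, w = x ^ (2 ^ (s - 3)) := ⟨_, rfl⟩
  have how : orderOf w = 4 := by
    rw [hw, orderOf_pow_of_dvd (by positivity) (by rw [hox]; exact pow_dvd_pow 2 (by omega)), hox,
      Nat.pow_div (by omega) (by norm_num)]
    have h1 : s - 1 - (s - 3) = 2 := by omega
    rw [h1]
  have hwC : w ∈ C := by
    rw [hw]
    exact C.pow_mem hxC _
  have hwZ : w ∉ Subgroup.center X := by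
    intro h
    have h1 := Subgroup.orderOf_dvd_natCard _ h
    rw [how, hZ] at h1
    have := Nat.le_of_dvd (by norm_num) h1
    omega
  have hconj : ∀ h : X, h ∉ C → h * w * h⁻¹ ≠ w := by
    intro h hh heq
    apply hwZ
    rw [Subgroup.mem_center_iff]
    intro g
    have hhw : h * w = w * h := by
      calc h * w = h * w * h⁻¹ * h := by group
        _ = w * h := by rw [heq]
    by_cases hg : g ∈ C
    · exact Helper21.commute_of_isCyclic_subgroup C hg hwC
    · have hcC : h⁻¹ * g ∈ C := by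
        rw [Subgroup.mul_mem_iff_of_index_two hCi, Subgroup.inv_mem_iff]
        tauto
      have h1 : g = h * (h⁻¹ * g) := by group
      have h2 : (h⁻¹ * g) * w = w * (h⁻¹ * g) :=
        Helper21.commute_of_isCyclic_subgroup C hcC hwC
      rw [h1, mul_assoc, h2, ← mul_assoc, hhw, mul_assoc]
  rw [card_subtype_split (fun H : Subgroup X => Nat.card H = 2 ^ a) (fun H => H ≤ C)]
  have h2 : Nat.card {H : Subgroup X // Nat.card H = 2 ^ a ∧ H ≤ C} = 1 := by
    have h3 : Nat.card {H : Subgroup X // Nat.card H = 2 ^ a ∧ H ≤ C} =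
        Nat.card {H : Subgroup C // Nat.card H = 2 ^ a} := by
      rw [← card_subgroups_le_eq C (fun H : Subgroup X => Nat.card H = 2 ^ a)
        (fun H' => Nat.card H' = 2 ^ a) (fun H hH => by rw [card_subgroupOf_of_le hH])]
      exact Nat.card_congr (Equiv.subtypeEquivRight (fun H => and_comm))
    rw [h3]
    exact Helper21.cyclic_card_subgroups_eq_one (C := C) 2 a Nat.prime_two
      (by rw [hC]; exact pow_dvd_pow 2 (by omega))
  have h4 : 4 ∣ Nat.card {H : Subgroup X // Nat.card H = 2 ^ a ∧ ¬ H ≤ C} := by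
    have hselfC : ∀ g : X, g ∈ C → MulAut.conj g • C = C :=
      fun g hg => conj_smul_self_of_mem _ hg
    have hIA : ∀ g : X, g ∈ C → ∀ H : Subgroup X, (Nat.card H = 2 ^ a ∧ ¬ H ≤ C) →
        (Nat.card (MulAut.conj g • H : Subgroup X) = 2 ^ a ∧ ¬ MulAut.conj g • H ≤ C) := by
      intro g hg H hH
      refine ⟨(card_conj_smul g H).trans hH.1, fun h => hH.2 ?_⟩
      rw [← hselfC g hg] at h
      exact Subgroup.pointwise_smul_le_pointwise_smul_iff.1 h
    letI : MulAction C {H : Subgroup X // Nat.card H = 2 ^ a ∧ ¬ H ≤ C} := conjActOn C _ hIA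
    apply Helper21.dvd_card_of_forall_dvd_index_stabilizer (G := C)
    intro H
    have hPC : IsPGroup 2 C := IsPGroup.of_card hC
    obtain ⟨k, hk⟩ := hPC.index (stabilizer C H)
    have hstab : ∀ g : C, g ∈ stabilizer C H → MulAut.conj (g : X) • H.1 = H.1 :=
      fun g hg => congrArg Subtype.val (MulAction.mem_stabilizer_iff.1 hg)
    rcases Nat.lt_or_ge k 2 with hk2 | hk2
    · exfalso
      have hx2 : (⟨x, hxC⟩ : C) ^ 2 ∈ stabilizer C H := by
        interval_cases k
        · rw [pow_zero, Subgroup.index_eq_one] at hk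
          rw [hk]
          exact Subgroup.mem_top _
        · rw [pow_one] at hk
          exact Subgroup.sq_mem_of_index_two hk _
      have h5 := hstab _ hx2
      rw [Subgroup.coe_pow] at h5
      have h6 : x ^ 2 ∈ Subgroup.normalizer (H.1 : Set X) := mem_normalizer_of_conj_smul_eq h5
      obtain ⟨h, hhH, hhC⟩ : ∃ h, h ∈ H.1 ∧ h ∉ C := by
        by_contra hcon
        simp only [not_exists, not_and, not_not] at hcon
        exact H.2.2 (fun h hh => hcon h hh)
      obtain ⟨e, he⟩ : ∃ e, e = x ^ 2 * (h * (x ^ 2)⁻¹ * h⁻¹) := ⟨_, rfl⟩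
      have hx2C : x ^ 2 ∈ C := C.pow_mem hxC 2
      have hcjC : h * (x ^ 2)⁻¹ * h⁻¹ ∈ C := hCn.conj_mem _ (C.inv_mem hx2C) h
      have heC : e ∈ C := by
        rw [he]
        exact C.mul_mem hx2C hcjC
      have heH : e ∈ H.1 := by
        have h7 : e = x ^ 2 * h * (x ^ 2)⁻¹ * h⁻¹ := by
          rw [he]
          simp only [mul_assoc]
        rw [h7]
        exact H.1.mul_mem ((Subgroup.mem_normalizer_iff.1 h6 h).1 hhH) (H.1.inv_mem hhH)
      have e3 : (2 : ℕ) ^ (s - 3) = 2 * 2 ^ (s - 4) := by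
        rw [← pow_succ']
        congr 1
        omega
      have hxw : (x ^ 2) ^ (2 ^ (s - 4)) = w := by rw [hw, e3, pow_mul]
      have hcm : Commute (x ^ 2) (h * (x ^ 2)⁻¹ * h⁻¹) :=
        Helper21.commute_of_isCyclic_subgroup C hx2C hcjC
      have hpow : e ^ (2 ^ (s - 4)) = w * (h * w⁻¹ * h⁻¹) := by
        rw [he, hcm.mul_pow, conj_pow, inv_pow, hxw]
      have hone : e ^ (2 ^ (s - 4)) = 1 := by
        have hne : H.1 ⊓ C ≠ H.1 := fun hh => H.2.2 (hh ▸ inf_le_right)
        obtain ⟨i, hi, hci⟩ := exists_pow_lt_of_ne (p := 2) inf_le_left hne H.2.1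
        have h7 := Subgroup.orderOf_dvd_natCard (H.1 ⊓ C) (Subgroup.mem_inf.2 ⟨heH, heC⟩)
        rw [hci] at h7
        exact orderOf_dvd_iff_pow_eq_one.1 (h7.trans (pow_dvd_pow 2 (by omega)))
      rw [hpow] at hone
      apply hconj h hhC
      have h8 : h * w⁻¹ * h⁻¹ = w⁻¹ := by
        rw [← mul_right_inj w, hone, mul_inv_cancel]
      have h9 : (h * w⁻¹ * h⁻¹)⁻¹ = w := by rw [h8, inv_inv]
      calc h * w * h⁻¹ = (h * w⁻¹ * h⁻¹)⁻¹ := by group
        _ = w := h9
    · rw [hk]
      exact (by norm_num : (4 : ℕ) = 2 ^ 2) ▸ pow_dvd_pow 2 hk2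
  omega

theorem mc_count_top {s : ℕ} (hs : 4 ≤ s) {X : Type u} [Group X] [Finite X]
    (hX : Nat.card X = 2 ^ s) (hc : Group.nilpotencyClass X = s - 1) :
    Nat.card {H : Subgroup X // Nat.card H = 2 ^ (s - 2)} % 4 = 1 := by
  classical
  haveI : Fact (Nat.Prime 2) := ⟨Nat.prime_two⟩
  obtain ⟨hnc, hZ, C, hCc, hC⟩ := mc_setup hs hX hc
  have hbot2 : 2 ≤ mu1 X 2 s ⊥ := two_le_mu1_bot_of_not_cyclic (p := 2) (by omega) hX hnc
  have hbot : mu1 X 2 s ⊥ % 4 = 3 := mu1_modEq_one_add (p := 2) (by omega) hX ⊥ hbot2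
  obtain ⟨MM, hMM_mem, hMM_card⟩ := exists_maximals X 2 s
  have hrec : (Nat.card {H : Subgroup X // Nat.card H = 2 ^ (s - 2)} + 2) % 4 =
      (∑ M ∈ MM, Nat.card {H' : Subgroup M // Nat.card H' = 2 ^ (s - 2)}) % 4 :=
    recursion_mod_sq (p := 2) hX hbot2 (s - 2) (by omega) MM hMM_mem
  have h1 : ∑ M ∈ MM, (Nat.card {H' : Subgroup M // Nat.card H' = 2 ^ (s - 2)} +
      (if IsCyclic M then 2 else 0)) ≡ ∑ M ∈ MM, 3 [MOD 4] := by
    apply sum_modEq
    intro M hM
    rw [hMM_mem] at hM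
    by_cases hc : IsCyclic M
    · rw [if_pos hc]
      have h2 := Helper21.cyclic_card_subgroups_eq_one (C := M) 2 (s - 2) Nat.prime_two
        (by rw [hM]; exact pow_dvd_pow 2 (by omega))
      rw [h2]
    · rw [if_neg hc, add_zero]
      have h3 : Nat.card {H' : Subgroup M // Nat.card H' = 2 ^ (s - 2)} = mu1 M 2 (s - 1) ⊥ := by
        have h4 := card_top_level M 2 (s - 1)
        have h5 : s - 1 - 1 = s - 2 := by omega
        rw [h5] at h4
        exact h4
      rw [h3]
      exact mu1_modEq_one_add (p := 2) (by omega) hM ⊥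
        (two_le_mu1_bot_of_not_cyclic (p := 2) (by omega) hM hc)
  rw [Finset.sum_add_distrib, Finset.sum_const, smul_eq_mul, Finset.sum_ite,
    Finset.sum_const_zero, add_zero, Finset.sum_const, smul_eq_mul] at h1
  have hfil : MM.filter (fun M : Subgroup X => IsCyclic M) = {C} := by
    ext M
    simp only [Finset.mem_filter, Finset.mem_singleton]
    constructor
    · rintro ⟨hM, hMc⟩
      rw [hMM_mem] at hM
      by_contra hne
      have hK : Nat.card (M ⊓ C : Subgroup X) = 2 ^ (s - 2) :=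
        card_inf_of_ne (p := 2) (by omega) hX hM hC hne
      have hMle : M ≤ Subgroup.centralizer ((M ⊓ C : Subgroup X) : Set X) := by
        intro m hm
        rw [Subgroup.mem_centralizer_iff]
        intro k hk
        exact Helper21.commute_of_isCyclic_subgroup M (Subgroup.mem_inf.1 hk).1 hm
      have hCle : C ≤ Subgroup.centralizer ((M ⊓ C : Subgroup X) : Set X) := by
        intro m hm
        rw [Subgroup.mem_centralizer_iff]
        intro k hk
        exact Helper21.commute_of_isCyclic_subgroup C (Subgroup.mem_inf.1 hk).2 hm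
      rcases eq_or_eq_top_of_card_pred (p := 2) (by omega) hX hM hMle with h5 | h5
      · apply hne
        symm
        apply Subgroup.eq_of_le_of_card_ge (h5 ▸ hCle)
        rw [hC, hM]
      · have hle : M ⊓ C ≤ Subgroup.center X := by
          intro k hk
          rw [Subgroup.mem_center_iff]
          intro g
          have hg : g ∈ Subgroup.centralizer ((M ⊓ C : Subgroup X) : Set X) :=
            h5 ▸ Subgroup.mem_top g
          exact ((Subgroup.mem_centralizer_iff.1 hg) k hk).symm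
        have h6 := Subgroup.card_le_of_le hle
        rw [hK, hZ] at h6
        have h7 : (2 : ℕ) ^ 1 < 2 ^ (s - 2) := Nat.pow_lt_pow_right (by norm_num) (by omega)
        omega
    · rintro rfl
      exact ⟨(hMM_mem _).2 hC, hCc⟩
  rw [hfil, Finset.card_singleton, hMM_card] at h1
  unfold Nat.ModEq at h1
  omega

theorem mc_count {s : ℕ} (hs : 4 ≤ s) {X : Type u} [Group X] [Finite X]
    (hX : Nat.card X = 2 ^ s) (hc : Group.nilpotencyClass X = s - 1) (a : ℕ) (ha1 : 1 ≤ a)
    (ha2 : a + 2 ≤ s) : Nat.card {H : Subgroup X // Nat.card H = 2 ^ a} % 4 = 1 := by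
  by_cases h : a + 3 ≤ s
  · exact mc_count_low hs hX hc a ha1 h
  · have h1 : a = s - 2 := by omega
    subst h1
    exact mc_count_top hs hX hc

end Cfsg.Agent.Helper29.Kul
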