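import Mathlib
import Cfsg.Agent.Helper29.KulI

/-!
Counting subgroups of `2`-groups modulo `4`: groups that are neither cyclic nor of maximal class.
-/

set_option autoImplicit false

namespace Cfsg.Agent.Helper29.Kul

universe u

theorem count_of_not_mc : ∀ (r : ℕ) (X : Type u) [Group X] [Finite X], Nat.card X = 2 ^ r →
    ¬ IsCyclic X → Group.nilpotencyClass X ≠ r - 1 → ∀ a, 1 ≤ a → a < r →
      Nat.card {H : Subgroup X // Nat.card H = 2 ^ a} % 4 = 3 := by
  intro r
  induction r using Nat.strong_induction_on with
  | _ r ih =>
    intro X _ _ hX hnc hmc a ha har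
    classical
    haveI : Fact (Nat.Prime 2) := ⟨Nat.prime_two⟩
    have hr3 : 3 ≤ r := by
      by_contra hlt
      have hr2 : r = 2 := by omega
      subst hr2
      apply hmc
      haveI : Group.IsNilpotent X := (IsPGroup.of_card hX).isNilpotent
      have h1 := (Helper24.nilpotencyClass_le_of_card (p := 2) 2 X hX).2 le_rfl
      have h2 : Group.nilpotencyClass X ≠ 0 := by
        intro h0
        rw [Group.nilpotencyClass_zero_iff_subsingleton] at h0
        haveI := h0
        exact hnc inferInstance
      omega
    have hbot2 : 2 ≤ mu1 X 2 r ⊥ := two_le_mu1_bot_of_not_cyclic (p := 2) (by omega) hX hnc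
    have hbot : mu1 X 2 r ⊥ % 4 = 3 := mu1_modEq_one_add (p := 2) (by omega) hX ⊥ hbot2
    by_cases ha1 : a = r - 1
    · subst ha1
      rw [card_top_level X 2 r]
      exact hbot
    by_cases ha2 : a = 1
    · subst ha2
      exact involutions_mod_four hr3 hX hnc hmc
    obtain ⟨MM, hMM_mem, hMM_card⟩ := exists_maximals X 2 r
    have hrec : ∀ b, b + 2 ≤ r → (Nat.card {H : Subgroup X // Nat.card H = 2 ^ b} + 2) % 4 =
        (∑ M ∈ MM, Nat.card {H' : Subgroup M // Nat.card H' = 2 ^ b}) % 4 :=
      fun b hb => recursion_mod_sq (p := 2) hX hbot2 b hb MM hMM_mem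
    by_cases ha3 : a = r - 2
    · subst ha3
      have h1 : ∑ M ∈ MM, (Nat.card {H' : Subgroup M // Nat.card H' = 2 ^ (r - 2)} +
          (if IsCyclic M then 2 else 0)) ≡ ∑ M ∈ MM, 3 [MOD 4] := by
        apply sum_modEq
        intro M hM
        rw [hMM_mem] at hM
        by_cases hc : IsCyclic M
        · rw [if_pos hc]
          have h2 := Helper21.cyclic_card_subgroups_eq_one (C := M) 2 (r - 2) Nat.prime_two
            (by rw [hM]; exact pow_dvd_pow 2 (by omega))
          rw [h2]
        · rw [if_neg hc, add_zero]
          have h3 : Nat.card {H' : Subgroup M // Nat.card H' = 2 ^ (r - 2)} =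
              mu1 M 2 (r - 1) ⊥ := by
            have h4 := card_top_level M 2 (r - 1)
            have h5 : r - 1 - 1 = r - 2 := by omega
            rw [h5] at h4
            exact h4
          rw [h3]
          exact mu1_modEq_one_add (p := 2) (by omega) hM ⊥
            (two_le_mu1_bot_of_not_cyclic (p := 2) (by omega) hM hc)
      rw [Finset.sum_add_distrib, Finset.sum_const, smul_eq_mul, Finset.sum_ite,
        Finset.sum_const_zero, add_zero, Finset.sum_const, smul_eq_mul] at h1
      have hcomm := card_commutator_dvd hr3 hX hnc hmc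
      obtain ⟨c, hc⟩ := even_card_cyclic_maximals hr3 hX hnc hcomm MM hMM_mem
      rw [hc, hMM_card] at h1
      have h2 := hrec (r - 2) (by omega)
      unfold Nat.ModEq at h1
      omega
    · have h1 : ∑ M ∈ MM, Nat.card {H' : Subgroup M // Nat.card H' = 2 ^ a} ≡
          ∑ M ∈ MM, Nat.card {H' : Subgroup M // Nat.card H' = 2 ^ 1} [MOD 4] := by
        apply sum_modEq
        intro M hM
        rw [hMM_mem] at hM
        by_cases hc : IsCyclic M
        · rw [Helper21.cyclic_card_subgroups_eq_one (C := M) 2 a Nat.prime_two
              (by rw [hM]; exact pow_dvd_pow 2 (by omega)),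
            Helper21.cyclic_card_subgroups_eq_one (C := M) 2 1 Nat.prime_two
              (by rw [hM]; exact pow_dvd_pow 2 (by omega))]
        · by_cases hm : Group.nilpotencyClass M = r - 1 - 1
          · have e1 := mc_count (s := r - 1) (by omega) hM hm a (by omega) (by omega)
            have e2 := mc_count (s := r - 1) (by omega) hM hm 1 le_rfl (by omega)
            unfold Nat.ModEq
            rw [e1, e2]
          · have e1 := ih (r - 1) (by omega) M hM hc hm a (by omega) (by omega)
            have e2 := ih (r - 1) (by omega) M hM hc hm 1 le_rfl (by omega)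
            unfold Nat.ModEq
            rw [e1, e2]
      have h2 := hrec a (by omega)
      have h3 := hrec 1 (by omega)
      have h4 := involutions_mod_four hr3 hX hnc hmc
      unfold Nat.ModEq at h1
      omega

end Cfsg.Agent.Helper29.Kul
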