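import Mathlib

set_option autoImplicit false

namespace Cfsg.Agent.Helper29

open Classical in
/-- In a power of a non-abelian simple group, a normal subgroup that contains an element with a
nontrivial `i`-th coordinate contains the whole `i`-th factor. -/
theorem mulSingle_mem_of_normal {ι : Type*} [DecidableEq ι] {S : Type*} [Group S] [IsSimpleGroup S]
    (hS : ¬ IsMulCommutative S) (N : Subgroup (ι → S)) [hN : N.Normal] (i : ι)
    (y : ι → S) (hy : y ∈ N) (hyi : y i ≠ 1) (s : S) : Pi.mulSingle i s ∈ N := by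
  -- the subgroup of S of those s with mulSingle i s ∈ N
  let Ni : Subgroup S := N.comap (MonoidHom.mulSingle (fun _ : ι => S) i)
  have hNi : Ni.Normal := by
    refine ⟨fun a ha t => ?_⟩
    change Pi.mulSingle i (t * a * t⁻¹) ∈ N
    have h1 : (Pi.mulSingle i (t * a * t⁻¹) : ι → S) =
        Pi.mulSingle i t * Pi.mulSingle i a * (Pi.mulSingle i t)⁻¹ := by
      rw [← Pi.mulSingle_inv, ← Pi.mulSingle_mul, ← Pi.mulSingle_mul]
    rw [h1]
    exact hN.conj_mem _ ha _
  have hcenter : ∃ t : S, t * y i ≠ y i * t := by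
    by_contra hcon
    push Not at hcon
    have hmem : y i ∈ Subgroup.center S := by
      rw [Subgroup.mem_center_iff]
      exact hcon
    rcases (Subgroup.Normal.eq_bot_or_eq_top (H := Subgroup.center S) inferInstance) with h | h
    · rw [h, Subgroup.mem_bot] at hmem
      exact hyi hmem
    · apply hS
      refine ⟨⟨fun a b => ?_⟩⟩
      have ha : a ∈ Subgroup.center S := by rw [h]; trivial
      exact ((Subgroup.mem_center_iff.mp ha) b).symm
  obtain ⟨t, ht⟩ := hcenter
  have hc : Pi.mulSingle i (t * y i * t⁻¹ * (y i)⁻¹) ∈ N := by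
    have h1 : (Pi.mulSingle i (t * y i * t⁻¹ * (y i)⁻¹) : ι → S) =
        Pi.mulSingle i t * y * (Pi.mulSingle i t)⁻¹ * y⁻¹ := by
      ext j
      by_cases hj : j = i
      · subst hj
        simp
      · simp [Pi.mulSingle_eq_of_ne hj]
    rw [h1]
    exact N.mul_mem (hN.conj_mem _ hy _) (N.inv_mem hy)
  have hne : Ni ≠ ⊥ := by
    intro h
    have h2 : t * y i * t⁻¹ * (y i)⁻¹ ∈ Ni := hc
    rw [h, Subgroup.mem_bot] at h2
    apply ht
    have h3 : t * y i = (t * y i * t⁻¹ * (y i)⁻¹) * (y i * t) := by group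
    rw [h3, h2, one_mul]
  have htop : Ni = ⊤ := (hNi.eq_bot_or_eq_top).resolve_left hne
  have : s ∈ Ni := by rw [htop]; trivial
  exact this

/-- Normal subgroups of a finite power of a non-abelian simple group are subproducts. -/
theorem normal_subgroup_pi {ι : Type*} [Fintype ι] [DecidableEq ι] {S : Type*} [Group S]
    [IsSimpleGroup S] (hS : ¬ IsMulCommutative S) (N : Subgroup (ι → S)) [hN : N.Normal]
    (x : ι → S) : x ∈ N ↔ ∀ i, (∀ y ∈ N, y i = 1) → x i = 1 := by
  constructor
  · intro hx i hi
    exact hi x hx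
  · intro hx
    rw [← Finset.noncommProd_mulSingle x]
    apply Subgroup.noncommProd_mem
    intro i _
    by_cases hi : ∀ y ∈ N, y i = 1
    · rw [hx i hi, Pi.mulSingle_one]
      exact N.one_mem
    · push Not at hi
      obtain ⟨y, hy, hyi⟩ := hi
      exact mulSingle_mem_of_normal hS N i y hy hyi (x i)

end Cfsg.Agent.Helper29
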