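import Mathlib

set_option autoImplicit false

/-!
Index-`n` subgroups of symmetric groups via the action on cosets, with the degree-6 analysis
(point stabilizers and the exotic transitive subgroups of index 6).
-/

namespace Cfsg.Agent.Helper29

open Equiv Equiv.Perm

/-! ### Swaps -/

theorem swap_comm_disj {A : Type*} [DecidableEq A] {a b c d : A}
    (hac : a ≠ c) (had : a ≠ d) (hbc : b ≠ c) (hbd : b ≠ d) :
    swap a b * swap c d = swap c d * swap a b := by
  have hd : Perm.Disjoint (swap a b) (swap c d) := by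
    intro z
    by_cases hza : z = a
    · right; rw [hza]; exact swap_apply_of_ne_of_ne hac had
    by_cases hzb : z = b
    · right; rw [hzb]; exact swap_apply_of_ne_of_ne hbc hbd
    · left; exact swap_apply_of_ne_of_ne hza hzb
  exact hd.commute.eq

theorem swap_nc {B : Type*} [DecidableEq B] {p q r : B} (hpq : p ≠ q) (hpr : p ≠ r) (hqr : q ≠ r) :
    swap p q * swap p r ≠ swap p r * swap p q := by
  intro h
  have h1 := DFunLike.congr_fun h p
  rw [Perm.mul_apply, Perm.mul_apply, swap_apply_left, swap_apply_left,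
    swap_apply_of_ne_of_ne hpr.symm hqr.symm, swap_apply_of_ne_of_ne hpq.symm hqr] at h1
  exact hqr h1.symm

theorem two_swaps {A : Type*} [DecidableEq A] {t t' : Perm A} (ht : t.IsSwap) (ht' : t'.IsSwap)
    (hne : t * t' ≠ t' * t) :
    ∃ x y z, x ≠ y ∧ x ≠ z ∧ y ≠ z ∧ t = swap x y ∧ t' = swap x z := by
  obtain ⟨a, b, hab, rfl⟩ := ht
  obtain ⟨c, d, hcd, rfl⟩ := ht'
  by_cases hac : a = c
  · subst hac
    refine ⟨a, b, d, hab, hcd, ?_, rfl, rfl⟩
    rintro rfl
    exact hne rfl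
  by_cases had : a = d
  · subst had
    refine ⟨a, b, c, hab, hac, ?_, rfl, swap_comm c a⟩
    rintro rfl
    exact hne (by rw [swap_comm b a])
  by_cases hbc : b = c
  · subst hbc
    exact ⟨b, a, d, hab.symm, hcd, had, swap_comm a b, rfl⟩
  by_cases hbd : b = d
  · subst hbd
    exact ⟨b, a, c, hab.symm, fun h => hbc h, hac, swap_comm a b, swap_comm c b⟩
  · exact absurd (swap_comm_disj hac had hbc hbd) hne

theorem moves_swap {B : Type*} [DecidableEq B] {s : Perm B} (hs : s.IsSwap) {p : B}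
    (hp : s p ≠ p) : ∃ q, q ≠ p ∧ s = swap p q := by
  obtain ⟨e, f, hef, rfl⟩ := hs
  by_cases hpe : p = e
  · subst hpe
    exact ⟨f, hef.symm, rfl⟩
  by_cases hpf : p = f
  · subst hpf
    exact ⟨e, hef, swap_comm e p⟩
  · exact absurd (swap_apply_of_ne_of_ne hpe hpf) hp


theorem conj_isSwap {A : Type*} [DecidableEq A] {s : Perm A} (hs : s.IsSwap) (c : Perm A) :
    (c * s * c⁻¹).IsSwap := by
  obtain ⟨a, b, hab, rfl⟩ := hs
  exact ⟨c a, c b, fun h => hab (c.injective h), (swap_apply_apply c a b).symm⟩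

theorem exists_conj_swap {A : Type*} [DecidableEq A] {s s' : Perm A} (hs : s.IsSwap)
    (hs' : s'.IsSwap) : ∃ c : Perm A, c * s * c⁻¹ = s' := by
  obtain ⟨a, b, hab, rfl⟩ := hs
  obtain ⟨a', b', hab', rfl⟩ := hs'
  exact isConj_iff.mp (isConj_swap hab hab')

/-- An isomorphism of symmetric groups mapping one swap to a swap maps all swaps to swaps, and
so does its inverse. -/
theorem swapPres_of_one {A B : Type*} [DecidableEq A] [DecidableEq B] (Ψ : Perm A ≃* Perm B)
    {t₀ : Perm A} (ht₀ : t₀.IsSwap) (h : (Ψ t₀).IsSwap) :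
    (∀ a b : A, a ≠ b → (Ψ (swap a b)).IsSwap) ∧
      (∀ q r : B, q ≠ r → (Ψ.symm (swap q r)).IsSwap) := by
  constructor
  · intro a b hab
    obtain ⟨c, hc⟩ := exists_conj_swap ht₀ ⟨a, b, hab, rfl⟩
    rw [← hc, map_mul, map_mul, map_inv]
    exact conj_isSwap h _
  · intro q r hqr
    obtain ⟨c, hc⟩ := exists_conj_swap h ⟨q, r, hqr, rfl⟩
    have h1 : Ψ.symm (swap q r) = Ψ.symm c * t₀ * (Ψ.symm c)⁻¹ := by
      rw [← hc, map_mul, map_mul, map_inv, MulEquiv.symm_apply_apply]
    rw [h1]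
    exact conj_isSwap ht₀ _

/-- If an isomorphism `Φ : Perm Ω ≃* Perm X` and its inverse map swaps to swaps, then the
preimage of a point stabilizer fixes a point. -/
theorem fix_of_swaps {Ω X : Type*} [DecidableEq Ω] [DecidableEq X] [Fintype X]
    (hX : 3 ≤ Fintype.card X) (Φ : Perm Ω ≃* Perm X) (p₀ : X) (H : Subgroup (Perm Ω))
    (F1 : ∀ g : Perm Ω, g ∈ H ↔ Φ g p₀ = p₀)
    (F2 : ∀ a b : Ω, a ≠ b → (Φ (swap a b)).IsSwap)
    (F3 : ∀ q r : X, q ≠ r → (Φ.symm (swap q r)).IsSwap) :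
    ∃ x : Ω, H ≤ MulAction.stabilizer (Perm Ω) x := by
  obtain ⟨q₁, hq₁⟩ : ∃ q₁, q₁ ≠ p₀ := by
    have : Nontrivial X := Fintype.one_lt_card_iff_nontrivial.mp (by omega)
    exact exists_ne p₀
  obtain ⟨q₂, -, hq₂⟩ := Finset.exists_mem_notMem_of_card_lt_card (s := {p₀, q₁})
    (t := (Finset.univ : Finset X))
    (by rw [Finset.card_univ]; exact lt_of_le_of_lt Finset.card_le_two (by omega))
  have hq₂0 : q₂ ≠ p₀ := fun h => hq₂ (by simp [h])
  have hq₂1 : q₂ ≠ q₁ := fun h => hq₂ (by simp [h])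
  have hnc : Φ.symm (swap p₀ q₁) * Φ.symm (swap p₀ q₂) ≠
      Φ.symm (swap p₀ q₂) * Φ.symm (swap p₀ q₁) := by
    intro h
    apply swap_nc hq₁.symm hq₂0.symm hq₂1.symm
    have h' := congrArg Φ h
    simpa using h'
  obtain ⟨x, y, z, hxy, hxz, hyz, ht, ht'⟩ :=
    two_swaps (F3 p₀ q₁ hq₁.symm) (F3 p₀ q₂ hq₂0.symm) hnc
  have e1 : Φ (swap x y) = swap p₀ q₁ := by rw [← ht, MulEquiv.apply_symm_apply]
  have e2 : Φ (swap x z) = swap p₀ q₂ := by rw [← ht', MulEquiv.apply_symm_apply]
  have tnH : swap x y ∉ H := by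
    intro hm
    rw [F1, e1, swap_apply_left] at hm
    exact hq₁ hm
  have tnH' : swap x z ∉ H := by
    intro hm
    rw [F1, e2, swap_apply_left] at hm
    exact hq₂0 hm
  have key : swap y z = swap x z * swap x y * swap x z := by
    have h1 := swap_apply_apply (swap x z) x y
    rw [swap_apply_left, swap_apply_of_ne_of_ne hxy.symm hyz, swap_inv] at h1
    rw [swap_comm y z]
    exact h1
  have keyH : swap y z ∈ H := by
    have c1 : swap p₀ q₂ p₀ = q₂ := swap_apply_left _ _
    have c2 : swap p₀ q₁ q₂ = q₂ := swap_apply_of_ne_of_ne hq₂0 hq₂1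
    have c3 : swap p₀ q₂ q₂ = p₀ := swap_apply_right _ _
    rw [F1, key, map_mul, map_mul, e1, e2, Perm.mul_apply, Perm.mul_apply, c1, c2, c3]
  have C : ∀ e f : Ω, e ≠ f → swap e f ∉ H → x = e ∨ x = f := by
    intro e f hef hnH
    by_contra hx
    push Not at hx
    obtain ⟨hxe, hxf⟩ := hx
    obtain ⟨q₃, hq₃, e3⟩ := moves_swap (F2 e f hef) (fun h => hnH ((F1 _).mpr h))
    have hne1 : swap e f ≠ swap x y := by
      intro h
      have h1 := DFunLike.congr_fun h x
      rw [swap_apply_of_ne_of_ne hxe hxf, swap_apply_left] at h1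
      exact hxy h1
    have hne2 : swap e f ≠ swap x z := by
      intro h
      have h1 := DFunLike.congr_fun h x
      rw [swap_apply_of_ne_of_ne hxe hxf, swap_apply_left] at h1
      exact hxz h1
    have hq31 : q₃ ≠ q₁ := by
      rintro rfl
      exact hne1 (Φ.injective (e3.trans e1.symm))
    have hq32 : q₃ ≠ q₂ := by
      rintro rfl
      exact hne2 (Φ.injective (e3.trans e2.symm))
    have n1 : swap e f * swap x y ≠ swap x y * swap e f := by
      intro h
      have h' := congrArg Φ h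
      rw [map_mul, map_mul, e1, e3] at h'
      exact swap_nc hq₃.symm hq₁.symm hq31 h'
    have n2 : swap e f * swap x z ≠ swap x z * swap e f := by
      intro h
      have h' := congrArg Φ h
      rw [map_mul, map_mul, e2, e3] at h'
      exact swap_nc hq₃.symm hq₂0.symm hq32 h'
    have m1 : e = y ∨ f = y := by
      by_contra hh
      push Not at hh
      exact n1 (swap_comm_disj hxe.symm hh.1 hxf.symm hh.2)
    have m2 : e = z ∨ f = z := by
      by_contra hh
      push Not at hh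
      exact n2 (swap_comm_disj hxe.symm hh.1 hxf.symm hh.2)
    have hef' : swap e f = swap y z := by
      rcases m1 with h1 | h1
      · rcases m2 with h2 | h2
        · exact absurd (h1.symm.trans h2) hyz
        · rw [h1, h2]
      · rcases m2 with h2 | h2
        · rw [h1, h2, swap_comm]
        · exact absurd (h1.symm.trans h2) hyz
    exact hnH (by rw [hef']; exact keyH)
  refine ⟨x, fun h hh => ?_⟩
  rw [MulAction.mem_stabilizer_iff, Perm.smul_def]
  by_contra hx'
  have u1 : swap (h x) (h y) ∉ H := by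
    rw [swap_apply_apply]
    intro hmem
    apply tnH
    have e : swap x y = h⁻¹ * (h * swap x y * h⁻¹) * h := by group
    rw [e]
    exact H.mul_mem (H.mul_mem (H.inv_mem hh) hmem) hh
  have u2 : swap (h x) (h z) ∉ H := by
    rw [swap_apply_apply]
    intro hmem
    apply tnH'
    have e : swap x z = h⁻¹ * (h * swap x z * h⁻¹) * h := by group
    rw [e]
    exact H.mul_mem (H.mul_mem (H.inv_mem hh) hmem) hh
  have c1 := C (h x) (h y) (fun e => hxy (h.injective e)) u1
  have c2 := C (h x) (h z) (fun e => hxz (h.injective e)) u2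
  rcases c1 with c1 | c1
  · exact hx' c1.symm
  rcases c2 with c2 | c2
  · exact hx' c2.symm
  · exact hyz (h.injective (c1.symm.trans c2))


theorem eq_of_le_of_index_eq {G : Type*} [Group G] {H K : Subgroup G} (hle : H ≤ K)
    (hidx : H.index = K.index) (h0 : H.index ≠ 0) : H = K := by
  apply le_antisymm hle
  rw [← Subgroup.relIndex_eq_one]
  have h1 := Subgroup.relIndex_mul_index hle
  rw [← hidx] at h1
  exact Nat.eq_of_mul_eq_mul_right (Nat.pos_of_ne_zero h0) (by rw [h1, one_mul])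

/-- The action on the cosets of a subgroup of index `n` of `S_n` (`n ≥ 5`) is an isomorphism
onto the symmetric group of the coset space. -/
theorem exists_cosetIso {Ω : Type*} [Fintype Ω] [DecidableEq Ω] (h5 : 5 ≤ Fintype.card Ω)
    (H : Subgroup (Perm Ω)) (hH : H.index = Fintype.card Ω) :
    ∃ Φ : Perm Ω ≃* Perm (Perm Ω ⧸ H), ∀ g q, Φ g q = g • q := by
  classical
  have : Fintype (Perm Ω ⧸ H) := Fintype.ofFinite _
  have hX : Fintype.card (Perm Ω ⧸ H) = Fintype.card Ω := by
    rw [← Nat.card_eq_fintype_card, ← Subgroup.index_eq_card, hH]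
  have hinj : Function.Injective (MulAction.toPermHom (Perm Ω) (Perm Ω ⧸ H)) := by
    rw [← MonoidHom.ker_eq_bot_iff, ← Subgroup.normalCore_eq_ker]
    by_contra hne
    have hnt : Nontrivial ↥H.normalCore := (Subgroup.nontrivial_iff_ne_bot _).mpr hne
    have hle : alternatingGroup Ω ≤ H :=
      (alternatingGroup_le_of_normal (by rw [Nat.card_eq_fintype_card]; exact h5) hnt).trans
        (Subgroup.normalCore_le H)
    have : Nontrivial Ω := Fintype.one_lt_card_iff_nontrivial.mp (by omega)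
    have hd := Subgroup.index_dvd_of_le hle
    rw [alternatingGroup.index_eq_two, hH] at hd
    have := Nat.le_of_dvd (by norm_num) hd
    omega
  have hbij : Function.Bijective (MulAction.toPermHom (Perm Ω) (Perm Ω ⧸ H)) := by
    apply hinj.bijective_of_nat_card_le
    rw [Nat.card_perm, Nat.card_perm, Nat.card_eq_fintype_card, Nat.card_eq_fintype_card, hX]
  exact ⟨MulEquiv.ofBijective _ hbij, fun g q => rfl⟩

/-! ### Degree 6 -/

/-- A fixed-point-free involution in degree 6 (a product of three disjoint transpositions). -/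
def IsTriple {A : Type*} [Fintype A] [DecidableEq A] (σ : Perm A) : Prop :=
  σ.cycleType = Multiset.replicate 3 2

theorem swap_not_triple {A : Type*} [Fintype A] [DecidableEq A] {s : Perm A} (hs : s.IsSwap)
    (ht : IsTriple s) : False := by
  obtain ⟨a, b, hab, rfl⟩ := hs
  have h1 : (swap a b).cycleType = {2} := by
    rw [(isCycle_swap hab).cycleType, card_support_swap hab]
  have h2 := congrArg Multiset.card (h1.symm.trans ht)
  simp at h2

/-- In degree 6 an isomorphism of symmetric groups maps a swap or a triple transposition to a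
swap or a triple transposition. -/
theorem type6 {A B : Type*} [Fintype A] [DecidableEq A] [Fintype B] [DecidableEq B]
    (hA : Fintype.card A = 6) (hB : Fintype.card B = 6) (Ψ : Perm A ≃* Perm B) (σ : Perm A)
    (hσ : σ.IsSwap ∨ IsTriple σ) : (Ψ σ).IsSwap ∨ IsTriple (Ψ σ) := by
  obtain ⟨m, hm, hct⟩ : ∃ m, (m = 1 ∨ m = 3) ∧ σ.cycleType = Multiset.replicate m 2 := by
    rcases hσ with ⟨a, b, hab, rfl⟩ | h
    · refine ⟨1, Or.inl rfl, ?_⟩
      rw [(isCycle_swap hab).cycleType, card_support_swap hab]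
      rfl
    · exact ⟨3, Or.inr rfl, h⟩
  have hm0 : m ≠ 0 := by rcases hm with rfl | rfl <;> norm_num
  have hoσ : orderOf σ = 2 := by
    rw [← lcm_cycleType, hct]
    rcases hm with rfl | rfl <;> decide
  have ho : orderOf (Ψ σ) = 2 := by
    rw [MulEquiv.orderOf_eq]
    exact hoσ
  obtain ⟨k, hk⟩ := cycleType_prime_order (σ := Ψ σ) (by rw [ho]; exact Nat.prime_two)
  rw [ho] at hk
  have hc : Nat.card (Subgroup.centralizer {Ψ σ}) = Nat.card (Subgroup.centralizer {σ}) := by
    apply Nat.card_congr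
    refine (Equiv.subtypeEquiv Ψ.toEquiv ?_).symm
    intro g
    rw [Subgroup.mem_centralizer_singleton_iff, Subgroup.mem_centralizer_singleton_iff]
    show g * σ = σ * g ↔ Ψ g * Ψ σ = Ψ σ * Ψ g
    rw [← map_mul, ← map_mul, Ψ.injective.eq_iff]
  have htf : ∀ j : ℕ, j ≠ 0 → (Multiset.replicate j 2).toFinset = ({2} : Finset ℕ) := by
    intro j hj
    ext x
    rw [Multiset.mem_toFinset, Multiset.mem_replicate, Finset.mem_singleton]
    exact ⟨fun h => h.2, fun h => ⟨hj, h⟩⟩
  have hsum : (Ψ σ).cycleType.sum ≤ Fintype.card B := sum_cycleType_le _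
  rw [hk, hB, Multiset.sum_replicate, smul_eq_mul] at hsum
  rw [nat_card_centralizer, nat_card_centralizer, hk, hct, hA, hB] at hc
  simp only [Multiset.sum_replicate, Multiset.prod_replicate, smul_eq_mul,
    htf (k + 1) (Nat.succ_ne_zero k), htf m hm0, Finset.prod_singleton,
    Multiset.count_replicate_self] at hc
  have hR : Nat.factorial (6 - m * 2) * 2 ^ m * Nat.factorial m = 48 := by
    rcases hm with rfl | rfl <;> decide
  rw [hR] at hc
  have hk2 : k ≤ 2 := by omega
  interval_cases k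
  · left
    rw [← card_support_eq_two, ← sum_cycleType, hk]
    rfl
  · exfalso
    revert hc
    decide
  · right
    exact hk

/-- In degree 6, the composite of two isomorphisms that do not preserve swaps preserves
swaps. -/
theorem swapPres_comp6 {A B C : Type*} [Fintype A] [DecidableEq A] [Fintype B] [DecidableEq B]
    [Fintype C] [DecidableEq C] (hA : Fintype.card A = 6) (hB : Fintype.card B = 6)
    (hC : Fintype.card C = 6) (Ψ₁ : Perm A ≃* Perm B) (Ψ₂ : Perm B ≃* Perm C)
    (h1 : ¬ ∀ a b : A, a ≠ b → (Ψ₁ (swap a b)).IsSwap)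
    (h2 : ¬ ∀ q r : B, q ≠ r → (Ψ₂ (swap q r)).IsSwap) :
    ∀ a b : A, a ≠ b → (Ψ₂ (Ψ₁ (swap a b))).IsSwap := by
  intro a b hab
  have hu : IsTriple (Ψ₁ (swap a b)) := by
    rcases type6 hA hB Ψ₁ (swap a b) (Or.inl ⟨a, b, hab, rfl⟩) with h | h
    · exact absurd (swapPres_of_one Ψ₁ ⟨a, b, hab, rfl⟩ h).1 h1
    · exact h
  rcases type6 hB hC Ψ₂ _ (Or.inr hu) with h | h
  · exact h
  · exfalso
    obtain ⟨q, r, hqr⟩ : ∃ q r : B, q ≠ r := by
      have : Nontrivial B := Fintype.one_lt_card_iff_nontrivial.mp (by omega)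
      exact exists_pair_ne B
    have hs : IsTriple (Ψ₂ (swap q r)) := by
      rcases type6 hB hC Ψ₂ (swap q r) (Or.inl ⟨q, r, hqr, rfl⟩) with h' | h'
      · exact absurd (swapPres_of_one Ψ₂ ⟨q, r, hqr, rfl⟩ h').1 h2
      · exact h'
    obtain ⟨c, hc⟩ := isConj_iff.mp (isConj_iff_cycleType_eq.mpr (hs.trans h.symm))
    have h3 : Ψ₁ (swap a b) = Ψ₂.symm c * swap q r * (Ψ₂.symm c)⁻¹ := by
      apply Ψ₂.injective
      rw [← hc, map_mul, map_mul, map_inv, MulEquiv.apply_symm_apply]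
    have h4 : (Ψ₁ (swap a b)).IsSwap := by
      rw [h3]
      exact conj_isSwap ⟨q, r, hqr, rfl⟩ _
    exact swap_not_triple h4 hu

/-- Classification of the subgroups of index 6 of `S₆`, relative to a given subgroup `H₂` of
index 6 fixing no point: each is a point stabilizer or a conjugate of `H₂` (the stabilizer of a
coset of `H₂`). -/
theorem classify6 {Ω : Type*} [Fintype Ω] [DecidableEq Ω] (h6 : Fintype.card Ω = 6)
    (H₂ : Subgroup (Perm Ω)) (hH₂ : H₂.index = 6)
    (hno : ∀ x : Ω, ¬ H₂ ≤ MulAction.stabilizer (Perm Ω) x)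
    (H : Subgroup (Perm Ω)) (hH : H.index = 6) :
    (∃ x : Ω, H = MulAction.stabilizer (Perm Ω) x) ∨
      (∃ q : Perm Ω ⧸ H₂, H = MulAction.stabilizer (Perm Ω) q) := by
  classical
  have : Fintype (Perm Ω ⧸ H) := Fintype.ofFinite _
  have : Fintype (Perm Ω ⧸ H₂) := Fintype.ofFinite _
  have hX : Fintype.card (Perm Ω ⧸ H) = 6 := by
    rw [← Nat.card_eq_fintype_card, ← Subgroup.index_eq_card, hH]
  have hX₂ : Fintype.card (Perm Ω ⧸ H₂) = 6 := by
    rw [← Nat.card_eq_fintype_card, ← Subgroup.index_eq_card, hH₂]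
  obtain ⟨Φ, hΦ⟩ := exists_cosetIso (by omega) H (by rw [hH, h6])
  obtain ⟨Φ₂, hΦ₂⟩ := exists_cosetIso (by omega) H₂ (by rw [hH₂, h6])
  have F1 : ∀ g : Perm Ω, g ∈ H ↔
      Φ g ((1 : Perm Ω) : Perm Ω ⧸ H) = ((1 : Perm Ω) : Perm Ω ⧸ H) := by
    intro g
    rw [hΦ, ← MulAction.mem_stabilizer_iff, MulAction.stabilizer_quotient]
  have F1₂ : ∀ g : Perm Ω, g ∈ H₂ ↔
      Φ₂ g ((1 : Perm Ω) : Perm Ω ⧸ H₂) = ((1 : Perm Ω) : Perm Ω ⧸ H₂) := by
    intro g
    rw [hΦ₂, ← MulAction.mem_stabilizer_iff, MulAction.stabilizer_quotient]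
  obtain ⟨a₀, b₀, hab₀⟩ : ∃ a b : Ω, a ≠ b := by
    have : Nontrivial Ω := Fintype.one_lt_card_iff_nontrivial.mp (by omega)
    exact exists_pair_ne Ω
  obtain ⟨q₁, r₁, hqr₁⟩ : ∃ q r : Perm Ω ⧸ H₂, q ≠ r := by
    have : Nontrivial (Perm Ω ⧸ H₂) := Fintype.one_lt_card_iff_nontrivial.mp (by omega)
    exact exists_pair_ne _
  have hT₂ : ¬ ∀ a b : Ω, a ≠ b → (Φ₂ (swap a b)).IsSwap := by
    intro hS
    have hS' := swapPres_of_one Φ₂ ⟨a₀, b₀, hab₀, rfl⟩ (hS a₀ b₀ hab₀)
    obtain ⟨x, hx⟩ := fix_of_swaps (by omega) Φ₂ _ H₂ F1₂ hS'.1 hS'.2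
    exact hno x hx
  have hidx : ∀ x : Ω, (MulAction.stabilizer (Perm Ω) x).index = 6 := fun x => by
    rw [MulAction.index_stabilizer_of_transitive (Perm Ω) x, Nat.card_eq_fintype_card, h6]
  by_cases hS : ∀ a b : Ω, a ≠ b → (Φ (swap a b)).IsSwap
  · left
    have hS' := swapPres_of_one Φ ⟨a₀, b₀, hab₀, rfl⟩ (hS a₀ b₀ hab₀)
    obtain ⟨x, hx⟩ := fix_of_swaps (by omega) Φ _ H F1 hS'.1 hS'.2
    exact ⟨x, eq_of_le_of_index_eq hx (by rw [hH, hidx x]) (by rw [hH]; norm_num)⟩
  · right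
    have hT₂' : ¬ ∀ q r : Perm Ω ⧸ H₂, q ≠ r → (Φ₂.symm (swap q r)).IsSwap := by
      intro hS2
      have hS' := swapPres_of_one Φ₂.symm ⟨q₁, r₁, hqr₁, rfl⟩ (hS2 q₁ r₁ hqr₁)
      exact hT₂ (fun a b hab => by simpa using hS'.2 a b hab)
    have hΨ := swapPres_comp6 hX₂ h6 hX Φ₂.symm Φ hT₂' hS
    have hS' := swapPres_of_one (Φ₂.symm.trans Φ) ⟨q₁, r₁, hqr₁, rfl⟩ (hΨ q₁ r₁ hqr₁)
    have F1' : ∀ g' : Perm (Perm Ω ⧸ H₂), g' ∈ H.map Φ₂.toMonoidHom ↔
        (Φ₂.symm.trans Φ) g' ((1 : Perm Ω) : Perm Ω ⧸ H) = ((1 : Perm Ω) : Perm Ω ⧸ H) := by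
      intro g'
      rw [MulEquiv.trans_apply, ← F1]
      constructor
      · rintro ⟨g, hg, rfl⟩
        have h1 : Φ₂.symm (Φ₂.toMonoidHom g) = g := Φ₂.symm_apply_apply g
        rw [h1]
        exact hg
      · intro hg
        exact ⟨Φ₂.symm g', hg, Φ₂.apply_symm_apply g'⟩
    obtain ⟨q₀, hq₀⟩ := fix_of_swaps (by omega) (Φ₂.symm.trans Φ) _ (H.map Φ₂.toMonoidHom) F1'
      hS'.1 hS'.2
    refine ⟨q₀, eq_of_le_of_index_eq ?_ ?_ ?_⟩
    · intro h hh
      have h1 := hq₀ (Subgroup.mem_map_of_mem _ hh)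
      rw [MulAction.mem_stabilizer_iff] at h1 ⊢
      rw [← hΦ₂]
      exact h1
    · rw [hH, MulAction.index_stabilizer_of_transitive (Perm Ω) q₀, ← Subgroup.index_eq_card, hH₂]
    · rw [hH]
      norm_num

/-- There is a subgroup of index 6 of `S₆` fixing no point (the image of `S₅` acting on its six
Sylow 5-subgroups). -/
theorem exists_exotic6 {Ω : Type*} [Fintype Ω] [DecidableEq Ω] (h6 : Fintype.card Ω = 6) :
    ∃ H₂ : Subgroup (Perm Ω), H₂.index = 6 ∧
      ∀ x : Ω, ¬ H₂ ≤ MulAction.stabilizer (Perm Ω) x := by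
  classical
  have : Fact (Nat.Prime 5) := ⟨Nat.prime_five⟩
  have hS : Nat.card (Perm (Fin 5)) = 120 := by
    rw [Nat.card_perm, Nat.card_fin]
    rfl
  have hY : Nat.card (Sylow 5 (Perm (Fin 5))) = 6 := by
    obtain ⟨P⟩ : Nonempty (Sylow 5 (Perm (Fin 5))) := inferInstance
    have h1 : Nat.card (Sylow 5 (Perm (Fin 5))) ∣ 120 := by
      rw [← hS]
      exact (Sylow.card_dvd_index P).trans (Subgroup.index_dvd_card _)
    have h2 := card_sylow_modEq_one 5 (Perm (Fin 5))
    have h3 : Nat.card (Sylow 5 (Perm (Fin 5))) ≠ 1 := by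
      intro h1'
      have : Subsingleton (Sylow 5 (Perm (Fin 5))) := (Nat.card_eq_one_iff_unique.mp h1').1
      have hn : (P : Subgroup (Perm (Fin 5))).Normal := Sylow.normal_of_subsingleton P
      have hnt : Nontrivial ↥(P : Subgroup (Perm (Fin 5))) :=
        (Subgroup.nontrivial_iff_ne_bot _).mpr (P.ne_bot_of_dvd_card (by rw [hS]; norm_num))
      have hle := alternatingGroup_le_of_normal (α := Fin 5) (by simp) hnt
      obtain ⟨k, hk⟩ := IsPGroup.iff_card.mp P.isPGroup'
      have h60 : 2 * Nat.card (alternatingGroup (Fin 5)) = 120 := by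
        rw [two_mul_nat_card_alternatingGroup, hS]
      have hdvd := Subgroup.card_dvd_of_le hle
      rw [hk] at hdvd
      have h2' : 2 ∣ 5 ^ k := Dvd.dvd.trans ⟨30, by omega⟩ hdvd
      have h5 := Nat.Prime.dvd_of_dvd_pow Nat.prime_two h2'
      exact absurd h5 (by decide)
    have key : ∀ d ∈ Nat.divisors 120, d % 5 = 1 → d ≠ 1 → d = 6 := by decide
    exact key _ (Nat.mem_divisors.mpr ⟨h1, by norm_num⟩) h2 h3
  have hYfin : Fintype (Sylow 5 (Perm (Fin 5))) := Fintype.ofFinite _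
  have hYcard : Fintype.card (Sylow 5 (Perm (Fin 5))) = 6 := by
    rw [← Nat.card_eq_fintype_card]
    exact hY
  obtain ⟨ρ, hρ⟩ : ∃ ρ : Perm (Fin 5) →* Perm (Sylow 5 (Perm (Fin 5))),
      ∀ g P, ρ g P = g • P := ⟨MulAction.toPermHom _ _, fun g P => rfl⟩
  have hinj : Function.Injective ρ := by
    rw [← MonoidHom.ker_eq_bot_iff]
    by_contra hne
    have hnt : Nontrivial ↥ρ.ker := (Subgroup.nontrivial_iff_ne_bot _).mpr hne
    have hle : alternatingGroup (Fin 5) ≤ ρ.ker :=
      alternatingGroup_le_of_normal (by simp) hnt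
    obtain ⟨P⟩ : Nonempty (Sylow 5 (Perm (Fin 5))) := inferInstance
    have hle2 : ρ.ker ≤ MulAction.stabilizer (Perm (Fin 5)) P := by
      intro g hg
      rw [MulAction.mem_stabilizer_iff, ← hρ, MonoidHom.mem_ker.mp hg]
      rfl
    have hd := Subgroup.index_dvd_of_le (hle.trans hle2)
    rw [alternatingGroup.index_eq_two,
      MulAction.index_stabilizer_of_transitive (Perm (Fin 5)) P, hY] at hd
    exact absurd hd (by decide)
  have hKcard : Nat.card ρ.range = 120 := by
    rw [← hS]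
    exact Nat.card_congr (MonoidHom.ofInjective hinj).toEquiv.symm
  have hKidx : ρ.range.index = 6 := by
    have h1 := ρ.range.card_mul_index
    rw [hKcard, Nat.card_perm, hY] at h1
    have h720 : Nat.factorial 6 = 720 := rfl
    omega
  have hKno : ∀ y : Sylow 5 (Perm (Fin 5)),
      ¬ ρ.range ≤ MulAction.stabilizer (Perm (Sylow 5 (Perm (Fin 5)))) y := by
    intro y hle
    have : Nontrivial (Sylow 5 (Perm (Fin 5))) :=
      Fintype.one_lt_card_iff_nontrivial.mp (by omega)
    obtain ⟨y', hy'⟩ := exists_ne y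
    obtain ⟨g, hg⟩ := MulAction.exists_smul_eq (Perm (Fin 5)) y y'
    have h1 := hle ⟨g, rfl⟩
    rw [MulAction.mem_stabilizer_iff, Perm.smul_def, hρ, hg] at h1
    exact hy' h1
  obtain ⟨e⟩ : Nonempty (Sylow 5 (Perm (Fin 5)) ≃ Ω) :=
    Fintype.card_eq.mp (by rw [hYcard, h6])
  refine ⟨ρ.range.map e.permCongrHom.toMonoidHom, ?_, ?_⟩
  · exact (Subgroup.index_map_equiv _ e.permCongrHom).trans hKidx
  · intro x hle
    apply hKno (e.symm x)
    intro k hk
    have h1 := hle (Subgroup.mem_map_of_mem _ hk)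
    rw [MulAction.mem_stabilizer_iff, Perm.smul_def] at h1 ⊢
    have h2 : e (k (e.symm x)) = x := h1
    exact e.injective (by rw [h2, e.apply_symm_apply])

/-- The stabilizer of a point in the symmetric group of an `(n+1)`-element set is isomorphic
to `S_n`. -/
theorem nonempty_stabilizer_mulEquiv {X : Type*} [Fintype X] [DecidableEq X] (p₀ : X) (n : ℕ)
    (hn : Fintype.card X = n + 1) :
    Nonempty (MulAction.stabilizer (Perm X) p₀ ≃* Perm (Fin n)) := by
  have hmem : ∀ g : MulAction.stabilizer (Perm X) p₀, ∀ x : X,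
      (g : Perm X) x ≠ p₀ ↔ x ≠ p₀ := by
    intro g x
    have hg : (g : Perm X) p₀ = p₀ := g.2
    constructor
    · intro h hx
      exact h (by rw [hx, hg])
    · intro h hx
      exact h ((g : Perm X).injective (hx.trans hg.symm))
  obtain ⟨ψ, hψ⟩ : ∃ ψ : MulAction.stabilizer (Perm X) p₀ →* Perm {x : X // x ≠ p₀},
      ∀ (g : MulAction.stabilizer (Perm X) p₀) (x : {x : X // x ≠ p₀}),
        ((ψ g x : {x : X // x ≠ p₀}) : X) = (g : Perm X) x :=
    ⟨{ toFun := fun g => (g : Perm X).subtypePerm (hmem g)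
       map_one' := by ext x; rfl
       map_mul' := fun g h => by ext x; rfl }, fun g x => rfl⟩
  have hbij : Function.Bijective ψ := by
    constructor
    · intro g h hgh
      apply Subtype.ext
      refine Equiv.ext fun x => ?_
      by_cases hx : x = p₀
      · rw [hx]
        exact (g.2 : (g : Perm X) p₀ = p₀).trans (h.2 : (h : Perm X) p₀ = p₀).symm
      · rw [← hψ g ⟨x, hx⟩, ← hψ h ⟨x, hx⟩, hgh]
    · intro σ
      have hfix : (ofSubtype σ : Perm X) p₀ = p₀ :=
        ofSubtype_apply_of_not_mem σ (fun h => h rfl)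
      refine ⟨⟨ofSubtype σ, hfix⟩, ?_⟩
      refine Equiv.ext fun x => Subtype.ext ?_
      rw [hψ]
      exact ofSubtype_apply_of_mem σ x.2
  have hc : Fintype.card {x : X // x ≠ p₀} = n := by
    have h := Fintype.card_congr (Equiv.optionSubtypeNe p₀)
    rw [Fintype.card_option, hn] at h
    omega
  obtain ⟨e⟩ : Nonempty ({x : X // x ≠ p₀} ≃ Fin n) :=
    Fintype.card_eq.mp (by rw [hc, Fintype.card_fin])
  exact ⟨(MulEquiv.ofBijective ψ hbij).trans e.permCongrHom⟩

/-- Every subgroup of index 6 of `S₆` is isomorphic to `S₅`. -/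
theorem nonempty_mulEquiv_of_index6 {Ω : Type*} [Fintype Ω] [DecidableEq Ω]
    (h6 : Fintype.card Ω = 6) (H : Subgroup (Perm Ω)) (hH : H.index = 6) :
    Nonempty (H ≃* Perm (Fin 5)) := by
  classical
  have : Fintype (Perm Ω ⧸ H) := Fintype.ofFinite _
  have hX : Fintype.card (Perm Ω ⧸ H) = 5 + 1 := by
    rw [← Nat.card_eq_fintype_card, ← Subgroup.index_eq_card, hH]
  obtain ⟨Φ, hΦ⟩ := exists_cosetIso (by omega) H (by rw [hH, h6])
  have hmap : H.map (Φ : Perm Ω →* Perm (Perm Ω ⧸ H)) =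
      MulAction.stabilizer (Perm (Perm Ω ⧸ H)) ((1 : Perm Ω) : Perm Ω ⧸ H) := by
    ext σ
    obtain ⟨g, rfl⟩ := Φ.surjective σ
    rw [MulAction.mem_stabilizer_iff, Perm.smul_def, hΦ, ← MulAction.mem_stabilizer_iff,
      MulAction.stabilizer_quotient]
    constructor
    · rintro ⟨g', hg', h⟩
      have h' : g' = g := Φ.injective h
      rw [← h']
      exact hg'
    · intro hg
      exact ⟨g, hg, rfl⟩
  obtain ⟨ψ⟩ := nonempty_stabilizer_mulEquiv ((1 : Perm Ω) : Perm Ω ⧸ H) 5 hX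
  exact ⟨(Φ.subgroupMap H).trans ((MulEquiv.subgroupCongr hmap).trans ψ)⟩

/-- Point stabilizers of distinct points are distinct (degree at least 3). -/
theorem stabilizer_injective {X : Type*} [Fintype X] [DecidableEq X] (h3 : 3 ≤ Fintype.card X) :
    Function.Injective (fun a : X => MulAction.stabilizer (Perm X) a) := by
  intro a b hab
  by_contra hne
  obtain ⟨c, -, hc⟩ := Finset.exists_mem_notMem_of_card_lt_card (s := {a, b})
    (t := (Finset.univ : Finset X))
    (by rw [Finset.card_univ]; exact lt_of_le_of_lt Finset.card_le_two (by omega))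
  have hca : c ≠ a := fun h => hc (by simp [h])
  have hcb : c ≠ b := fun h => hc (by simp [h])
  have h1 : swap b c ∈ MulAction.stabilizer (Perm X) a := by
    rw [MulAction.mem_stabilizer_iff, Perm.smul_def]
    exact swap_apply_of_ne_of_ne hne hca.symm
  have h2 : swap b c ∈ MulAction.stabilizer (Perm X) b := by
    have hab' : MulAction.stabilizer (Perm X) a = MulAction.stabilizer (Perm X) b := hab
    rw [← hab']
    exact h1
  rw [MulAction.mem_stabilizer_iff, Perm.smul_def, swap_apply_left] at h2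
  exact hcb h2

end Cfsg.Agent.Helper29
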