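import Mathlib

/-!
Zsigmondy's theorem (primitive prime divisors of `a ^ n - 1`), through the integer values of the
cyclotomic polynomials.
-/

namespace Cfsg.Agent.Helper29

open Polynomial

/-- the integer value of the `n`-th cyclotomic polynomial at `a`. -/
noncomputable def zsPhi (n a : ℕ) : ℤ := (cyclotomic n ℤ).eval (a : ℤ)

lemma zs_cast (a k : ℕ) (ha : 0 < a) : ((a ^ k - 1 : ℕ) : ℤ) = (a : ℤ) ^ k - 1 := by
  rw [Nat.cast_sub (Nat.one_le_pow _ _ ha)]
  simp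

lemma zs_key (n d a : ℕ) (h : d ∈ n.properDivisors) :
    ((a : ℤ) ^ d - 1) * zsPhi n a ∣ (a : ℤ) ^ n - 1 := by
  have := Polynomial.eval_dvd (x := (a : ℤ))
    (X_pow_sub_one_mul_cyclotomic_dvd_X_pow_sub_one_of_dvd ℤ h)
  simpa [zsPhi] using this

lemma zs_dvd (n a : ℕ) : zsPhi n a ∣ (a : ℤ) ^ n - 1 := by
  have := Polynomial.eval_dvd (x := (a : ℤ)) (cyclotomic.dvd_X_pow_sub_one n ℤ)
  simpa [zsPhi] using this

lemma zs_pos (n a : ℕ) (ha : 1 < a) : 0 < zsPhi n a :=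
  cyclotomic_pos' n (by exact_mod_cast ha)

lemma zs_real (n a : ℕ) : ((zsPhi n a : ℤ) : ℝ) = (cyclotomic n ℝ).eval (a : ℝ) := by
  have := cyclotomic.eval_apply (a : ℤ) n (Int.castRingHom ℝ)
  simpa [zsPhi] using this.symm

lemma zs_lower (n a : ℕ) (hn : 2 ≤ n) (ha : 1 < a) :
    ((a : ℤ) - 1) ^ Nat.totient n < zsPhi n a := by
  have h := sub_one_pow_totient_lt_cyclotomic_eval (n := n) (q := (a : ℝ)) hn
    (by exact_mod_cast ha)
  rw [← zs_real] at h
  exact_mod_cast h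

lemma zs_lower' (n a : ℕ) (ha : 1 < a) :
    ((a : ℤ) - 1) ^ Nat.totient n ≤ zsPhi n a := by
  have h := sub_one_pow_totient_le_cyclotomic_eval (q := (a : ℝ)) (by exact_mod_cast ha) n
  rw [← zs_real] at h
  exact_mod_cast h

lemma zs_upper' (n a : ℕ) (ha : 1 < a) :
    zsPhi n a ≤ ((a : ℤ) + 1) ^ Nat.totient n := by
  have h := cyclotomic_eval_le_add_one_pow_totient (q := (a : ℝ)) (by exact_mod_cast ha) n
  rw [← zs_real] at h
  exact_mod_cast h

lemma zs_expand_dvd (m r a : ℕ) (hr : r.Prime) (h : r ∣ m) :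
    zsPhi (m * r) a = zsPhi m (a ^ r) := by
  have := congrArg (Polynomial.eval (a : ℤ)) (cyclotomic_expand_eq_cyclotomic hr h ℤ)
  rw [expand_eval] at this
  simp only [zsPhi]
  push_cast
  exact this.symm

lemma zs_expand_ndvd (m r a : ℕ) (hr : r.Prime) (h : ¬ r ∣ m) :
    zsPhi (m * r) a * zsPhi m a = zsPhi m (a ^ r) := by
  have := congrArg (Polynomial.eval (a : ℤ)) (cyclotomic_expand_eq_cyclotomic_mul hr h ℤ)
  rw [expand_eval, eval_mul] at this
  simp only [zsPhi]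
  push_cast
  exact this.symm

lemma zs_phi_dvd_sum (n a p : ℕ) (ha : 1 < a) (hn : 0 < n) (hp : p.Prime) (hpn : p ∣ n) :
    zsPhi n a ∣ ∑ i ∈ Finset.range p, ((a : ℤ) ^ (n / p)) ^ i := by
  have hd : n / p ∈ n.properDivisors := by
    rw [Nat.mem_properDivisors]
    exact ⟨Nat.div_dvd_of_dvd hpn, Nat.div_lt_self hn hp.one_lt⟩
  have h1 := zs_key n (n / p) a hd
  have h2 : (a : ℤ) ^ n - 1 =
      ((a : ℤ) ^ (n / p) - 1) * ∑ i ∈ Finset.range p, ((a : ℤ) ^ (n / p)) ^ i := by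
    rw [mul_geom_sum, ← pow_mul, Nat.div_mul_cancel hpn]
  rw [h2] at h1
  have h3 : (a : ℤ) ^ (n / p) - 1 ≠ 0 := by
    have hpos : 0 < n / p := Nat.div_pos (Nat.le_of_dvd hn hpn) hp.pos
    have h4 : (1 : ℤ) < (a : ℤ) ^ (n / p) := one_lt_pow₀ (by exact_mod_cast ha) hpos.ne'
    intro h5
    linarith
  exact (mul_dvd_mul_iff_left h3).1 h1

lemma zs_sum_mod (c r : ℤ) (p : ℕ) (h : r ∣ c - 1) :
    r ∣ (∑ i ∈ Finset.range p, c ^ i) - (p : ℤ) := by
  have h1 : (∑ i ∈ Finset.range p, c ^ i) - (p : ℤ) = ∑ i ∈ Finset.range p, (c ^ i - 1) := by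
    rw [Finset.sum_sub_distrib]
    simp
  rw [h1]
  apply Finset.dvd_sum
  intro i _
  exact h.trans (by simpa using sub_dvd_pow_sub_pow c 1 i)

lemma zs_step (n a r k : ℕ) (ha : 1 < a) (hn : 0 < n) (hr : r.Prime)
    (hrF : (r : ℤ) ∣ zsPhi n a) (hk : k ∣ n) (hrk : (r : ℤ) ∣ (a : ℤ) ^ k - 1)
    (p : ℕ) (hp : p.Prime) (hpn : p ∣ n / k) : p = r := by
  have hpn' : p ∣ n := hpn.trans (Nat.div_dvd_of_dvd hk)
  have hkd : k ∣ n / p := by
    obtain ⟨m, hm⟩ := hpn
    have hnk : n = k * (p * m) := by rw [← hm, Nat.mul_div_cancel' hk]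
    refine ⟨m, ?_⟩
    rw [hnk, show k * (p * m) = p * (k * m) by ring, Nat.mul_div_cancel_left _ hp.pos]
  have h1 : (r : ℤ) ∣ (a : ℤ) ^ (n / p) - 1 := by
    obtain ⟨m, hm⟩ := hkd
    rw [hm, pow_mul]
    exact hrk.trans (by simpa using sub_dvd_pow_sub_pow ((a : ℤ) ^ k) 1 m)
  have h2 := zs_phi_dvd_sum n a p ha hn hp hpn'
  have h3 := zs_sum_mod ((a : ℤ) ^ (n / p)) (r : ℤ) p h1
  have h4 : (r : ℤ) ∣ (p : ℤ) := by
    have h5 := dvd_sub (hrF.trans h2) h3
    simpa using h5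
  have h5 : r ∣ p := Int.natCast_dvd_natCast.1 h4
  exact ((Nat.prime_dvd_prime_iff_eq hr hp).1 h5).symm

lemma zs_core (n a r k : ℕ) (ha : 1 < a) (hr : r.Prime)
    (hrF : (r : ℤ) ∣ zsPhi n a) (hk0 : 0 < k) (hkn : k < n) (hrk : r ∣ a ^ k - 1) :
    ∃ k₀, 0 < k₀ ∧ k₀ ∣ n ∧ k₀ < n ∧ k₀ < r ∧ (r : ℤ) ∣ (a : ℤ) ^ k₀ - 1 ∧
      ∀ p : ℕ, p.Prime → p ∣ n / k₀ → p = r := by
  have hn : 0 < n := by omega
  have ha0 : 0 < a := by omega
  have hrn : r ∣ a ^ n - 1 := by
    have h := hrF.trans (zs_dvd n a)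
    rw [← zs_cast a n ha0] at h
    exact Int.natCast_dvd_natCast.1 h
  have hra : ¬ r ∣ a := by
    intro h
    have h1 : r ∣ a ^ k := h.trans (dvd_pow_self a hk0.ne')
    have h2 : 1 ≤ a ^ k := Nat.one_le_pow _ _ ha0
    have h3 : r ∣ 1 := by
      have h4 := Nat.dvd_sub h1 hrk
      rwa [Nat.sub_sub_self h2] at h4
    exact hr.one_lt.ne' (Nat.dvd_one.1 h3)
  have hcop : Nat.Coprime a r := ((Nat.Prime.coprime_iff_not_dvd hr).2 hra).symm
  have hfer : r ∣ a ^ (r - 1) - 1 := by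
    have h := Nat.ModEq.pow_totient hcop
    rw [Nat.totient_prime hr] at h
    exact (Nat.modEq_iff_dvd' (Nat.one_le_pow _ _ ha0)).1 h.symm
  have h1 : r ∣ a ^ Nat.gcd k n - 1 := by
    rw [← Nat.pow_sub_one_gcd_pow_sub_one]
    exact Nat.dvd_gcd hrk hrn
  have h2 : r ∣ a ^ Nat.gcd (Nat.gcd k n) (r - 1) - 1 := by
    rw [← Nat.pow_sub_one_gcd_pow_sub_one]
    exact Nat.dvd_gcd h1 hfer
  have hg0 : 0 < Nat.gcd k n := Nat.gcd_pos_of_pos_left _ hk0
  have hk0' : 0 < Nat.gcd (Nat.gcd k n) (r - 1) := Nat.gcd_pos_of_pos_left _ hg0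
  have hdn : Nat.gcd (Nat.gcd k n) (r - 1) ∣ n :=
    (Nat.gcd_dvd_left _ _).trans (Nat.gcd_dvd_right k n)
  have hle1 : Nat.gcd (Nat.gcd k n) (r - 1) ≤ Nat.gcd k n :=
    Nat.le_of_dvd hg0 (Nat.gcd_dvd_left _ _)
  have hle2 : Nat.gcd k n ≤ k := Nat.le_of_dvd hk0 (Nat.gcd_dvd_left _ _)
  have hle3 : Nat.gcd (Nat.gcd k n) (r - 1) ≤ r - 1 :=
    Nat.le_of_dvd (by have := hr.two_le; omega) (Nat.gcd_dvd_right _ _)
  have hz : (r : ℤ) ∣ (a : ℤ) ^ Nat.gcd (Nat.gcd k n) (r - 1) - 1 := by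
    rw [← zs_cast a _ ha0]
    exact Int.natCast_dvd_natCast.2 h2
  refine ⟨Nat.gcd (Nat.gcd k n) (r - 1), hk0', hdn, by omega, ?_, hz, ?_⟩
  · have := hr.two_le
    omega
  · intro p hp hpn
    exact zs_step n a r _ ha hn hr hrF hdn hz p hp hpn

lemma zs_struct (n k₀ r : ℕ) (hk0 : 0 < k₀) (hkn : k₀ ∣ n) (hlt : k₀ < n)
    (H : ∀ p : ℕ, p.Prime → p ∣ n / k₀ → p = r) : ∃ e, 0 < e ∧ n = k₀ * r ^ e := by
  have hq0 : n / k₀ ≠ 0 := by
    have := Nat.div_pos (Nat.le_of_dvd (by omega) hkn) hk0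
    omega
  have hq := Nat.eq_prime_pow_of_unique_prime_dvd hq0 (fun {d} hd hdn => H d hd hdn)
  refine ⟨(n / k₀).primeFactorsList.length, ?_, ?_⟩
  · by_contra h0
    have h0' : (n / k₀).primeFactorsList.length = 0 := by omega
    rw [h0', pow_zero] at hq
    have h1 := Nat.div_mul_cancel hkn
    rw [hq] at h1
    omega
  · have h1 := Nat.mul_div_cancel' hkn
    rw [hq] at h1
    exact h1.symm

lemma zs_sq_odd (n a r : ℕ) (ha : 1 < a) (hn : 0 < n) (hr : r.Prime) (hodd : Odd r)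
    (hrn : r ∣ n) (h1 : (r : ℤ) ∣ (a : ℤ) ^ (n / r) - 1) : ¬ ((r : ℤ) ^ 2 ∣ zsPhi n a) := by
  intro h
  have h2 := zs_phi_dvd_sum n a r ha hn hr hrn
  obtain ⟨s, hs⟩ := h1
  have hc : (a : ℤ) ^ (n / r) = 1 + (r : ℤ) * s := by linarith
  have h3 := odd_sq_dvd_geom_sum₂_sub (1 : ℤ) s hodd
  simp only [one_pow, mul_one] at h3
  rw [← hc] at h3
  have h4 : (r : ℤ) ^ 2 ∣ (r : ℤ) := by
    have h5 := dvd_sub (h.trans h2) h3
    simpa using h5
  have h5 : r ^ 2 ∣ r := by exact_mod_cast h4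
  have h6 := Nat.le_of_dvd hr.pos h5
  have h7 : r < r ^ 2 := by nlinarith [hr.two_le]
  omega

lemma zs_sq_two (n a : ℕ) (ha : 1 < a) (hn : 0 < n) (hn4 : 4 ∣ n) (hodd : Odd (a : ℤ)) :
    ¬ ((2 : ℤ) ^ 2 ∣ zsPhi n a) := by
  intro h
  have h2 := zs_phi_dvd_sum n a 2 ha hn Nat.prime_two (dvd_trans (by norm_num) hn4)
  simp [Finset.sum_range_succ] at h2
  obtain ⟨m, hm⟩ := hn4
  have hc : (a : ℤ) ^ (n / 2) = ((a : ℤ) ^ m) ^ 2 := by
    rw [← pow_mul]
    congr 1
    omega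
  have h3 := Int.sq_mod_four_eq_one_of_odd (hodd.pow (n := m))
  rw [← hc] at h3
  have h5 := h.trans h2
  generalize (a : ℤ) ^ (n / 2) = c at h3 h5
  norm_num at h5
  omega

lemma zs_three_mul_lt (r : ℕ) (hr : 5 ≤ r) : 3 * r + 1 < 2 ^ r := by
  induction r, hr using Nat.le_induction with
  | base => norm_num
  | succ r hr ih => rw [pow_succ]; omega

/-- **Zsigmondy's theorem.** -/
theorem zsigmondy (a n : ℕ) (ha : 1 < a) (hn : 1 < n) (h6 : ¬ (a = 2 ∧ n = 6))
    (h2 : ¬ (n = 2 ∧ ∃ m : ℕ, a + 1 = 2 ^ m)) :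
    ∃ r : ℕ, r.Prime ∧ r ∣ a ^ n - 1 ∧ ∀ k : ℕ, 0 < k → k < n → ¬ r ∣ a ^ k - 1 := by
  have ha0 : 0 < a := by omega
  rcases Nat.lt_or_ge 2 n with hn3 | hn2
  · by_contra hno
    push Not at hno
    have hn0 : 0 < n := by omega
    have hFpos : 0 < zsPhi n a := zs_pos n a ha
    have hF1 : 1 < zsPhi n a := by
      have h1 := zs_lower n a (by omega) ha
      have h3 : (1 : ℤ) ≤ ((a : ℤ) - 1) ^ Nat.totient n := one_le_pow₀ (by omega)
      linarith
    obtain ⟨Fn, hFn⟩ : ∃ Fn : ℕ, (Fn : ℤ) = zsPhi n a :=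
      ⟨(zsPhi n a).toNat, Int.toNat_of_nonneg hFpos.le⟩
    have hFn1 : 1 < Fn := by
      have : (1 : ℤ) < (Fn : ℤ) := by rw [hFn]; exact hF1
      exact_mod_cast this
    have hcast : ∀ p : ℕ, p ∣ Fn → (p : ℤ) ∣ zsPhi n a := by
      intro p hp
      rw [← hFn]
      exact Int.natCast_dvd_natCast.2 hp
    have hcore : ∀ r : ℕ, r.Prime → (r : ℤ) ∣ zsPhi n a →
        ∃ k₀, 0 < k₀ ∧ k₀ ∣ n ∧ k₀ < n ∧ k₀ < r ∧ (r : ℤ) ∣ (a : ℤ) ^ k₀ - 1 ∧
          ∀ p : ℕ, p.Prime → p ∣ n / k₀ → p = r := by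
      intro r hr hrF
      have hrn : r ∣ a ^ n - 1 := by
        have h := hrF.trans (zs_dvd n a)
        rw [← zs_cast a n ha0] at h
        exact Int.natCast_dvd_natCast.1 h
      obtain ⟨k, hk0, hkn, hrk⟩ := hno r hr hrn
      exact zs_core n a r k ha hr hrF hk0 hkn hrk
    obtain ⟨r, hr, hrFn⟩ : ∃ r : ℕ, r.Prime ∧ r ∣ Fn :=
      ⟨Fn.minFac, Nat.minFac_prime (by omega), Nat.minFac_dvd Fn⟩
    have hrF := hcast r hrFn
    have huniq : ∀ p : ℕ, p.Prime → p ∣ Fn → p = r := by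
      intro p hp hpF
      by_contra hne
      obtain ⟨k₁, hk1, hk1n, hk1lt, hk1r, -, H1⟩ := hcore r hr hrF
      obtain ⟨k₂, hk2, hk2n, hk2lt, hk2p, -, H2⟩ := hcore p hp (hcast p hpF)
      obtain ⟨e₁, he1, hn1⟩ := zs_struct n k₁ r hk1 hk1n hk1lt H1
      obtain ⟨e₂, he2, hn2⟩ := zs_struct n k₂ p hk2 hk2n hk2lt H2
      have hp_dvd : p ∣ k₁ * r ^ e₁ := by
        rw [← hn1, hn2]
        exact (dvd_pow_self p he2.ne').mul_left _
      have hpk : p ∣ k₁ := by
        rcases (Nat.Prime.dvd_mul hp).1 hp_dvd with h | h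
        · exact h
        · exact absurd ((Nat.prime_dvd_prime_iff_eq hp hr).1 (hp.dvd_of_dvd_pow h)) hne
      have hr_dvd : r ∣ k₂ * p ^ e₂ := by
        rw [← hn2, hn1]
        exact (dvd_pow_self r he1.ne').mul_left _
      have hrk : r ∣ k₂ := by
        rcases (Nat.Prime.dvd_mul hr).1 hr_dvd with h | h
        · exact h
        · exact absurd ((Nat.prime_dvd_prime_iff_eq hr hp).1 (hr.dvd_of_dvd_pow h)).symm hne
      have h1 := Nat.le_of_dvd hk1 hpk
      have h2 := Nat.le_of_dvd hk2 hrk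
      omega
    obtain ⟨k₀, hk0, hk0n, hk0lt, hk0r, hk0d, H⟩ := hcore r hr hrF
    obtain ⟨e, he, hne⟩ := zs_struct n k₀ r hk0 hk0n hk0lt H
    have hrn : r ∣ n := by
      rw [hne]
      exact (dvd_pow_self r he.ne').mul_left _
    have hnr : n / r = k₀ * r ^ (e - 1) := by
      obtain ⟨e', rfl⟩ : ∃ e', e = e' + 1 := ⟨e - 1, by omega⟩
      rw [hne, pow_succ, ← mul_assoc, Nat.mul_div_cancel _ hr.pos]
      simp
    have hdiv1 : (r : ℤ) ∣ (a : ℤ) ^ (n / r) - 1 := by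
      rw [hnr, pow_mul]
      exact hk0d.trans (by simpa using sub_dvd_pow_sub_pow ((a : ℤ) ^ k₀) 1 (r ^ (e - 1)))
    have hsq : ¬ ((r : ℤ) ^ 2 ∣ zsPhi n a) := by
      rcases hr.eq_two_or_odd' with h2' | hodd
      · subst h2'
        have hk01 : k₀ = 1 := by omega
        subst hk01
        have he2 : 2 ≤ e := by
          by_contra hlt
          have he1 : e = 1 := by omega
          subst he1
          simp at hne
          omega
        have h4 : 4 ∣ n := by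
          obtain ⟨e', rfl⟩ : ∃ e', e = e' + 2 := ⟨e - 2, by omega⟩
          rw [hne]
          exact ⟨2 ^ e', by ring⟩
        have hodd_a : Odd (a : ℤ) := by
          have h5 : (2 : ℤ) ∣ (a : ℤ) - 1 := by simpa using hk0d
          obtain ⟨s, hs⟩ := h5
          exact ⟨s, by linarith⟩
        have h7 := zs_sq_two n a ha hn0 h4 hodd_a
        simpa using h7
      · exact zs_sq_odd n a r ha hn0 hr hodd hrn hdiv1
    have hFr : Fn = r := by
      have h := Nat.eq_prime_pow_of_unique_prime_dvd (by omega : Fn ≠ 0)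
        (fun {d} hd hdn => huniq d hd hdn)
      rcases Nat.lt_or_ge Fn.primeFactorsList.length 2 with h1 | h2'
      · rcases Nat.lt_or_ge Fn.primeFactorsList.length 1 with h0 | h1'
        · have h0' : Fn.primeFactorsList.length = 0 := by omega
          rw [h0', pow_zero] at h
          omega
        · have h1'' : Fn.primeFactorsList.length = 1 := by omega
          rw [h1'', pow_one] at h
          exact h
      · exfalso
        apply hsq
        have h3 : r ^ 2 ∣ Fn := by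
          have h4 := pow_dvd_pow r h2'
          rwa [← h] at h4
        have h5 : ((r ^ 2 : ℕ) : ℤ) ∣ zsPhi n a := hcast _ h3
        simpa using h5
    have hFz : zsPhi n a = (r : ℤ) := by rw [← hFn, hFr]
    have hphi : r - 1 ≤ Nat.totient n := by
      have h1 := Nat.totient_dvd_of_dvd hrn
      rw [Nat.totient_prime hr] at h1
      exact Nat.le_of_dvd (Nat.totient_pos.2 hn0) h1
    have hr2 := hr.two_le
    rcases Nat.lt_or_ge 2 a with ha3 | ha2
    · have hlow := zs_lower n a (by omega) ha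
      have h1 : (2 : ℤ) ^ (r - 1) ≤ ((a : ℤ) - 1) ^ Nat.totient n := by
        calc (2 : ℤ) ^ (r - 1) ≤ (2 : ℤ) ^ Nat.totient n :=
              pow_le_pow_right₀ (by norm_num) hphi
          _ ≤ ((a : ℤ) - 1) ^ Nat.totient n := pow_le_pow_left₀ (by norm_num) (by omega) _
      have h3 : r ≤ 2 ^ (r - 1) := by
        have h4 : r - 1 < 2 ^ (r - 1) := Nat.lt_two_pow_self
        omega
      have h2 : (r : ℤ) ≤ (2 : ℤ) ^ (r - 1) := by exact_mod_cast h3
      rw [hFz] at hlow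
      linarith
    · have ha2' : a = 2 := by omega
      subst ha2'
      rcases Nat.lt_or_ge e 2 with he1 | he2
      · -- e = 1
        have he1' : e = 1 := by omega
        subst he1'
        rw [pow_one] at hne
        have hnd : ¬ r ∣ k₀ := fun h => by
          have := Nat.le_of_dvd hk0 h
          omega
        have hex := zs_expand_ndvd k₀ r 2 hr hnd
        rw [← hne, hFz] at hex
        have hup := zs_upper' k₀ 2 (by norm_num)
        have hlo := zs_lower' k₀ (2 ^ r) (Nat.one_lt_two_pow (by omega))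
        have hphi0 : 0 < Nat.totient k₀ := Nat.totient_pos.2 hk0
        rcases Nat.lt_or_ge r 5 with hr5 | hr5
        · -- r ∈ {2, 3}
          have hr23 : r = 2 ∨ r = 3 := by
            interval_cases r
            · left; rfl
            · right; rfl
            · exact absurd hr (by decide)
          rcases hr23 with rfl | rfl
          · omega
          · have hk12 : k₀ = 1 ∨ k₀ = 2 := by omega
            rcases hk12 with rfl | rfl
            · norm_num at hk0d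
            · exact h6 ⟨rfl, by omega⟩
        · have h3r := zs_three_mul_lt r hr5
          -- (3 r)^φ < (2^r - 1)^φ ≤ r * 3^φ ≤ (3 r)^φ
          have hA : ((3 : ℤ) * r) ^ Nat.totient k₀ < (((2 ^ r : ℕ) : ℤ) - 1) ^ Nat.totient k₀ := by
            apply pow_lt_pow_left₀ _ (by positivity) hphi0.ne'
            have : ((3 * r + 1 : ℕ) : ℤ) < ((2 ^ r : ℕ) : ℤ) := by exact_mod_cast h3r
            push_cast at this ⊢
            linarith
          have hB : (r : ℤ) * zsPhi k₀ 2 ≤ (r : ℤ) * ((2 : ℤ) + 1) ^ Nat.totient k₀ := by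
            have hup' : zsPhi k₀ 2 ≤ ((2 : ℤ) + 1) ^ Nat.totient k₀ := by exact_mod_cast hup
            exact mul_le_mul_of_nonneg_left hup' (by positivity)
          have hC : (r : ℤ) * ((2 : ℤ) + 1) ^ Nat.totient k₀ ≤ ((3 : ℤ) * r) ^ Nat.totient k₀ := by
            rw [mul_pow]
            have h1 : (r : ℤ) ≤ (r : ℤ) ^ Nat.totient k₀ :=
              le_self_pow₀ (by exact_mod_cast hr.one_lt.le) hphi0.ne'
            have h2 : (0 : ℤ) ≤ (3 : ℤ) ^ Nat.totient k₀ := by positivity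
            norm_num
            nlinarith
          linarith
      · -- r ^ 2 ∣ n
        have hdiv : r ∣ n / r := by
          rw [hnr]
          exact (dvd_pow_self r (by omega)).mul_left _
        have hnr2 : 2 ≤ n / r := by
          have hpos : 0 < n / r := Nat.div_pos (Nat.le_of_dvd hn0 hrn) hr.pos
          have := Nat.le_of_dvd hpos hdiv
          omega
        have hex := zs_expand_dvd (n / r) r 2 hr hdiv
        rw [Nat.div_mul_cancel hrn, hFz] at hex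
        have hlo := zs_lower (n / r) (2 ^ r) hnr2 (Nat.one_lt_two_pow (by omega))
        rw [← hex] at hlo
        have hphi0 : 0 < Nat.totient (n / r) := Nat.totient_pos.2 (by omega)
        have hbase : (r : ℤ) ≤ ((2 ^ r : ℕ) : ℤ) - 1 := by
          have h4 : r < 2 ^ r := Nat.lt_two_pow_self
          have h5 : ((r + 1 : ℕ) : ℤ) ≤ ((2 ^ r : ℕ) : ℤ) := by exact_mod_cast h4
          push_cast at h5 ⊢
          linarith
        have hpow : ((2 ^ r : ℕ) : ℤ) - 1 ≤ (((2 ^ r : ℕ) : ℤ) - 1) ^ Nat.totient (n / r) :=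
          le_self_pow₀ (by have : (1 : ℤ) ≤ (r : ℤ) := by exact_mod_cast hr.one_lt.le
                           linarith) hphi0.ne'
        linarith
  · have hn' : n = 2 := by omega
    subst hn'
    have hex : ∃ r, r.Prime ∧ r ∣ a + 1 ∧ r ≠ 2 := by
      by_contra hc
      push Not at hc
      exact h2 ⟨rfl, _, Nat.eq_prime_pow_of_unique_prime_dvd (by omega)
        (fun {d} hd hda => hc d hd hda)⟩
    obtain ⟨r, hr, hra, hr2⟩ := hex
    refine ⟨r, hr, ?_, ?_⟩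
    · have h1 : a ^ 2 - 1 = (a + 1) * (a - 1) := by
        obtain ⟨b, rfl⟩ : ∃ b, a = b + 1 := ⟨a - 1, by omega⟩
        have h3 : (b + 1) ^ 2 = (b + 1 + 1) * b + 1 := by ring
        rw [h3]
        simp
      rw [h1]
      exact hra.mul_right _
    · intro k hk0 hk2 hrk
      have hk1 : k = 1 := by omega
      subst hk1
      rw [pow_one] at hrk
      have h1 : r ∣ 2 := by
        have h3 := Nat.dvd_sub hra hrk
        have e : a + 1 - (a - 1) = 2 := by omega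
        rwa [e] at h3
      exact hr2 ((Nat.prime_dvd_prime_iff_eq hr Nat.prime_two).1 h1)

end Cfsg.Agent.Helper29
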